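import Mathlib
import Cfsg.Agent.Lib.SL2Lift
import Cfsg.Agent.H111.Pres
set_option linter.all false

-- part: H109/SL2a
section
/-!
# The relations of `SL₂(F)` from two values of the Weyl relation (helper109)

* `rel_of` : the relations `SL2Lift.Rel` from a torus homomorphism and the Weyl relation for representatives of the
  units modulo squares.
* `relSL` : the relations hold in `SL₂(F)`.
-/

set_option autoImplicit false

namespace Cfsg.Agent.H109

open Matrix Cfsg.Agent.Lib

variable {F : Type*} [Field F]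

open Classical in
/-- extension of a homomorphism of the units by `1` -/
noncomputable def ext1 {G : Type*} [Group G] (Hm : Fˣ →* G) (a : F) : G :=
  if ha : a = 0 then 1 else Hm (Units.mk0 a ha)

theorem ext1_of_ne {G : Type*} [Group G] (Hm : Fˣ →* G) {a : F} (ha : a ≠ 0) :
    ext1 Hm a = Hm (Units.mk0 a ha) := dif_neg ha

theorem ext1_unit {G : Type*} [Group G] (Hm : Fˣ →* G) (a : Fˣ) : ext1 Hm (a : F) = Hm a := by
  rw [ext1_of_ne Hm a.ne_zero]
  congr 1
  exact Units.ext rfl

/-- The relations from few Weyl relations. -/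
theorem rel_of {G : Type*} [Group G] {x : F → G} {w : G} (Hm : Fˣ →* G) (hx : ∀ s t, x (s + t) = x s * x t)
    (hc : ∀ (a : Fˣ) (t : F), Hm a * x t * (Hm a)⁻¹ = x ((a : F) ^ 2 * t))
    (wh : ∀ a : Fˣ, w * Hm a * w⁻¹ = (Hm a)⁻¹) (ww : w * w = Hm (-1))
    (wx : ∀ t : Fˣ, ∃ a s : Fˣ, t = a ^ 2 * s ∧
      w * x (s : F) * w = x (-((s⁻¹ : Fˣ) : F)) * Hm (-s⁻¹) * w * x (-((s⁻¹ : Fˣ) : F))) :
    SL2Lift.Rel x (ext1 Hm) w where
  add := hx
  mul := by
    intro a b ha hb
    rw [ext1_of_ne _ ha, ext1_of_ne _ hb, ext1_of_ne _ (mul_ne_zero ha hb), ← map_mul]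
    congr 1
    exact Units.ext rfl
  conj := by
    intro a t ha
    have := hc (Units.mk0 a ha) t
    rw [Units.val_mk0] at this
    rw [ext1_of_ne _ ha, ← this]
    simp
  wh := by
    intro a ha
    rw [ext1_of_ne _ ha, ext1_of_ne _ (inv_ne_zero ha)]
    have e : Units.mk0 a⁻¹ (inv_ne_zero ha) = (Units.mk0 a ha)⁻¹ := Units.ext (by simp)
    rw [e, map_inv, ← wh]
    group
  ww := by
    rw [ww, ext1_of_ne _ (neg_ne_zero.2 one_ne_zero)]
    congr 1
    exact Units.ext (by simp)
  wx := by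
    intro t ht
    obtain ⟨a, s, hts, hs⟩ := wx (Units.mk0 t ht)
    have ht' : t = (a : F) ^ 2 * (s : F) := by
      have := congrArg (Units.val) hts
      simpa using this
    have e0 : ext1 Hm (-t⁻¹) = Hm (-(a ^ 2 * s)⁻¹) := by
      rw [← hts, ← ext1_unit]
      congr 1
    have hai : ∀ t : F, (Hm a)⁻¹ * x t * Hm a = x (((a⁻¹ : Fˣ) : F) ^ 2 * t) := by
      intro t
      have := hc a⁻¹ t
      rw [map_inv, inv_inv] at this
      exact this
    have e1 : w * x t * w = (Hm a)⁻¹ * (w * x (s : F) * w) * Hm a := by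
      have h1 : w * Hm a = (Hm a)⁻¹ * w := by rw [← wh]; group
      have h2 : (Hm a)⁻¹ * w = w * Hm a := h1.symm
      rw [ht', ← hc]
      calc w * (Hm a * x (s : F) * (Hm a)⁻¹) * w = (w * Hm a) * x (s : F) * ((Hm a)⁻¹ * w) := by group
        _ = ((Hm a)⁻¹ * w) * x (s : F) * (w * Hm a) := by rw [h1, h2]
        _ = _ := by group
    have e2 : (Hm a)⁻¹ * Hm (-s⁻¹) * w * Hm a = Hm (-(a ^ 2 * s)⁻¹) * w := by
      have h1 : w * Hm a = (Hm a)⁻¹ * w := by rw [← wh]; group
      rw [mul_assoc, h1, ← mul_assoc, ← map_inv, ← map_mul, ← map_mul]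
      congr 2
      rw [mul_neg, neg_mul]
      congr 1
      rw [mul_inv, sq, mul_inv]
      exact mul_right_comm _ _ _
    rw [e1, hs, e0]
    have e3 : x (-t⁻¹) = (Hm a)⁻¹ * x (-((s⁻¹ : Fˣ) : F)) * Hm a := by
      rw [hai]
      congr 1
      rw [ht', mul_inv]
      push_cast
      simp [inv_pow]
    have e4 : ∀ X A B H W : G, H⁻¹ * (X * A * W * X) * H = (H⁻¹ * X * H) * (H⁻¹ * A * W * H) * (H⁻¹ * X * H) := by
      intro X A B H W
      group
    rw [e3, e4 _ _ 1, e2]
    simp only [mul_assoc]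

variable (F) in
/-- the diagonal homomorphism -/
noncomputable def dH : Fˣ →* SpecialLinearGroup (Fin 2) F where
  toFun a := SL2Lift.H (a : F) a.ne_zero
  map_one' := by
    apply SL2Lift.ext' <;> simp [SL2Lift.H]
  map_mul' a b := by
    apply SL2Lift.ext' <;> rw [SL2Lift.mulH] <;> simp [SL2Lift.H, mul_comm]

theorem dH_apply (a : Fˣ) : dH F a = SL2Lift.H (a : F) a.ne_zero := rfl

/-- The relations hold in `SL₂(F)`. -/
theorem relSL : SL2Lift.Rel (SL2Lift.X : F → _) (ext1 (dH F)) SL2Lift.W where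
  add := by
    intro s t
    apply SL2Lift.ext' <;> rw [SL2Lift.mulX] <;> simp [SL2Lift.X, add_comm]
  mul := by
    intro a b ha hb
    rw [ext1_of_ne _ ha, ext1_of_ne _ hb, ext1_of_ne _ (mul_ne_zero ha hb), ← map_mul]
    congr 1
    exact Units.ext rfl
  conj := by
    intro a t ha
    rw [ext1_of_ne _ ha, dH_apply]
    apply SL2Lift.ext' <;> rw [SL2Lift.mulH, SL2Lift.mulX] <;> simp [SL2Lift.H, SL2Lift.X]
    field_simp
  wh := by
    intro a ha
    rw [ext1_of_ne _ ha, ext1_of_ne _ (inv_ne_zero ha), dH_apply, dH_apply]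
    apply SL2Lift.ext' <;> rw [SL2Lift.mulH, SL2Lift.mulW] <;> simp [SL2Lift.H, SL2Lift.W]
  ww := by
    rw [ext1_of_ne _ (neg_ne_zero.2 one_ne_zero), dH_apply]
    apply SL2Lift.ext' <;> rw [SL2Lift.mulW] <;> simp [SL2Lift.H, SL2Lift.W]
  wx := by
    intro t ht
    rw [ext1_of_ne _ (neg_ne_zero.2 (inv_ne_zero ht)), dH_apply]
    apply SL2Lift.ext' <;> rw [SL2Lift.mulW, SL2Lift.mulX] <;> rw [SL2Lift.mulX, SL2Lift.mulW, SL2Lift.mulH] <;>
      simp [SL2Lift.H, SL2Lift.W, SL2Lift.X, ht]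

end Cfsg.Agent.H109
end

-- part: H109/Base
section
/-!
# Presentations: criterion, Horner words, root groups (helper109)

* `of_hom` : a criterion for `HasPres G k m`.
* `pw h u l` : the word `u^(l 0) * (u^(l 1))^h * …`.
* `root_hom`, `exists_x` : an abelian group of exponent `p` with an operator satisfying the minimal polynomial
  of a generator of a finite field is a module over the field.
* `comm_of_trinomial` : the trick of Campbell, Robertson and Williams.
-/

set_option autoImplicit false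

namespace Cfsg.Agent.H109

open Polynomial

/-- Criterion for a presentation. -/
theorem of_hom {G : Type*} [Group G] {k : ℕ} (g : Fin k → G) (hg : Subgroup.closure (Set.range g) = ⊤)
    (R : List (FreeGroup (Fin k))) (hR : ∀ r ∈ R, FreeGroup.lift g r = 1)
    (H : ∀ (J : Type) [Group J] (a : Fin k → J), Subgroup.closure (Set.range a) = ⊤ →
      (∀ r ∈ R, FreeGroup.lift a r = 1) → (∃ θ : J →* G, ∀ i, θ (a i) = g i) →
      ∃ ψ : G →* J, ∀ i, ψ (g i) = a i) : H111.HasPres G k R.length := by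
  classical
  have hsurj : Function.Surjective (FreeGroup.lift g) := by
    rw [← MonoidHom.range_eq_top, FreeGroup.range_lift_eq_closure, hg]
  refine H111.hasPres_iff.2 (H111.Quo.of_inj (FreeGroup.lift g) hsurj R hR ?_)
  intro φ θ hφ hθ hr
  have hφl : φ = FreeGroup.lift (fun i => φ (FreeGroup.of i)) := by
    ext i
    simp
  obtain ⟨ψ, hψ⟩ := H _ (fun i => φ (FreeGroup.of i)) (by
    rw [← FreeGroup.range_lift_eq_closure, ← hφl]
    exact MonoidHom.range_eq_top.2 hφ) (by
    intro r hr'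
    rw [← hφl]
    exact hr r hr') ⟨θ, fun i => by rw [hθ]; simp⟩
  have hc : ψ.comp θ = MonoidHom.id _ := by
    refine MonoidHom.eq_of_eqOn_dense (s := Set.range fun i => φ (FreeGroup.of i)) ?_ ?_
    · rw [← FreeGroup.range_lift_eq_closure, ← hφl]
      exact MonoidHom.range_eq_top.2 hφ
    · rintro _ ⟨i, rfl⟩
      simp only [MonoidHom.comp_apply, MonoidHom.id_apply]
      rw [hθ, FreeGroup.lift_apply_of, hψ]
  intro a b hab
  have := congrArg ψ hab
  rw [← MonoidHom.comp_apply, ← MonoidHom.comp_apply, hc] at this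
  exact this

section words

variable {G : Type*} [Group G]

/-- Horner word: `u ^ (l 0) * (u ^ (l 1)) ^ h * …`, with `x ^ h = h * x * h⁻¹`. -/
def pw (h u : G) : List ℤ → G
  | [] => 1
  | a :: l => u ^ a * (h * pw h u l * h⁻¹)

@[simp] theorem pw_nil (h u : G) : pw h u [] = 1 := rfl

@[simp] theorem pw_cons (h u : G) (a : ℤ) (l : List ℤ) :
    pw h u (a :: l) = u ^ a * (h * pw h u l * h⁻¹) := rfl

theorem map_pw {K : Type*} [Group K] (φ : G →* K) (h u : G) (l : List ℤ) :
    φ (pw h u l) = pw (φ h) (φ u) l := by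
  induction l with
  | nil => simp
  | cons a l ih => simp [ih]

/-- Horner evaluation. -/
def ev {R : Type*} [Ring R] (γ : R) : List ℤ → R
  | [] => 0
  | a :: l => (a : R) + γ * ev γ l

@[simp] theorem ev_nil {R : Type*} [Ring R] (γ : R) : ev γ [] = 0 := rfl

@[simp] theorem ev_cons {R : Type*} [Ring R] (γ : R) (a : ℤ) (l : List ℤ) :
    ev γ (a :: l) = (a : R) + γ * ev γ l := rfl

theorem map_ev {R S : Type*} [Ring R] [Ring S] (φ : R →+* S) (γ : R) (l : List ℤ) :
    φ (ev γ l) = ev (φ γ) l := by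
  induction l with
  | nil => simp
  | cons a l ih => simp [ih]

theorem ev_range {R : Type*} [Ring R] (γ : R) (n : ℕ) : ∀ f : ℕ → ℤ,
    ev γ ((List.range n).map f) = ∑ i ∈ Finset.range n, (f i : R) * γ ^ i := by
  induction n with
  | zero => intro f; simp
  | succ n ih =>
    intro f
    rw [List.range_succ_eq_map, List.map_cons, ev_cons, List.map_map, ih, Finset.sum_range_succ',
      Finset.mul_sum, add_comm]
    congr 1
    · refine Finset.sum_congr rfl fun i _ => ?_
      simp only [Function.comp_apply, Nat.succ_eq_add_one, pow_succ']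
      rw [← mul_assoc, ← mul_assoc, (Int.cast_commute (f (i + 1)) γ).eq]
    · simp

/-- The list of coefficients of a polynomial over `ZMod p`. -/
noncomputable def lst {p : ℕ} (P : (ZMod p)[X]) : List ℤ :=
  (List.range (P.natDegree + 1)).map fun i => ((P.coeff i).val : ℤ)

theorem ev_lst {p : ℕ} [NeZero p] {A : Type*} [Ring A] [Algebra (ZMod p) A] (P : (ZMod p)[X]) (γ : A) :
    ev γ (lst P) = aeval γ P := by
  rw [lst, ev_range, Polynomial.aeval_eq_sum_range]
  refine Finset.sum_congr rfl fun i _ => ?_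
  rw [Algebra.smul_def]
  congr 1
  have : ((P.coeff i).val : ZMod p) = P.coeff i := ZMod.natCast_zmod_val _
  rw [Int.cast_natCast, ← map_natCast (algebraMap (ZMod p) A), this]

/-- Words in a root group. -/
theorem pw_root {F : Type*} [Ring F] {x : F → G} (hx : ∀ s t, x (s + t) = x s * x t) {h : G} {γ : F}
    (hh : ∀ t, h * x t * h⁻¹ = x (γ * t)) (t : F) (l : List ℤ) : pw h (x t) l = x (ev γ l * t) := by
  have h0 : x 0 = 1 := by
    have := hx 0 0
    rw [add_zero] at this
    exact (mul_eq_left.1 this.symm)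
  have hn : ∀ s, x (-s) = (x s)⁻¹ := fun s => by
    rw [eq_inv_iff_mul_eq_one, ← hx, neg_add_cancel, h0]
  have hnat : ∀ (n : ℕ) s, x s ^ n = x (n * s) := by
    intro n s
    induction n with
    | zero => simp [h0]
    | succ n ih => rw [pow_succ, ih, ← hx]; congr 1; push_cast; rw [add_mul, one_mul]
  have hz : ∀ (n : ℤ) s, x s ^ n = x (n * s) := by
    intro n s
    obtain ⟨m, rfl | rfl⟩ := n.eq_nat_or_neg
    · rw [zpow_natCast, hnat, Int.cast_natCast]
    · rw [zpow_neg, zpow_natCast, hnat, ← hn]; congr 1; push_cast; rw [neg_mul]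
  induction l with
  | nil => simp [h0]
  | cons a l ih => rw [pw_cons, ih, hh, hz, ← hx, ev_cons, add_mul, mul_assoc]

end words

section module

/-- An operator annihilated by the minimal polynomial of a generator of the field makes the module a vector space
over the field. -/
theorem root_hom {p : ℕ} [Fact p.Prime] {F : Type*} [Field F] [Finite F] [Algebra (ZMod p) F] {E : Type*}
    [Ring E] [Algebra (ZMod p) E] (α : F) (hα : Algebra.adjoin (ZMod p) {α} = ⊤)
    (Y : E) (hY : aeval Y (minpoly (ZMod p) α) = 0) :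
    ∃ Ψ : F →+* E, Ψ α = Y := by
  have hs : Function.Surjective (aeval α : (ZMod p)[X] →ₐ[ZMod p] F) := by
    rw [← AlgHom.range_eq_top, ← Algebra.adjoin_singleton_eq_range_aeval, hα]
  have hk : RingHom.ker (aeval α : (ZMod p)[X] →ₐ[ZMod p] F).toRingHom ≤
      RingHom.ker (aeval Y : (ZMod p)[X] →ₐ[ZMod p] E).toRingHom := by
    intro P hP
    rw [RingHom.mem_ker] at hP ⊢
    obtain ⟨Q, rfl⟩ := minpoly.dvd (ZMod p) α hP
    change aeval Y _ = 0
    rw [map_mul, hY, zero_mul]
  refine ⟨RingHom.liftOfSurjective _ hs ⟨(aeval Y : (ZMod p)[X] →ₐ[ZMod p] E).toRingHom, hk⟩, ?_⟩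
  have h1 := RingHom.liftOfRightInverse_comp_apply (aeval α : (ZMod p)[X] →ₐ[ZMod p] F).toRingHom
    (Function.surjInv hs) (Function.rightInverse_surjInv hs)
    ⟨(aeval Y : (ZMod p)[X] →ₐ[ZMod p] E).toRingHom, hk⟩ X
  have e1 : (aeval α : (ZMod p)[X] →ₐ[ZMod p] F).toRingHom X = α := aeval_X α
  have e2 : (aeval Y : (ZMod p)[X] →ₐ[ZMod p] E).toRingHom X = Y := aeval_X Y
  rw [e1] at h1
  exact h1.trans e2

/-- If `f(α) = γ`, where `f` vanishes at the points of `F` which are not conjugate to `α`, and `Y ^ q = Y`,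
`f(Y)` is a unit, then `m_α(Y) = 0`. -/
theorem exists_poly {p : ℕ} [Fact p.Prime] {F : Type*} [Field F] [Fintype F] [Algebra (ZMod p) F]
    (α : F) (hα : Algebra.adjoin (ZMod p) {α} = ⊤) (γ : F) :
    ∃ f g : (ZMod p)[X], aeval α f = γ ∧ f * minpoly (ZMod p) α = g * (X ^ Fintype.card F - X) := by
  have hα' : aeval α ((X : (ZMod p)[X]) ^ Fintype.card F - X) = 0 := by
    simp [FiniteField.pow_card]
  obtain ⟨f0, hf0⟩ := minpoly.dvd (ZMod p) α hα'
  have hne : aeval α f0 ≠ 0 := by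
    intro h0
    have hd := congrArg (fun P => aeval α (derivative P)) hf0
    simp only [derivative_mul, map_add, map_mul, h0, minpoly.aeval, mul_zero, zero_mul, add_zero] at hd
    rw [derivative_sub, derivative_X_pow, derivative_X] at hd
    have : ((Fintype.card F : ℕ) : (ZMod p)[X]) = 0 := by
      have hc : ((Fintype.card F : ℕ) : F) = 0 := FiniteField.cast_card_eq_zero F
      have hch : CharP F p := charP_of_injective_algebraMap (algebraMap (ZMod p) F).injective p
      have hdv := (CharP.cast_eq_zero_iff F p _).1 hc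
      exact (CharP.cast_eq_zero_iff (ZMod p)[X] p _).2 hdv
    simp [this] at hd
  have hs : Function.Surjective (aeval α : (ZMod p)[X] →ₐ[ZMod p] F) := by
    rw [← AlgHom.range_eq_top, ← Algebra.adjoin_singleton_eq_range_aeval, hα]
  obtain ⟨g, hg⟩ := hs (γ / aeval α f0)
  refine ⟨g * f0, g, ?_, ?_⟩
  · rw [map_mul, hg, div_mul_cancel₀ _ hne]
  · rw [hf0]; ring

end module

end Cfsg.Agent.H109
end

-- part: H109/Root
section
/-!
# Root groups from few relations (helper109)

* `comm_of_trinomial` : the trick of Campbell, Robertson and Williams.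
* `exists_x_core` : a root group `x : F → G` from an abelian group of exponent `p` generated by the conjugates of `u`.
-/

set_option autoImplicit false

namespace Cfsg.Agent.H109

open Polynomial
open scoped IsMulCommutative

section trinomial

variable {G : Type*} [Group G]

/-- **Campbell, Robertson, Williams**: if `a b = b a`, `u u^a = u^a u = u^b`, the conjugates of `u` by the powers of `a`
commute. -/
theorem comm_of_trinomial {u a b : G} (hab : Commute a b)
    (h1 : u * (a * u * a⁻¹) = b * u * b⁻¹) (h2 : (a * u * a⁻¹) * u = b * u * b⁻¹) (i j : ℤ) :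
    Commute (a ^ i * u * (a ^ i)⁻¹) (a ^ j * u * (a ^ j)⁻¹) := by
  -- shift
  have shift : ∀ (k m n : ℤ), Commute (a ^ m * u * (a ^ m)⁻¹) (a ^ n * u * (a ^ n)⁻¹) →
      Commute (a ^ (k + m) * u * (a ^ (k + m))⁻¹) (a ^ (k + n) * u * (a ^ (k + n))⁻¹) := by
    intro k m n hmn
    have := hmn.map (MulAut.conj (a ^ k)).toMonoidHom
    simp only [MulEquiv.toMonoidHom_eq_coe, MonoidHom.coe_coe, MulAut.conj_apply] at this
    have e : ∀ t : ℤ, a ^ (k + t) * u * (a ^ (k + t))⁻¹ = a ^ k * (a ^ t * u * (a ^ t)⁻¹) * (a ^ k)⁻¹ := by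
      intro t; rw [zpow_add]; group
    rw [e, e]
    exact this
  have key : ∀ n : ℕ, Commute u (a ^ (n : ℤ) * u * (a ^ (n : ℤ))⁻¹) := by
    intro n
    induction n using Nat.strong_induction_on with
    | _ n ih =>
      rcases n with _ | n
      · simp
      rcases n with _ | n
      · have e : u * (a * u * a⁻¹) = (a * u * a⁻¹) * u := h1.trans h2.symm
        have e' : Commute u (a * u * a⁻¹) := e
        simpa using e'
      · -- c_0 commutes with c_(n+1)
        have h0 := ih (n + 1) (by omega)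
        have hb := h0.map (MulAut.conj b).toMonoidHom
        simp only [MulEquiv.toMonoidHom_eq_coe, MonoidHom.coe_coe, MulAut.conj_apply] at hb
        have e1 : b * (a ^ ((n + 1 : ℕ) : ℤ) * u * (a ^ ((n + 1 : ℕ) : ℤ))⁻¹) * b⁻¹ =
            (a ^ ((n + 1 : ℕ) : ℤ) * u * (a ^ ((n + 1 : ℕ) : ℤ))⁻¹) *
            (a ^ ((n + 1 + 1 : ℕ) : ℤ) * u * (a ^ ((n + 1 + 1 : ℕ) : ℤ))⁻¹) := by
          have hz : Commute (a ^ ((n + 1 : ℕ) : ℤ)) b := hab.zpow_left _
          calc b * (a ^ ((n + 1 : ℕ) : ℤ) * u * (a ^ ((n + 1 : ℕ) : ℤ))⁻¹) * b⁻¹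
              = (b * a ^ ((n + 1 : ℕ) : ℤ)) * u * (b * a ^ ((n + 1 : ℕ) : ℤ))⁻¹ := by group
            _ = (a ^ ((n + 1 : ℕ) : ℤ) * b) * u * (a ^ ((n + 1 : ℕ) : ℤ) * b)⁻¹ := by rw [hz.eq]
            _ = a ^ ((n + 1 : ℕ) : ℤ) * (b * u * b⁻¹) * (a ^ ((n + 1 : ℕ) : ℤ))⁻¹ := by group
            _ = _ := by
              rw [← h1]
              have : a ^ ((n + 1 + 1 : ℕ) : ℤ) = a ^ ((n + 1 : ℕ) : ℤ) * a := by
                rw [← zpow_add_one]; congr 1
              rw [this]
              group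
        rw [e1, ← h1] at hb
        have e2 : a * u * a⁻¹ = a ^ (1 : ℤ) * u * (a ^ (1 : ℤ))⁻¹ := by rw [zpow_one]
        have c1 : Commute (a * u * a⁻¹) (a ^ ((n + 1 : ℕ) : ℤ) * u * (a ^ ((n + 1 : ℕ) : ℤ))⁻¹) := by
          have := shift 1 0 n (by simpa using ih n (by omega))
          rw [e2]
          have e3 : (1 : ℤ) + 0 = 1 := by norm_num
          have e4 : (1 : ℤ) + n = ((n + 1 : ℕ) : ℤ) := by push_cast; ring
          rw [e3, e4] at this
          exact this
        have c2 : Commute (a * u * a⁻¹) (a ^ ((n + 1 + 1 : ℕ) : ℤ) * u * (a ^ ((n + 1 + 1 : ℕ) : ℤ))⁻¹) := by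
          have := shift 1 0 (n + 1 : ℕ) (by simpa using ih (n + 1) (by omega))
          rw [e2]
          have e3 : (1 : ℤ) + 0 = 1 := by norm_num
          have e4 : (1 : ℤ) + ((n + 1 : ℕ) : ℤ) = ((n + 1 + 1 : ℕ) : ℤ) := by push_cast; ring
          rw [e3, e4] at this
          exact this
        have c3 := c1.mul_right c2
        have c4 := hb.mul_left c3.inv_left
        rw [mul_inv_cancel_right] at c4
        have c5 := h0.inv_right.mul_right c4
        rw [inv_mul_cancel_left] at c5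
        exact c5
  rcases le_total i j with hij | hij
  · obtain ⟨n, hn⟩ := Int.eq_ofNat_of_zero_le (sub_nonneg.2 hij)
    have := shift i 0 n (by simpa using key n)
    have e : i + (n : ℤ) = j := by omega
    rwa [add_zero, e] at this
  · obtain ⟨n, hn⟩ := Int.eq_ofNat_of_zero_le (sub_nonneg.2 hij)
    have := shift j 0 n (by simpa using key n)
    have e : j + (n : ℤ) = i := by omega
    rw [add_zero, e] at this
    exact this.symm

end trinomial

section core

variable {G : Type*} [Group G] {p : ℕ} [Fact p.Prime] {F : Type*} [Field F] [Fintype F] [Algebra (ZMod p) F]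

/-- The root group, auxiliary version. -/
theorem exists_x_aux (U : Subgroup G) [IsMulCommutative U] [Module (ZMod p) (Additive U)]
    {u a h : G} (hu : u ∈ U) (ha : a ∈ Subgroup.normalizer (U : Set G)) (hh : h ∈ Subgroup.normalizer (U : Set G))
    (hah : Commute a h)
    (hgen : U ≤ Subgroup.closure {g | ∃ i : ℤ, g = a ^ i * u * (a ^ i)⁻¹})
    {α γ : F} (hα : Algebra.adjoin (ZMod p) {α} = ⊤) {l : List ℤ} (hl : ev α l = γ)
    (hact : h * u * h⁻¹ = pw a u l)
    (hpoly : pw a u (lst (minpoly (ZMod p) α)) = 1 ∨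
      ∃ f g : (ZMod p)[X], l = lst f ∧ f * minpoly (ZMod p) α = g * (X ^ Fintype.card F - X) ∧
        a ^ (Fintype.card F - 1) = 1) :
    ∃ x : F → G, (∀ s t, x (s + t) = x s * x t) ∧ x 1 = u ∧ (∀ t, a * x t * a⁻¹ = x (α * t)) ∧
      (∀ t, h * x t * h⁻¹ = x (γ * t)) ∧ (∀ t, x t ∈ U) := by
  classical
  -- conjugation
  let N := Subgroup.normalizer (U : Set G)
  have hN : ∀ g ∈ N, ∀ v ∈ U, g * v * g⁻¹ ∈ U := fun g hg v hv =>
    (Subgroup.mem_normalizer_iff.1 hg v).1 hv
  let Φ : N →* Module.End (ZMod p) (Additive U) :=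
    { toFun := fun g => AddMonoidHom.toZModLinearMap p
        { toFun := fun v => Additive.ofMul ⟨g.1 * (Additive.toMul v).1 * g.1⁻¹, hN _ g.2 _ (Additive.toMul v).2⟩
          map_zero' := by
            apply Additive.toMul.injective
            apply Subtype.ext
            simp
          map_add' := by
            intro v w
            apply Additive.toMul.injective
            apply Subtype.ext
            simp [mul_assoc] }
      map_one' := by
        refine LinearMap.ext fun v => ?_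
        rw [Module.End.one_apply]
        refine Additive.toMul.injective (Subtype.ext ?_)
        change (1 : G) * ((Additive.toMul v : U) : G) * (1 : G)⁻¹ = ((Additive.toMul v : U) : G)
        simp
      map_mul' := by
        intro g k
        refine LinearMap.ext fun v => ?_
        rw [Module.End.mul_apply]
        refine Additive.toMul.injective (Subtype.ext ?_)
        change ((g : G) * (k : G)) * ((Additive.toMul v : U) : G) * ((g : G) * (k : G))⁻¹ =
          (g : G) * ((k : G) * ((Additive.toMul v : U) : G) * (k : G)⁻¹) * (g : G)⁻¹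
        group }
  have hΦ : ∀ (g : N) (v : Additive U), ((Additive.toMul (Φ g v) : U) : G) =
      g.1 * (Additive.toMul v).1 * g.1⁻¹ := fun g v => rfl
  let Y := Φ ⟨a, ha⟩
  let T := Φ ⟨h, hh⟩
  let u0 : Additive U := Additive.ofMul ⟨u, hu⟩
  -- Lemma A
  have hA : ∀ (g : N) (v : Additive U) (l : List ℤ),
      ((Additive.toMul ((ev (Φ g) l) v) : U) : G) = pw g.1 (Additive.toMul v).1 l := by
    intro g v l
    induction l with
    | nil => simp
    | cons c l ih =>
      have e1 : ((Additive.toMul ((c : Module.End (ZMod p) (Additive U)) v) : U) : G) =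
          ((Additive.toMul v : U) : G) ^ c := by
        rw [Module.End.intCast_apply, toMul_zsmul]
        rfl
      rw [ev_cons, pw_cons, LinearMap.add_apply, toMul_add, Subgroup.coe_mul, e1, Module.End.mul_apply, hΦ, ih]
  -- Lemma B
  have hB : ∀ S : Module.End (ZMod p) (Additive U), S * Y = Y * S → S u0 = 0 → S = 0 := by
    intro S hS hS0
    have hYn : ∀ n : ℕ, Y ^ n = Φ (⟨a, ha⟩ ^ n) := fun n => (map_pow Φ _ n).symm
    have h1 : ∀ i : ℤ, S * Φ (⟨a, ha⟩ ^ i) = Φ (⟨a, ha⟩ ^ i) * S := by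
      have hcN : Commute S (Φ ⟨a, ha⟩) := hS
      intro i
      have hun : ∀ g : N, Φ g * Φ g⁻¹ = 1 := fun g => by rw [← map_mul, mul_inv_cancel, map_one]
      have hun' : ∀ g : N, Φ g⁻¹ * Φ g = 1 := fun g => by rw [← map_mul, inv_mul_cancel, map_one]
      obtain ⟨n, rfl | rfl⟩ := i.eq_nat_or_neg
      · rw [zpow_natCast, map_pow]
        exact (hcN.pow_right n).eq
      · rw [zpow_neg, zpow_natCast]
        have h2 : Commute S (Φ (⟨a, ha⟩ ^ n)) := by rw [map_pow]; exact hcN.pow_right n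
        calc S * Φ ((⟨a, ha⟩ ^ n)⁻¹) = (Φ ((⟨a, ha⟩ ^ n)⁻¹) * Φ (⟨a, ha⟩ ^ n)) * S * Φ ((⟨a, ha⟩ ^ n)⁻¹) := by
              rw [hun', one_mul]
          _ = Φ ((⟨a, ha⟩ ^ n)⁻¹) * (S * Φ (⟨a, ha⟩ ^ n)) * Φ ((⟨a, ha⟩ ^ n)⁻¹) := by
              rw [h2.eq]; simp only [mul_assoc]
          _ = Φ ((⟨a, ha⟩ ^ n)⁻¹) * S := by
              rw [mul_assoc, mul_assoc S, hun, mul_one]
    refine LinearMap.ext fun v => ?_
    change S v = 0
    have h3 : ∀ g ∈ Subgroup.closure {g | ∃ i : ℤ, g = a ^ i * u * (a ^ i)⁻¹}, ∀ hg : g ∈ U,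
        S (Additive.ofMul ⟨g, hg⟩) = 0 := by
      intro g hg
      have hle : Subgroup.closure {g | ∃ i : ℤ, g = a ^ i * u * (a ^ i)⁻¹} ≤ U := by
        rw [Subgroup.closure_le]
        rintro _ ⟨i, rfl⟩
        exact hN _ (Subgroup.zpow_mem _ ha i) _ hu
      induction hg using Subgroup.closure_induction with
      | mem y hy =>
        obtain ⟨i, rfl⟩ := hy
        intro hg
        have h4 := congrArg (fun R : Module.End (ZMod p) (Additive U) => R u0) (h1 i)
        simp only [Module.End.mul_apply] at h4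
        rw [hS0, map_zero] at h4
        rw [← h4]
        congr 1
      | one => intro hg; exact map_zero S
      | mul y z hy hz ihy ihz =>
        intro hg
        have : (Additive.ofMul (⟨y * z, hg⟩ : U)) = Additive.ofMul ⟨y, hle hy⟩ + Additive.ofMul ⟨z, hle hz⟩ := rfl
        rw [this, map_add, ihy, ihz, add_zero]
      | inv y hy ihy =>
        intro hg
        have : (Additive.ofMul (⟨y⁻¹, hg⟩ : U)) = - Additive.ofMul ⟨y, hle hy⟩ := rfl
        rw [this, map_neg, ihy, neg_zero]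
    exact h3 _ (hgen (Additive.toMul v).2) (Additive.toMul v).2
  have hYT : T * Y = Y * T := by
    change Φ _ * Φ _ = Φ _ * Φ _
    rw [← map_mul, ← map_mul]
    congr 1
    exact Subtype.ext hah.symm.eq
  have hevY : ∀ l : List ℤ, ev Y l * Y = Y * ev Y l := by
    intro l
    induction l with
    | nil => simp
    | cons c l ih =>
      rw [ev_cons, add_mul, mul_add, mul_assoc, ih, (Int.cast_commute c Y).eq]
  have hTl : T = ev Y l := by
    have := hB (T - ev Y l) (by rw [sub_mul, mul_sub, hYT, hevY]) (by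
      rw [LinearMap.sub_apply, sub_eq_zero]
      apply Additive.toMul.injective
      apply Subtype.ext
      rw [hA]
      exact hact)
    exact sub_eq_zero.1 this
  have hmin : aeval Y (minpoly (ZMod p) α) = 0 := by
    rcases hpoly with h1 | ⟨f, g, hlf, hfg, haq⟩
    · rw [← ev_lst]
      apply hB _ (hevY _)
      apply Additive.toMul.injective
      apply Subtype.ext
      rw [hA]
      exact h1
    · have hY : Y ^ Fintype.card F - Y = 0 := by
        have h1 : Y ^ (Fintype.card F - 1) = 1 := by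
          change Φ _ ^ _ = 1
          rw [← map_pow]
          have : (⟨a, ha⟩ : N) ^ (Fintype.card F - 1) = 1 := Subtype.ext haq
          rw [this, map_one]
        have h2 : Fintype.card F = (Fintype.card F - 1) + 1 := by
          have := Fintype.card_pos (α := F)
          omega
        rw [h2, pow_succ, h1, one_mul, sub_self]
      have hT : T = aeval Y f := by rw [hTl, hlf, ev_lst]
      have h3 : T * aeval Y (minpoly (ZMod p) α) = 0 := by
        rw [hT, ← map_mul, hfg, map_mul, map_sub, map_pow, aeval_X, hY, mul_zero]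
      have h4 : Φ (⟨h, hh⟩)⁻¹ * T = 1 := by
        change Φ (⟨h, hh⟩)⁻¹ * Φ ⟨h, hh⟩ = 1
        rw [← map_mul, inv_mul_cancel, map_one]
      calc aeval Y (minpoly (ZMod p) α) = (Φ (⟨h, hh⟩)⁻¹ * T) * aeval Y (minpoly (ZMod p) α) := by
            rw [h4, one_mul]
        _ = 0 := by rw [mul_assoc, h3, mul_zero]
  obtain ⟨Ψ, hΨ⟩ := root_hom α hα Y hmin
  have hΨγ : Ψ γ = T := by rw [← hl, map_ev, hΨ, hTl]
  refine ⟨fun t => ((Additive.toMul (Ψ t u0) : U) : G), ?_, ?_, ?_, ?_, ?_⟩
  · intro s t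
    simp [map_add]
  · simp [u0]
  · intro t
    change a * ((Additive.toMul (Ψ t u0) : U) : G) * a⁻¹ = ((Additive.toMul (Ψ (α * t) u0) : U) : G)
    rw [map_mul, hΨ, Module.End.mul_apply]
    exact (hΦ ⟨a, ha⟩ _).symm
  · intro t
    change h * ((Additive.toMul (Ψ t u0) : U) : G) * h⁻¹ = ((Additive.toMul (Ψ (γ * t) u0) : U) : G)
    rw [map_mul, hΨγ, Module.End.mul_apply]
    exact (hΦ ⟨h, hh⟩ _).symm
  · intro t
    exact (Additive.toMul (Ψ t u0)).2

/-- The root group. -/
theorem exists_x_core (U : Subgroup G) (hc : ∀ v ∈ U, ∀ w ∈ U, v * w = w * v) (hp : ∀ v ∈ U, v ^ p = 1)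
    {u a h : G} (hu : u ∈ U) (ha : a ∈ Subgroup.normalizer (U : Set G)) (hh : h ∈ Subgroup.normalizer (U : Set G))
    (hah : Commute a h)
    (hgen : U ≤ Subgroup.closure {g | ∃ i : ℤ, g = a ^ i * u * (a ^ i)⁻¹})
    {α γ : F} (hα : Algebra.adjoin (ZMod p) {α} = ⊤) {l : List ℤ} (hl : ev α l = γ)
    (hact : h * u * h⁻¹ = pw a u l)
    (hpoly : pw a u (lst (minpoly (ZMod p) α)) = 1 ∨
      ∃ f g : (ZMod p)[X], l = lst f ∧ f * minpoly (ZMod p) α = g * (X ^ Fintype.card F - X) ∧
        a ^ (Fintype.card F - 1) = 1) :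
    ∃ x : F → G, (∀ s t, x (s + t) = x s * x t) ∧ x 1 = u ∧ (∀ t, a * x t * a⁻¹ = x (α * t)) ∧
      (∀ t, h * x t * h⁻¹ = x (γ * t)) ∧ (∀ t, x t ∈ U) := by
  have hI : IsMulCommutative U := ⟨⟨fun v w => Subtype.ext (hc v v.2 w w.2)⟩⟩
  have hM : ∀ v : Additive U, p • v = 0 := fun v => Additive.toMul.injective (by
    rw [toMul_nsmul, toMul_zero]
    exact Subtype.ext (hp _ (Additive.toMul v).2))
  let _ : Module (ZMod p) (Additive U) := AddCommGroup.zmodModule (n := p) hM
  exact exists_x_aux U hu ha hh hah hgen hα hl hact hpoly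

end core

end Cfsg.Agent.H109
end

-- part: H109/Root2
section
/-!
# Root groups from few relations, working versions (helper109)

* `exists_x_self` : the operator is `a` itself.
* `exists_x_fin` : `h` of finite order commuting with `a`, minimal polynomial given.
* `exists_x_f` : `h` of finite order, `a` a power of `h`, no minimal polynomial.
-/

set_option autoImplicit false

namespace Cfsg.Agent.H109

open Polynomial

/-- the subgroup generated by the conjugates of `u` under `a` -/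
def cu {G : Type*} [Group G] (a u : G) : Subgroup G :=
  Subgroup.closure {g | ∃ i : ℤ, g = a ^ i * u * (a ^ i)⁻¹}

section

variable {G : Type*} [Group G]

theorem mem_cu (a u : G) (i : ℤ) : a ^ i * u * (a ^ i)⁻¹ ∈ cu a u := Subgroup.subset_closure ⟨i, rfl⟩

theorem self_mem_cu (a u : G) : u ∈ cu a u := by
  have := mem_cu a u 0
  simpa using this

theorem cu_comm {a u : G} (hc : ∀ i j : ℤ, Commute (a ^ i * u * (a ^ i)⁻¹) (a ^ j * u * (a ^ j)⁻¹)) :
    ∀ v ∈ cu a u, ∀ w ∈ cu a u, v * w = w * v := by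
  have h1 : IsMulCommutative (Subgroup.closure {g | ∃ i : ℤ, g = a ^ i * u * (a ^ i)⁻¹}) :=
    Subgroup.isMulCommutative_closure (by
      rintro _ ⟨i, rfl⟩ _ ⟨j, rfl⟩
      exact (hc i j).eq)
  intro v hv w hw
  exact congrArg Subtype.val (h1.is_comm.comm ⟨v, hv⟩ ⟨w, hw⟩)

theorem cu_pow {a u : G} (hc : ∀ i j : ℤ, Commute (a ^ i * u * (a ^ i)⁻¹) (a ^ j * u * (a ^ j)⁻¹)) {p : ℕ}
    (hp : u ^ p = 1) : ∀ v ∈ cu a u, v ^ p = 1 := by
  intro v hv
  induction hv using Subgroup.closure_induction with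
  | mem y hy =>
    obtain ⟨i, rfl⟩ := hy
    rw [conj_pow, hp]; simp
  | one => simp
  | mul y z hy hz ihy ihz =>
    have : Commute y z := cu_comm hc y hy z hz
    rw [this.mul_pow, ihy, ihz, one_mul]
  | inv y hy ihy => rw [inv_pow, ihy, inv_one]

theorem conj_mem_cu {a u h : G} (hah : Commute a h) (hu : h * u * h⁻¹ ∈ cu a u) :
    ∀ v ∈ cu a u, h * v * h⁻¹ ∈ cu a u := by
  intro v hv
  induction hv using Subgroup.closure_induction with
  | mem y hy =>
    obtain ⟨i, rfl⟩ := hy
    have e : h * (a ^ i * u * (a ^ i)⁻¹) * h⁻¹ = a ^ i * (h * u * h⁻¹) * (a ^ i)⁻¹ := by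
      have h1 : Commute (a ^ i) h := hah.zpow_left i
      calc h * (a ^ i * u * (a ^ i)⁻¹) * h⁻¹ = (h * a ^ i) * u * (h * a ^ i)⁻¹ := by group
        _ = (a ^ i * h) * u * (a ^ i * h)⁻¹ := by rw [h1.eq]
        _ = _ := by group
    rw [e]
    have h2 : ∀ w ∈ cu a u, a ^ i * w * (a ^ i)⁻¹ ∈ cu a u := by
      intro w hw
      induction hw using Subgroup.closure_induction with
      | mem y hy =>
        obtain ⟨j, rfl⟩ := hy
        have : a ^ i * (a ^ j * u * (a ^ j)⁻¹) * (a ^ i)⁻¹ = a ^ (i + j) * u * (a ^ (i + j))⁻¹ := by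
          rw [zpow_add]; group
        rw [this]
        exact mem_cu _ _ _
      | one => simp [one_mem]
      | mul y z hy hz ihy ihz =>
        have : a ^ i * (y * z) * (a ^ i)⁻¹ = (a ^ i * y * (a ^ i)⁻¹) * (a ^ i * z * (a ^ i)⁻¹) := by group
        rw [this]; exact mul_mem ihy ihz
      | inv y hy ihy =>
        have : a ^ i * y⁻¹ * (a ^ i)⁻¹ = (a ^ i * y * (a ^ i)⁻¹)⁻¹ := by group
        rw [this]; exact inv_mem ihy
    exact h2 _ hu
  | one => simp [one_mem]
  | mul y z hy hz ihy ihz =>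
    have : h * (y * z) * h⁻¹ = (h * y * h⁻¹) * (h * z * h⁻¹) := by group
    rw [this]; exact mul_mem ihy ihz
  | inv y hy ihy =>
    have : h * y⁻¹ * h⁻¹ = (h * y * h⁻¹)⁻¹ := by group
    rw [this]; exact inv_mem ihy

theorem pow_conj_mem {U : Subgroup G} {h : G} (hh : ∀ v ∈ U, h * v * h⁻¹ ∈ U) (n : ℕ) :
    ∀ v ∈ U, h ^ n * v * (h ^ n)⁻¹ ∈ U := by
  induction n with
  | zero => simp
  | succ n ih =>
    intro v hv
    have : h ^ (n + 1) * v * (h ^ (n + 1))⁻¹ = h * (h ^ n * v * (h ^ n)⁻¹) * h⁻¹ := by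
      rw [pow_succ']; group
    rw [this]
    exact hh _ (ih v hv)

theorem mem_norm_of {U : Subgroup G} {h : G} (hh : ∀ v ∈ U, h * v * h⁻¹ ∈ U) (hh' : ∀ v ∈ U, h⁻¹ * v * h ∈ U) :
    h ∈ Subgroup.normalizer (U : Set G) := by
  rw [Subgroup.mem_normalizer_iff]
  intro v
  refine ⟨hh v, fun hv => ?_⟩
  have := hh' _ hv
  have e : h⁻¹ * (h * v * h⁻¹) * h = v := by group
  rwa [e] at this

theorem mem_norm_fin {U : Subgroup G} {h : G} (hh : ∀ v ∈ U, h * v * h⁻¹ ∈ U) {n : ℕ} (hn : 0 < n)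
    (h1 : h ^ n = 1) : h ∈ Subgroup.normalizer (U : Set G) := by
  refine mem_norm_of hh fun v hv => ?_
  have e : h⁻¹ = h ^ (n - 1) := by
    rw [inv_eq_iff_mul_eq_one, ← pow_succ']
    have : n - 1 + 1 = n := by omega
    rw [this, h1]
  have := pow_conj_mem hh (n - 1) v hv
  rw [← e, inv_inv] at this
  exact this

theorem self_mem_norm (a u : G) : a ∈ Subgroup.normalizer (cu a u : Set G) := by
  have h1 : a * u * a⁻¹ ∈ cu a u := by
    have := mem_cu a u 1
    simpa using this
  have h2 : a⁻¹ * u * a⁻¹⁻¹ ∈ cu a u := by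
    have := mem_cu a u (-1)
    simpa using this
  refine mem_norm_of (conj_mem_cu (Commute.refl a) h1) fun v hv => ?_
  have := conj_mem_cu ((Commute.refl a).inv_right) h2 v hv
  rwa [inv_inv] at this

theorem pw_mem (a u : G) (l : List ℤ) : pw a u l ∈ cu a u := by
  induction l with
  | nil => exact one_mem _
  | cons c l ih =>
    rw [pw_cons]
    refine mul_mem (zpow_mem (self_mem_cu _ _) _) ?_
    exact (Subgroup.mem_normalizer_iff.1 (self_mem_norm a u) _).1 ih

end

variable {G : Type*} [Group G] {p : ℕ} [Fact p.Prime] {F : Type*} [Field F] [Fintype F] [Algebra (ZMod p) F]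

/-- The operator is `a` itself. -/
theorem exists_x_self {u a : G} (hp : u ^ p = 1)
    (hc : ∀ i j : ℤ, Commute (a ^ i * u * (a ^ i)⁻¹) (a ^ j * u * (a ^ j)⁻¹))
    {α : F} (hα : Algebra.adjoin (ZMod p) {α} = ⊤) (hpoly : pw a u (lst (minpoly (ZMod p) α)) = 1) :
    ∃ x : F → G, (∀ s t, x (s + t) = x s * x t) ∧ x 1 = u ∧ (∀ t, a * x t * a⁻¹ = x (α * t)) ∧
      (∀ t, x t ∈ cu a u) := by
  obtain ⟨x, h1, h2, h3, -, h5⟩ := exists_x_core (p := p) (cu a u) (cu_comm hc) (cu_pow hc hp) (self_mem_cu a u)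
    (self_mem_norm a u) (self_mem_norm a u) (Commute.refl a) le_rfl (α := α) (γ := α) hα (l := [0, 1])
    (by simp) (by simp) (Or.inl hpoly)
  exact ⟨x, h1, h2, h3, h5⟩

/-- `h` of finite order commuting with `a`. -/
theorem exists_x_fin {u a h : G} (hp : u ^ p = 1)
    (hc : ∀ i j : ℤ, Commute (a ^ i * u * (a ^ i)⁻¹) (a ^ j * u * (a ^ j)⁻¹)) (hah : Commute a h)
    {n : ℕ} (hn : 0 < n) (hh : h ^ n = 1)
    {α γ : F} (hα : Algebra.adjoin (ZMod p) {α} = ⊤) {l : List ℤ} (hl : ev α l = γ)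
    (hact : h * u * h⁻¹ = pw a u l) (hpoly : pw a u (lst (minpoly (ZMod p) α)) = 1) :
    ∃ x : F → G, (∀ s t, x (s + t) = x s * x t) ∧ x 1 = u ∧ (∀ t, a * x t * a⁻¹ = x (α * t)) ∧
      (∀ t, h * x t * h⁻¹ = x (γ * t)) ∧ (∀ t, x t ∈ cu a u) :=
  exists_x_core (p := p) (cu a u) (cu_comm hc) (cu_pow hc hp) (self_mem_cu a u)
    (self_mem_norm a u) (mem_norm_fin (conj_mem_cu hah (by rw [hact]; exact pw_mem _ _ _)) hn hh) hah le_rfl hα
    hl hact (Or.inl hpoly)

/-- `h` of order dividing `q - 1`, `a` a power of `h`, no minimal polynomial. -/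
theorem exists_x_f {u a h : G} (hp : u ^ p = 1)
    (hc : ∀ i j : ℤ, Commute (a ^ i * u * (a ^ i)⁻¹) (a ^ j * u * (a ^ j)⁻¹)) (hah : Commute a h)
    (hh : h ^ (Fintype.card F - 1) = 1) (haq : a ^ (Fintype.card F - 1) = 1)
    {α γ : F} (hα : Algebra.adjoin (ZMod p) {α} = ⊤) {f g : (ZMod p)[X]} (hf : aeval α f = γ)
    (hfg : f * minpoly (ZMod p) α = g * (X ^ Fintype.card F - X))
    (hact : h * u * h⁻¹ = pw a u (lst f)) :
    ∃ x : F → G, (∀ s t, x (s + t) = x s * x t) ∧ x 1 = u ∧ (∀ t, a * x t * a⁻¹ = x (α * t)) ∧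
      (∀ t, h * x t * h⁻¹ = x (γ * t)) ∧ (∀ t, x t ∈ cu a u) :=
  exists_x_core (p := p) (cu a u) (cu_comm hc) (cu_pow hc hp) (self_mem_cu a u)
    (self_mem_norm a u) (mem_norm_fin (conj_mem_cu hah (by rw [hact]; exact pw_mem _ _ _))
      (by have := Fintype.one_lt_card (α := F); omega) hh) hah le_rfl hα
    ((ev_lst f α).trans hf) hact (Or.inr ⟨f, g, rfl, hfg, haq⟩)

end Cfsg.Agent.H109
end

-- part: H109/FieldGen
section
/-!
# Generators of a finite field over the prime field (helper109)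
-/

set_option autoImplicit false

namespace Cfsg.Agent.H109

variable {p : ℕ} [Fact p.Prime] {F : Type*} [Field F] [Fintype F] [Algebra (ZMod p) F]

/-- An element which does not generate `F` lies in a proper subfield. -/
theorem exists_pow_of_adjoin_ne_top {β : F} (h : Algebra.adjoin (ZMod p) {β} ≠ ⊤) :
    ∃ k, 1 < p ^ k ∧ (p ^ k) ^ 2 ≤ Fintype.card F ∧ β ^ (p ^ k) = β := by
  classical
  set K := IntermediateField.adjoin (ZMod p) {β} with hK
  have hint : IsIntegral (ZMod p) β := Algebra.IsIntegral.isIntegral β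
  have hne : K ≠ ⊤ := by
    intro hKt
    apply h
    rw [← IntermediateField.adjoin_simple_toSubalgebra_of_isAlgebraic hint.isAlgebraic, ← hK, hKt]
    rfl
  have : Fintype K := Fintype.ofFinite K
  refine ⟨Module.finrank (ZMod p) K, ?_, ?_, ?_⟩
  · exact Nat.one_lt_pow (Module.finrank_pos).ne' (Fact.out : p.Prime).one_lt
  · have hc : Fintype.card K = p ^ Module.finrank (ZMod p) K := by
      rw [Module.card_eq_pow_finrank (K := ZMod p) (V := K), ZMod.card]
    have hF : Fintype.card F = Fintype.card K ^ Module.finrank K F := Module.card_eq_pow_finrank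
    rw [← hc, hF]
    apply Nat.pow_le_pow_right Fintype.card_pos
    have h1 : 0 < Module.finrank K F := Module.finrank_pos
    by_contra h2
    have h3 : Module.finrank K F = 1 := by omega
    exact hne (IntermediateField.finrank_eq_one_iff_eq_top.1 h3)
  · have hc : Fintype.card K = p ^ Module.finrank (ZMod p) K := by
      rw [Module.card_eq_pow_finrank (K := ZMod p) (V := K), ZMod.card]
    have h1 : (⟨β, IntermediateField.mem_adjoin_simple_self _ _⟩ : K) ^ Fintype.card K =
      ⟨β, IntermediateField.mem_adjoin_simple_self _ _⟩ := FiniteField.pow_card _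
    rw [hc] at h1
    exact congrArg Subtype.val h1

omit [Fintype F] in
/-- order of a generator -/
theorem order_gen [Fintype F] {ζ : Fˣ} (hζ : ∀ y, y ∈ Subgroup.zpowers ζ) : orderOf ζ = Fintype.card F - 1 := by
  classical
  rw [orderOf_eq_card_of_forall_mem_zpowers hζ, Nat.card_eq_fintype_card, Fintype.card_units]

/-- the square of a generator of the units generates the field -/
theorem adjoin_sq_eq_top {ζ : Fˣ} (hζ : ∀ y, y ∈ Subgroup.zpowers ζ) :
    Algebra.adjoin (ZMod p) {(ζ : F) ^ 2} = ⊤ := by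
  by_contra hne
  obtain ⟨k, h1, h2, h3⟩ := exists_pow_of_adjoin_ne_top hne
  have ho : orderOf ζ = Fintype.card F - 1 := order_gen hζ
  have h4 : ζ ^ (2 * (p ^ k - 1)) = 1 := by
    apply Units.ext
    push_cast
    have h5 : (ζ : F) ^ (2 * (p ^ k - 1)) * (ζ : F) ^ 2 = (ζ : F) ^ 2 := by
      rw [← pow_add]
      rw [← pow_mul] at h3
      have : 2 * (p ^ k - 1) + 2 = 2 * p ^ k := by omega
      rw [this]
      exact h3
    exact mul_right_cancel₀ (pow_ne_zero 2 ζ.ne_zero) (h5.trans (one_mul _).symm)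
  have h5 := orderOf_dvd_of_pow_eq_one h4
  rw [ho] at h5
  have h6 := Nat.le_of_dvd (by omega) h5
  have h7 : (p ^ k) ^ 2 - 1 ≤ 2 * (p ^ k - 1) := by omega
  generalize p ^ k = r at *
  obtain ⟨s, rfl⟩ : ∃ s, r = s + 2 := ⟨r - 2, by omega⟩
  have h8 : (s + 2) ^ 2 = s ^ 2 + 4 * s + 4 := by ring
  omega

/-- a generator of the units generates the field -/
theorem adjoin_eq_top {ζ : Fˣ} (hζ : ∀ y, y ∈ Subgroup.zpowers ζ) :
    Algebra.adjoin (ZMod p) {(ζ : F)} = ⊤ := by
  rw [eq_top_iff, ← adjoin_sq_eq_top (p := p) hζ]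
  apply Algebra.adjoin_le
  rw [Set.singleton_subset_iff]
  exact pow_mem (Algebra.self_mem_adjoin_singleton _ _) 2

/-- the element `((1 - ζ²) / 2 ζ)²` generates the field -/
theorem adjoin_alpha_eq_top {ζ : Fˣ} (hζ : ∀ y, y ∈ Subgroup.zpowers ζ) (h2 : (2 : F) ≠ 0)
    (h9 : Fintype.card F ≠ 9) :
    Algebra.adjoin (ZMod p) {((1 - (ζ : F) ^ 2) / (2 * ζ)) ^ 2} = ⊤ := by
  by_contra hne
  obtain ⟨k, h1, hk2, h3⟩ := exists_pow_of_adjoin_ne_top hne
  have hz := ζ.ne_zero
  have ho : orderOf ζ = Fintype.card F - 1 := order_gen hζ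
  have hch : CharP F p := charP_of_injective_algebraMap (algebraMap (ZMod p) F).injective p
  set α : F := ((1 - (ζ : F) ^ 2) / (2 * ζ)) ^ 2 with hα
  have e1 : (ζ : F) ^ 2 + ((ζ : F) ^ 2)⁻¹ = 4 * α + 2 := by
    rw [hα]
    field_simp
    ring
  have e2 : ((ζ : F) ^ 2 + ((ζ : F) ^ 2)⁻¹) ^ (p ^ k) = (ζ : F) ^ 2 + ((ζ : F) ^ 2)⁻¹ := by
    rw [e1]
    have h4 : (4 * α + 2) ^ p ^ k = (4 * α) ^ p ^ k + 2 ^ p ^ k := add_pow_char_pow (4 * α) 2 p k
    have h5 : ∀ n : ℕ, (n : F) ^ p ^ k = n := by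
      intro n
      have := map_natCast (iterateFrobenius F p k) n
      rwa [iterateFrobenius_def] at this
    rw [h4, mul_pow, h3]
    have h6 := h5 4
    have h7 := h5 2
    push_cast at h6 h7
    rw [h6, h7]
  rw [add_pow_char_pow] at e2
  generalize hr : p ^ k = r at *
  have e3 : (((ζ : F) ^ 2) ^ r - (ζ : F) ^ 2) * (((ζ : F) ^ 2) ^ r * (ζ : F) ^ 2 - 1) = 0 := by
    have hz2 : ((ζ : F) ^ 2) ^ r ≠ 0 := pow_ne_zero _ (pow_ne_zero _ hz)
    rw [inv_pow] at e2
    field_simp at e2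
    linear_combination e2
  have hcard : 1 < Fintype.card F := Fintype.one_lt_card
  have hodd : Odd r := by
    rw [← hr]
    have hp2 : p ≠ 2 := by
      intro hp
      subst hp
      exact h2 (by exact_mod_cast CharP.cast_eq_zero F 2)
    exact ((Fact.out : p.Prime).odd_of_ne_two hp2).pow
  have hr3 : 3 ≤ r := by
    obtain ⟨s, hs⟩ := hodd
    omega
  rcases mul_eq_zero.1 e3 with h | h
  · have h4 : ζ ^ (2 * (r - 1)) = 1 := by
      apply Units.ext
      push_cast
      have h5 : (ζ : F) ^ (2 * (r - 1)) * (ζ : F) ^ 2 = (ζ : F) ^ 2 := by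
        rw [← pow_add]
        rw [← pow_mul] at h
        have : 2 * (r - 1) + 2 = 2 * r := by omega
        rw [this]
        exact sub_eq_zero.1 h
      exact mul_right_cancel₀ (pow_ne_zero 2 hz) (h5.trans (one_mul _).symm)
    have h5 := orderOf_dvd_of_pow_eq_one h4
    rw [ho] at h5
    have h6 := Nat.le_of_dvd (by omega) h5
    obtain ⟨s, rfl⟩ : ∃ s, r = s + 3 := ⟨r - 3, by omega⟩
    have h8 : (s + 3) ^ 2 = s ^ 2 + 6 * s + 9 := by ring
    omega
  · have h4 : ζ ^ (2 * (r + 1)) = 1 := by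
      apply Units.ext
      push_cast
      have h5 : (ζ : F) ^ (2 * (r + 1)) = ((ζ : F) ^ 2) ^ r * (ζ : F) ^ 2 := by
        rw [← pow_mul, ← pow_add]
        congr 1
      rw [h5]
      exact sub_eq_zero.1 h
    have h5 := orderOf_dvd_of_pow_eq_one h4
    rw [ho] at h5
    have h6 := Nat.le_of_dvd (by omega) h5
    obtain ⟨s, rfl⟩ : ∃ s, r = s + 3 := ⟨r - 3, by omega⟩
    have h8 : (s + 3) ^ 2 = s ^ 2 + 6 * s + 9 := by ring
    have hs0 : s = 0 := by
      rcases Nat.eq_zero_or_pos s with h | h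
      · exact h
      · have : 1 ≤ s ^ 2 := Nat.one_le_pow _ _ h
        omega
    subst hs0
    have h10 : Fintype.card F - 1 ≤ 8 := by omega
    have h11 : 9 ≤ Fintype.card F := by simpa using hk2
    omega

end Cfsg.Agent.H109
end

-- part: H109/URel
section
/-!
# Few relations for a root group under a torus element (helper109)

* `URel γ m` : `m` relators in `u, h` which force, in a group with `h ^ (q - 1) = 1`, a root group
  `x : F → G` with `x 1 = u`, `x(t)^h = x(γ t)`.
* `uRel_odd` : `URel (ζ²) 4` for every finite field of odd order, `ζ` a generator of the units.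
* `uRel_two` : the same in characteristic two with three relators, without the hypothesis `h ^ (q - 1) = 1`.
-/

set_option autoImplicit false

universe v

namespace Cfsg.Agent.H109

open Polynomial

/-- `m` relators force a root group. -/
def URel {F : Type v} [Field F] [Fintype F] (γ : F) (m : ℕ) : Prop :=
  ∃ R : List (FreeGroup (Fin 2)), R.length ≤ m ∧
    (∀ (G : Type v) [Group G] (x : F → G) (h : G), (∀ s t, x (s + t) = x s * x t) →
      (∀ t, h * x t * h⁻¹ = x (γ * t)) → ∀ r ∈ R, FreeGroup.lift ![x 1, h] r = 1) ∧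
    (∀ (J : Type) [Group J] (u h : J), h ^ (Fintype.card F - 1) = 1 →
      (∀ r ∈ R, FreeGroup.lift ![u, h] r = 1) →
      ∃ x : F → J, (∀ s t, x (s + t) = x s * x t) ∧ x 1 = u ∧ (∀ t, h * x t * h⁻¹ = x (γ * t)) ∧
        (∀ t, x t ∈ Subgroup.closure {u, h}))

/-- the same without a hypothesis on the order of `h` -/
def URelS {F : Type v} [Field F] [Fintype F] (γ : F) (m : ℕ) : Prop :=
  ∃ R : List (FreeGroup (Fin 2)), R.length ≤ m ∧
    (∀ (G : Type v) [Group G] (x : F → G) (h : G), (∀ s t, x (s + t) = x s * x t) →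
      (∀ t, h * x t * h⁻¹ = x (γ * t)) → ∀ r ∈ R, FreeGroup.lift ![x 1, h] r = 1) ∧
    (∀ (J : Type) [Group J] (u h : J),
      (∀ r ∈ R, FreeGroup.lift ![u, h] r = 1) →
      ∃ x : F → J, (∀ s t, x (s + t) = x s * x t) ∧ x 1 = u ∧ (∀ t, h * x t * h⁻¹ = x (γ * t)) ∧
        (∀ t, x t ∈ Subgroup.closure {u, h}))

section aux

variable {G : Type*} [Group G]

theorem x_zero {F : Type*} [Ring F] {x : F → G} (hx : ∀ s t, x (s + t) = x s * x t) : x 0 = 1 := by
  have := hx 0 0
  rw [add_zero] at this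
  exact (mul_eq_left.1 this.symm)

theorem x_neg {F : Type*} [Ring F] {x : F → G} (hx : ∀ s t, x (s + t) = x s * x t) (s : F) :
    x (-s) = (x s)⁻¹ := by
  rw [eq_inv_iff_mul_eq_one, ← hx, neg_add_cancel, x_zero hx]

theorem x_pow {F : Type*} [Ring F] {x : F → G} (hx : ∀ s t, x (s + t) = x s * x t) (n : ℕ) (s : F) :
    x s ^ n = x (n * s) := by
  induction n with
  | zero => simp [x_zero hx]
  | succ n ih => rw [pow_succ, ih, ← hx]; congr 1; push_cast; rw [add_mul, one_mul]

theorem x_conj_pow {F : Type*} [Ring F] {x : F → G} {h : G} {γ : F} (hh : ∀ t, h * x t * h⁻¹ = x (γ * t))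
    (n : ℕ) (t : F) : h ^ n * x t * (h ^ n)⁻¹ = x (γ ^ n * t) := by
  induction n generalizing t with
  | zero => simp
  | succ n ih =>
    have : h ^ (n + 1) * x t * (h ^ (n + 1))⁻¹ = h * (h ^ n * x t * (h ^ n)⁻¹) * h⁻¹ := by
      rw [pow_succ']; group
    rw [this, ih, hh, pow_succ', mul_assoc]

theorem cu_le_closure (a u h : G) (ha : a ∈ Subgroup.closure {u, h}) : cu a u ≤ Subgroup.closure {u, h} := by
  unfold cu
  rw [Subgroup.closure_le]
  rintro _ ⟨i, rfl⟩
  have hu : u ∈ Subgroup.closure {u, h} := Subgroup.subset_closure (by simp)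
  exact mul_mem (mul_mem (zpow_mem ha i) hu) (inv_mem (zpow_mem ha i))

theorem lift_pw {k : ℕ} (a : Fin k → G) (h u : FreeGroup (Fin k)) (l : List ℤ) :
    FreeGroup.lift a (pw h u l) = pw (FreeGroup.lift a h) (FreeGroup.lift a u) l := map_pw _ _ _ _

theorem pw_one_left (u : G) (l : List ℤ) : pw 1 u l = u ^ (ev (1 : ℤ) l) := by
  induction l with
  | nil => simp
  | cons a l ih => simp [ih, zpow_add]

theorem pow_eq_one_of_cast {p : ℕ} [Fact p.Prime] {u : G} (hp : u ^ p = 1) {z : ℤ} (hz : (z : ZMod p) = 0) :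
    u ^ z = 1 := by
  obtain ⟨m, rfl⟩ := (ZMod.intCast_zmod_eq_zero_iff_dvd z p).1 hz
  rw [zpow_mul, zpow_natCast, hp, one_zpow]

end aux

/-- The prime field. -/
theorem exists_x_prime {G : Type*} [Group G] {p : ℕ} [Fact p.Prime] {F : Type*} [Field F] [Fintype F]
    [Algebra (ZMod p) F] (hF : Fintype.card F = p) {u h : G} (hp : u ^ p = 1) {γ : F} {n : ℕ} (hn : 0 < n)
    (hh : h ^ n = 1) {s : ℕ} (hs : (s : F) = γ) (hact : h * u * h⁻¹ = u ^ s) :
    ∃ x : F → G, (∀ s t, x (s + t) = x s * x t) ∧ x 1 = u ∧ (∀ t, h * x t * h⁻¹ = x (γ * t)) ∧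
      (∀ t, x t ∈ cu 1 u) := by
  have hc : ∀ i j : ℤ, Commute ((1 : G) ^ i * u * (1 ^ i)⁻¹) (1 ^ j * u * (1 ^ j)⁻¹) := by
    intro i j; simp
  have hbij : Function.Bijective (algebraMap (ZMod p) F) := by
    rw [Fintype.bijective_iff_injective_and_card]
    exact ⟨(algebraMap (ZMod p) F).injective, by rw [hF, ZMod.card]⟩
  have hα : Algebra.adjoin (ZMod p) {(1 : F)} = ⊤ := by
    rw [eq_top_iff]
    intro y _
    obtain ⟨z, rfl⟩ := hbij.2 y
    exact Subalgebra.algebraMap_mem _ z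
  obtain ⟨x, h1, h2, -, h4, h5⟩ := exists_x_fin (p := p) (F := F) hp hc (Commute.one_left h) hn hh hα
    (γ := γ) (l := [(s : ℤ)]) (by simp [hs]) (by simp [hact]) (by
      rw [pw_one_left]
      apply pow_eq_one_of_cast hp
      have h1 : ((ev (1 : ℤ) (lst (minpoly (ZMod p) (1 : F))) : ℤ) : ZMod p) =
          ev (1 : ZMod p) (lst (minpoly (ZMod p) (1 : F))) := by
        have := map_ev (Int.castRingHom (ZMod p)) 1 (lst (minpoly (ZMod p) (1 : F)))
        simpa using this
      rw [h1]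
      apply (algebraMap (ZMod p) F).injective
      rw [map_ev, map_zero, map_one, ev_lst, minpoly.aeval])
  exact ⟨x, h1, h2, h4, h5⟩

section odd

variable {F : Type v} [Field F] [Fintype F]

/-- odd order: four relators -/
theorem uRel_odd {ζ : Fˣ} (hζ : ∀ y, y ∈ Subgroup.zpowers ζ) (h2 : (2 : F) ≠ 0) : URel ((ζ : F) ^ 2) 4 := by
  obtain ⟨p, hch⟩ := CharP.exists F
  have hpp : p.Prime := (CharP.char_is_prime_or_zero F p).resolve_right (CharP.char_ne_zero_of_finite F p)
  have : Fact p.Prime := ⟨hpp⟩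
  let _ : Algebra (ZMod p) F := ZMod.algebra F p
  have hcard1 : 1 < Fintype.card F := Fintype.one_lt_card
  have hcp : ((p : ℕ) : F) = 0 := CharP.cast_eq_zero F p
  by_cases hFp : Fintype.card F = p
  · -- prime field
    obtain ⟨s, hs⟩ : ∃ s : ℕ, (s : F) = (ζ : F) ^ 2 := by
      have hbij : Function.Bijective (algebraMap (ZMod p) F) := by
        rw [Fintype.bijective_iff_injective_and_card]
        exact ⟨(algebraMap (ZMod p) F).injective, by rw [hFp, ZMod.card]⟩
      obtain ⟨z, hz⟩ := hbij.2 ((ζ : F) ^ 2)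
      refine ⟨z.val, ?_⟩
      rw [← hz, ← map_natCast (algebraMap (ZMod p) F), ZMod.natCast_zmod_val]
    refine ⟨[FreeGroup.of 0 ^ p, FreeGroup.of 1 * FreeGroup.of 0 * (FreeGroup.of 1)⁻¹ * (FreeGroup.of 0 ^ s)⁻¹],
      by simp, ?_, ?_⟩
    · intro G _ x h hx hh r hr
      simp only [List.mem_cons, List.not_mem_nil, or_false] at hr
      rcases hr with rfl | rfl
      · simp only [map_pow, FreeGroup.lift_apply_of, Matrix.cons_val_zero]
        rw [x_pow hx, hcp, zero_mul, x_zero hx]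
      · simp only [map_mul, map_pow, map_inv, FreeGroup.lift_apply_of, Matrix.cons_val_zero, Matrix.cons_val_one,
          Matrix.cons_val_fin_one]
        rw [hh, x_pow hx, hs, mul_inv_cancel]
    · intro J _ u h hh hr
      have r1 := hr (FreeGroup.of 0 ^ p) (by simp)
      have r2 := hr (FreeGroup.of 1 * FreeGroup.of 0 * (FreeGroup.of 1)⁻¹ * (FreeGroup.of 0 ^ s)⁻¹) (by simp)
      simp only [map_mul, map_pow, map_inv, FreeGroup.lift_apply_of, Matrix.cons_val_zero, Matrix.cons_val_one,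
          Matrix.cons_val_fin_one] at r1 r2
      obtain ⟨x, h1, h2, h3, h4⟩ := exists_x_prime hFp r1 (by omega) hh hs (mul_inv_eq_one.1 r2)
      exact ⟨x, h1, h2, h3, fun t => cu_le_closure 1 u h (one_mem _) (h4 t)⟩
  by_cases h9 : Fintype.card F = 9
  · -- nine elements
    have ho : orderOf ζ = 8 := by rw [order_gen hζ, h9]
    have hp3 : p = 3 := by
      obtain ⟨n, -, hn⟩ := FiniteField.card F p
      rw [h9] at hn
      have : p ∣ 9 := by rw [hn]; exact dvd_pow_self p n.ne_zero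
      have h3 : p ∣ 3 := hpp.dvd_of_dvd_pow (n := 2) (by simpa using this)
      exact (Nat.prime_dvd_prime_iff_eq hpp Nat.prime_three).1 h3
    subst hp3
    have hz4 : (ζ : F) ^ 4 = -1 := by
      have h8 : (ζ : F) ^ 8 = 1 := by
        have := congrArg Units.val (pow_orderOf_eq_one ζ)
        rw [ho, Units.val_pow_eq_pow_val, Units.val_one] at this
        exact this
      have hne : (ζ : F) ^ 4 ≠ 1 := by
        intro h
        have : ζ ^ 4 = 1 := Units.ext (by rw [Units.val_pow_eq_pow_val, h, Units.val_one])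
        have := orderOf_dvd_of_pow_eq_one this
        rw [ho] at this
        omega
      have h1 : ((ζ : F) ^ 4 - 1) * ((ζ : F) ^ 4 + 1) = 0 := by linear_combination h8
      rcases mul_eq_zero.1 h1 with h | h
      · exact absurd (sub_eq_zero.1 h) hne
      · exact eq_neg_of_add_eq_zero_left h
    set γ : F := (ζ : F) ^ 2 with hγ
    have hγ2 : γ ^ 2 = -1 := by rw [hγ, ← pow_mul]; exact hz4
    have hα := adjoin_sq_eq_top (p := 3) hζ
    rw [← hγ] at hα
    refine ⟨[FreeGroup.of 0 ^ 3,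
      FreeGroup.of 0 * (FreeGroup.of 1 * FreeGroup.of 0 * (FreeGroup.of 1)⁻¹) *
        (FreeGroup.of 0)⁻¹ * (FreeGroup.of 1 * FreeGroup.of 0 * (FreeGroup.of 1)⁻¹)⁻¹,
      FreeGroup.of 1 ^ 2 * FreeGroup.of 0 * (FreeGroup.of 1 ^ 2)⁻¹ * FreeGroup.of 0,
      pw (FreeGroup.of 1) (FreeGroup.of 0) (lst (minpoly (ZMod 3) γ))], by simp, ?_, ?_⟩
    · intro G _ x h hx hh r hr
      simp only [List.mem_cons, List.not_mem_nil, or_false] at hr
      rcases hr with rfl | rfl | rfl | rfl
      · simp only [map_pow, FreeGroup.lift_apply_of, Matrix.cons_val_zero]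
        rw [x_pow hx, hcp, zero_mul, x_zero hx]
      · simp only [map_mul, map_pow, map_inv, FreeGroup.lift_apply_of, Matrix.cons_val_zero, Matrix.cons_val_one,
          Matrix.cons_val_fin_one]
        rw [hh, ← hx, add_comm, hx]
        group
      · simp only [map_mul, map_pow, map_inv, FreeGroup.lift_apply_of, Matrix.cons_val_zero, Matrix.cons_val_one,
          Matrix.cons_val_fin_one]
        rw [x_conj_pow hh, hγ2, ← hx]
        simp [x_zero hx]
      · simp only [lift_pw, FreeGroup.lift_apply_of, Matrix.cons_val_zero, Matrix.cons_val_one,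
          Matrix.cons_val_fin_one]
        rw [pw_root hx hh, ev_lst, minpoly.aeval, zero_mul, x_zero hx]
    · intro J _ u h hh hr
      have r1 := hr (FreeGroup.of 0 ^ 3) (by simp)
      have r2 := hr (FreeGroup.of 0 * (FreeGroup.of 1 * FreeGroup.of 0 * (FreeGroup.of 1)⁻¹) *
        (FreeGroup.of 0)⁻¹ * (FreeGroup.of 1 * FreeGroup.of 0 * (FreeGroup.of 1)⁻¹)⁻¹) (by simp)
      have r3 := hr (FreeGroup.of 1 ^ 2 * FreeGroup.of 0 * (FreeGroup.of 1 ^ 2)⁻¹ * FreeGroup.of 0) (by simp)
      have r4 := hr (pw (FreeGroup.of 1) (FreeGroup.of 0) (lst (minpoly (ZMod 3) γ))) (by simp)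
      simp only [map_mul, map_pow, map_inv, FreeGroup.lift_apply_of, Matrix.cons_val_zero, Matrix.cons_val_one,
          Matrix.cons_val_fin_one, lift_pw] at r1 r2 r3 r4
      have hcm : Commute u (h * u * h⁻¹) := by
        have e : u * (h * u * h⁻¹) * u⁻¹ * (h * u * h⁻¹)⁻¹ = 1 := r2
        rw [mul_inv_eq_one, mul_inv_eq_iff_eq_mul] at e
        exact e
      have hsq : h ^ 2 * u * (h ^ 2)⁻¹ = u⁻¹ := eq_inv_of_mul_eq_one_left r3
      -- the conjugates
      have hev : ∀ i : ℤ, h ^ i * u * (h ^ i)⁻¹ = u ∨ h ^ i * u * (h ^ i)⁻¹ = u⁻¹ ∨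
          h ^ i * u * (h ^ i)⁻¹ = h * u * h⁻¹ ∨ h ^ i * u * (h ^ i)⁻¹ = (h * u * h⁻¹)⁻¹ := by
        have h2m : ∀ m : ℤ, (h ^ 2) ^ m * u * ((h ^ 2) ^ m)⁻¹ = u ∨ (h ^ 2) ^ m * u * ((h ^ 2) ^ m)⁻¹ = u⁻¹ := by
          have hnat : ∀ m : ℕ, (h ^ 2) ^ m * u * ((h ^ 2) ^ m)⁻¹ = u ∨ (h ^ 2) ^ m * u * ((h ^ 2) ^ m)⁻¹ = u⁻¹ := by
            intro m
            induction m with
            | zero => simp
            | succ m ih =>
              have e : (h ^ 2) ^ (m + 1) * u * ((h ^ 2) ^ (m + 1))⁻¹ =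
                  h ^ 2 * ((h ^ 2) ^ m * u * ((h ^ 2) ^ m)⁻¹) * (h ^ 2)⁻¹ := by
                rw [pow_succ' (h ^ 2)]; group
              rcases ih with h1 | h1
              · rw [e, h1, hsq]; simp
              · rw [e, h1]
                left
                rw [← hsq]
                have : h ^ 2 * (h ^ 2 * u * (h ^ 2)⁻¹) * (h ^ 2)⁻¹ = h ^ 2 * (u⁻¹) * (h ^ 2)⁻¹ := by rw [hsq]
                rw [this]
                have : h ^ 2 * u⁻¹ * (h ^ 2)⁻¹ = (h ^ 2 * u * (h ^ 2)⁻¹)⁻¹ := by group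
                rw [this, hsq, inv_inv]
          intro m
          obtain ⟨n, rfl | rfl⟩ := m.eq_nat_or_neg
          · rw [zpow_natCast]; exact hnat n
          · rw [zpow_neg, zpow_natCast]
            rcases hnat n with h1 | h1
            · left
              have := congrArg (fun z => ((h ^ 2) ^ n)⁻¹ * z * (h ^ 2) ^ n) h1
              rw [inv_inv, ← this]
              group
            · right
              have := congrArg (fun z => ((h ^ 2) ^ n)⁻¹ * z * (h ^ 2) ^ n) h1
              rw [inv_inv]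
              have e1 : ((h ^ 2) ^ n)⁻¹ * ((h ^ 2) ^ n * u * ((h ^ 2) ^ n)⁻¹) * (h ^ 2) ^ n = u := by group
              rw [e1] at this
              calc ((h ^ 2) ^ n)⁻¹ * u * (h ^ 2) ^ n = (((h ^ 2) ^ n)⁻¹ * u⁻¹ * (h ^ 2) ^ n)⁻¹ := by group
                _ = u⁻¹ := by rw [← this]
        intro i
        obtain ⟨m, rfl | rfl⟩ : ∃ m, i = 2 * m ∨ i = 2 * m + 1 := ⟨i / 2, by omega⟩
        · rw [zpow_mul]
          have : h ^ (2 : ℤ) = h ^ 2 := by exact_mod_cast zpow_natCast h 2
          rw [this]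
          rcases h2m m with h1 | h1
          · exact Or.inl h1
          · exact Or.inr (Or.inl h1)
        · have e : h ^ (2 * m + 1) * u * (h ^ (2 * m + 1))⁻¹ = h * ((h ^ 2) ^ m * u * ((h ^ 2) ^ m)⁻¹) * h⁻¹ := by
            rw [add_comm, zpow_add, zpow_one, zpow_mul]
            have : h ^ (2 : ℤ) = h ^ 2 := by exact_mod_cast zpow_natCast h 2
            rw [this]
            group
          rw [e]
          rcases h2m m with h1 | h1
          · rw [h1]; simp
          · rw [h1]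
            right; right; right
            group
      have hcc : ∀ i j : ℤ, Commute (h ^ i * u * (h ^ i)⁻¹) (h ^ j * u * (h ^ j)⁻¹) := by
        intro i j
        rcases hev i with e | e | e | e <;> rcases hev j with e' | e' | e' | e' <;> rw [e, e'] <;>
          first
          | exact Commute.refl _
          | exact (Commute.refl _).inv_right
          | exact (Commute.refl _).inv_left
          | exact hcm
          | exact hcm.inv_right
          | exact hcm.inv_left
          | exact hcm.inv_inv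
          | exact hcm.symm
          | exact hcm.symm.inv_right
          | exact hcm.symm.inv_left
          | exact hcm.symm.inv_inv
      obtain ⟨x, h1, h2, h3, h4⟩ := exists_x_self (p := 3) r1 hcc hα r4
      refine ⟨x, h1, h2, h3, fun t => cu_le_closure h u h (Subgroup.subset_closure (by simp)) (h4 t)⟩
  · -- the general case
    have hz := ζ.ne_zero
    have hz2 : (ζ : F) ^ 2 ≠ 1 := by
      intro h
      have h1 : ζ ^ 2 = 1 := Units.ext (by rw [Units.val_pow_eq_pow_val, h, Units.val_one])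
      have h3 := orderOf_dvd_of_pow_eq_one h1
      rw [order_gen hζ] at h3
      have h4 := Nat.le_of_dvd (by norm_num) h3
      obtain ⟨n, hn, hc⟩ := FiniteField.card F p
      have hp2 : p ≠ 2 := by
        rintro rfl
        exact h2 (by exact_mod_cast hcp)
      have hp3 : 3 ≤ p := by have := hpp.two_le; omega
      have h5 : p ^ (n : ℕ) ≤ 3 := by omega
      have hn1 : (n : ℕ) = 1 := by
        by_contra hne
        have : 2 ≤ (n : ℕ) := by have := n.pos; omega
        have h6 : p ^ 2 ≤ p ^ (n : ℕ) := Nat.pow_le_pow_right hpp.pos this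
        nlinarith
      rw [hn1, pow_one] at hc
      exact hFp hc
    have hz2' : (ζ : F) ^ 2 ≠ -1 := by
      intro h
      have h1 : ζ ^ 4 = 1 := Units.ext (by
        push_cast
        have : (ζ : F) ^ 4 = ((ζ : F) ^ 2) ^ 2 := by ring
        rw [this, h]; ring)
      have h3 := orderOf_dvd_of_pow_eq_one h1
      rw [order_gen hζ] at h3
      have h4 := Nat.le_of_dvd (by norm_num) h3
      obtain ⟨n, hn, hc⟩ := FiniteField.card F p
      have hp2 : p ≠ 2 := by
        rintro rfl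
        exact h2 (by exact_mod_cast hcp)
      have hp3 : 3 ≤ p := by have := hpp.two_le; omega
      have h5 : p ^ (n : ℕ) ≤ 5 := by omega
      have hn1 : (n : ℕ) = 1 := by
        by_contra hne
        have : 2 ≤ (n : ℕ) := by have := n.pos; omega
        have h6 : p ^ 2 ≤ p ^ (n : ℕ) := Nat.pow_le_pow_right hpp.pos this
        nlinarith
      rw [hn1, pow_one] at hc
      exact hFp hc
    have ha0 : (1 - (ζ : F) ^ 2) / (2 * ζ) ≠ 0 := by
      refine div_ne_zero (sub_ne_zero.2 hz2.symm) (mul_ne_zero h2 hz)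
    have hb0 : (1 + (ζ : F) ^ 2) / (2 * ζ) ≠ 0 := by
      refine div_ne_zero ?_ (mul_ne_zero h2 hz)
      intro h
      exact hz2' (eq_neg_of_add_eq_zero_right h)
    obtain ⟨k, hk⟩ : ∃ k : ℕ, (ζ : F) ^ k = (1 - (ζ : F) ^ 2) / (2 * ζ) := by
      obtain ⟨k, hk⟩ := (mem_powers_iff_mem_zpowers).2 (hζ (Units.mk0 _ ha0))
      refine ⟨k, ?_⟩
      have := congrArg Units.val hk
      simpa using this
    obtain ⟨l, hl⟩ : ∃ k : ℕ, (ζ : F) ^ k = (1 + (ζ : F) ^ 2) / (2 * ζ) := by
      obtain ⟨k, hk⟩ := (mem_powers_iff_mem_zpowers).2 (hζ (Units.mk0 _ hb0))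
      refine ⟨k, ?_⟩
      have := congrArg Units.val hk
      simpa using this
    have hα := adjoin_alpha_eq_top (p := p) hζ h2 h9
    set γ : F := (ζ : F) ^ 2 with hγ
    have hγk : γ ^ k = ((1 - γ) / (2 * ζ)) ^ 2 := by rw [← hk, hγ]; ring
    have hγl : γ ^ l = 1 + γ ^ k := by
      have : γ ^ l = ((1 + γ) / (2 * ζ)) ^ 2 := by rw [← hl, hγ]; ring
      rw [this, hγk, hγ]
      field_simp
      ring
    rw [← hγk] at hα
    obtain ⟨f, g, hf, hfg⟩ := exists_poly (p := p) (γ ^ k) hα γ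
    refine ⟨[FreeGroup.of 0 ^ p,
      FreeGroup.of 0 * (FreeGroup.of 1 ^ k * FreeGroup.of 0 * (FreeGroup.of 1 ^ k)⁻¹) *
        (FreeGroup.of 1 ^ l * FreeGroup.of 0 * (FreeGroup.of 1 ^ l)⁻¹)⁻¹,
      (FreeGroup.of 1 ^ k * FreeGroup.of 0 * (FreeGroup.of 1 ^ k)⁻¹) * FreeGroup.of 0 *
        (FreeGroup.of 1 ^ l * FreeGroup.of 0 * (FreeGroup.of 1 ^ l)⁻¹)⁻¹,
      FreeGroup.of 1 * FreeGroup.of 0 * (FreeGroup.of 1)⁻¹ *
        (pw (FreeGroup.of 1 ^ k) (FreeGroup.of 0) (lst f))⁻¹], by simp, ?_, ?_⟩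
    · intro G _ x h hx hh r hr
      simp only [List.mem_cons, List.not_mem_nil, or_false] at hr
      rcases hr with rfl | rfl | rfl | rfl
      · simp only [map_pow, FreeGroup.lift_apply_of, Matrix.cons_val_zero]
        rw [x_pow hx, hcp, zero_mul, x_zero hx]
      · simp only [map_mul, map_pow, map_inv, FreeGroup.lift_apply_of, Matrix.cons_val_zero, Matrix.cons_val_one,
          Matrix.cons_val_fin_one]
        rw [x_conj_pow hh, x_conj_pow hh, ← hx, mul_inv_eq_one]
        congr 1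
        rw [hγl]; ring
      · simp only [map_mul, map_pow, map_inv, FreeGroup.lift_apply_of, Matrix.cons_val_zero, Matrix.cons_val_one,
          Matrix.cons_val_fin_one]
        rw [x_conj_pow hh, x_conj_pow hh, ← hx, mul_inv_eq_one]
        congr 1
        rw [hγl]; ring
      · simp only [map_mul, map_pow, map_inv, FreeGroup.lift_apply_of, Matrix.cons_val_zero, Matrix.cons_val_one,
          Matrix.cons_val_fin_one, lift_pw]
        rw [hh, pw_root hx (x_conj_pow hh k), ev_lst, hf, mul_inv_cancel]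
    · intro J _ u h hh hr
      have r1 := hr _ (List.mem_cons_self)
      have r2 := hr _ (List.mem_cons_of_mem _ (List.mem_cons_self))
      have r3 := hr _ (List.mem_cons_of_mem _ (List.mem_cons_of_mem _ (List.mem_cons_self)))
      have r4 := hr _ (List.mem_cons_of_mem _ (List.mem_cons_of_mem _ (List.mem_cons_of_mem _ (List.mem_cons_self))))
      simp only [map_mul, map_pow, map_inv, FreeGroup.lift_apply_of, Matrix.cons_val_zero, Matrix.cons_val_one,
          Matrix.cons_val_fin_one, lift_pw] at r1 r2 r3 r4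
      have hcm : Commute (h ^ k) (h ^ l) := (Commute.refl h).pow_pow k l
      obtain ⟨x, h1, h2, -, h4, h5⟩ := exists_x_f (p := p) (F := F) r1
        (comm_of_trinomial hcm (mul_inv_eq_one.1 r2) (mul_inv_eq_one.1 r3))
        ((Commute.refl h).pow_left k) hh (by rw [← pow_mul, mul_comm, pow_mul, hh, one_pow])
        hα hf hfg (mul_inv_eq_one.1 r4)
      refine ⟨x, h1, h2, h4, fun t => cu_le_closure (h ^ k) u h
        (pow_mem (Subgroup.subset_closure (by simp)) k) (h5 t)⟩

end odd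

end Cfsg.Agent.H109
end

-- part: H109/URelTwo
section
/-!
# Few relations for a root group, characteristic two (helper109)
-/

set_option autoImplicit false

universe v

namespace Cfsg.Agent.H109

open Polynomial

variable {F : Type v} [Field F] [Fintype F]

/-- a generator is a power of its square in characteristic two -/
theorem sq_pow_half {ζ : Fˣ} (hζ : ∀ y, y ∈ Subgroup.zpowers ζ) (h2 : (2 : F) = 0) :
    Even (Fintype.card F) ∧ (ζ ^ 2) ^ (Fintype.card F / 2) = ζ := by
  have hch : CharP F 2 := CharTwo.of_one_ne_zero_of_two_eq_zero one_ne_zero h2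
  have hev : Even (Fintype.card F) := by
    rw [Nat.even_iff]
    exact FiniteField.even_card_of_char_two (ringChar.eq F 2)
  refine ⟨hev, ?_⟩
  rw [← pow_mul, Nat.two_mul_div_two_of_even hev]
  have ho := order_gen hζ
  have h1 : ζ ^ (Fintype.card F - 1) = 1 := by rw [← ho]; exact pow_orderOf_eq_one ζ
  have h3 : Fintype.card F = (Fintype.card F - 1) + 1 := by
    have := Fintype.card_pos (α := F)
    omega
  rw [h3, pow_succ, h1, one_mul]

/-- characteristic two: three relators -/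
theorem uRelS_two {ζ : Fˣ} (hζ : ∀ y, y ∈ Subgroup.zpowers ζ) (h2 : (2 : F) = 0) : URelS ((ζ : F) ^ 2) 3 := by
  classical
  have hch : CharP F 2 := CharTwo.of_one_ne_zero_of_two_eq_zero one_ne_zero h2
  let _ : Algebra (ZMod 2) F := ZMod.algebra F 2
  have : Fact (Nat.Prime 2) := ⟨Nat.prime_two⟩
  have hcard1 : 1 < Fintype.card F := Fintype.one_lt_card
  obtain ⟨hev, hhalf⟩ := sq_pow_half hζ h2
  set γ : F := (ζ : F) ^ 2 with hγ
  have hα := adjoin_sq_eq_top (p := 2) hζ
  rw [← hγ] at hα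
  by_cases hγ1 : γ = 1
  · -- two elements
    have hall : ∀ t : F, t = 0 ∨ t = 1 := by
      intro t
      by_cases ht : t = 0
      · exact Or.inl ht
      right
      obtain ⟨i, hi⟩ := hζ (Units.mk0 t ht)
      have h1 : ζ ^ 2 = 1 := Units.ext (by rw [Units.val_pow_eq_pow_val, Units.val_one]; exact hγ1)
      have h3 : ζ = 1 := by rw [← hhalf, h1, one_pow]
      have := congrArg Units.val hi
      simp only [h3, one_zpow, Units.val_one, Units.val_mk0] at this
      exact this.symm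
    refine ⟨[FreeGroup.of 0 ^ 2, FreeGroup.of 1 * FreeGroup.of 0 * (FreeGroup.of 1)⁻¹ * (FreeGroup.of 0)⁻¹],
      by simp, ?_, ?_⟩
    · intro G _ x h hx hh r hr
      simp only [List.mem_cons, List.not_mem_nil, or_false] at hr
      rcases hr with rfl | rfl
      · simp only [map_pow, FreeGroup.lift_apply_of, Matrix.cons_val_zero]
        rw [x_pow hx]
        simp [h2, x_zero hx]
      · simp only [map_mul, map_inv, FreeGroup.lift_apply_of, Matrix.cons_val_zero, Matrix.cons_val_one,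
          Matrix.cons_val_fin_one]
        rw [hh, hγ1]; simp
    · intro J _ u h hr
      have r1 := hr _ (List.mem_cons_self)
      have r2 := hr _ (List.mem_cons_of_mem _ (List.mem_cons_self))
      simp only [map_mul, map_pow, map_inv, FreeGroup.lift_apply_of, Matrix.cons_val_zero, Matrix.cons_val_one,
          Matrix.cons_val_fin_one] at r1 r2
      have huu : u * u = 1 := by rw [← sq]; exact r1
      refine ⟨fun t => if t = 0 then 1 else u, ?_, by simp, ?_, ?_⟩
      · intro s t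
        rcases hall s with rfl | rfl <;> rcases hall t with rfl | rfl
        · simp
        · simp
        · simp
        · have : (1 : F) + 1 = 0 := by rw [one_add_one_eq_two]; exact h2
          simp [this, huu]
      · intro t
        rw [hγ1, one_mul]
        by_cases ht : t = 0
        · simp [ht]
        · simp only [ht, if_false]
          exact mul_inv_eq_one.1 r2
      · intro t
        by_cases ht : t = 0
        · simp [ht, one_mem]
        · simp only [ht, if_false]
          exact Subgroup.subset_closure (by simp)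
  · -- at least four elements
    have h1γ : 1 + γ ≠ 0 := by
      intro h
      apply hγ1
      have : γ = -1 := eq_neg_of_add_eq_zero_right h
      rw [this, CharTwo.neg_eq]
    obtain ⟨m, hm⟩ : ∃ k : ℕ, (ζ : F) ^ k = 1 + γ := by
      obtain ⟨k, hk⟩ := (mem_powers_iff_mem_zpowers).2 (hζ (Units.mk0 _ h1γ))
      refine ⟨k, ?_⟩
      have := congrArg Units.val hk
      simpa using this
    have hl : γ ^ (Fintype.card F / 2 * m) = 1 + γ := by
      have h3 : γ ^ (Fintype.card F / 2) = (ζ : F) := by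
        have := congrArg Units.val hhalf
        simpa using this
      rw [pow_mul, h3, hm]
    set l := Fintype.card F / 2 * m with hldef
    refine ⟨[FreeGroup.of 0 ^ 2,
      FreeGroup.of 0 * (FreeGroup.of 1 * FreeGroup.of 0 * (FreeGroup.of 1)⁻¹) *
        (FreeGroup.of 1 ^ l * FreeGroup.of 0 * (FreeGroup.of 1 ^ l)⁻¹)⁻¹,
      pw (FreeGroup.of 1) (FreeGroup.of 0) (lst (minpoly (ZMod 2) γ))], by simp, ?_, ?_⟩
    · intro G _ x h hx hh r hr
      simp only [List.mem_cons, List.not_mem_nil, or_false] at hr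
      rcases hr with rfl | rfl | rfl
      · simp only [map_pow, FreeGroup.lift_apply_of, Matrix.cons_val_zero]
        rw [x_pow hx]
        simp [h2, x_zero hx]
      · simp only [map_mul, map_pow, map_inv, FreeGroup.lift_apply_of, Matrix.cons_val_zero, Matrix.cons_val_one,
          Matrix.cons_val_fin_one]
        rw [x_conj_pow hh, hh, ← hx, mul_inv_eq_one]
        congr 1
        rw [hl]; ring
      · simp only [lift_pw, FreeGroup.lift_apply_of, Matrix.cons_val_zero, Matrix.cons_val_one,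
          Matrix.cons_val_fin_one]
        rw [pw_root hx hh, ev_lst, minpoly.aeval, zero_mul, x_zero hx]
    · intro J _ u h hr
      have r1 := hr _ (List.mem_cons_self)
      have r2 := hr _ (List.mem_cons_of_mem _ (List.mem_cons_self))
      have r3 := hr _ (List.mem_cons_of_mem _ (List.mem_cons_of_mem _ (List.mem_cons_self)))
      simp only [map_mul, map_pow, map_inv, FreeGroup.lift_apply_of, Matrix.cons_val_zero, Matrix.cons_val_one,
          Matrix.cons_val_fin_one, lift_pw] at r1 r2 r3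
      have e1 : u * (h * u * h⁻¹) = h ^ l * u * (h ^ l)⁻¹ := mul_inv_eq_one.1 r2
      have huu : u⁻¹ = u := by rw [inv_eq_iff_mul_eq_one, ← sq]; exact r1
      have e2 : (h * u * h⁻¹) * u = h ^ l * u * (h ^ l)⁻¹ := by
        calc (h * u * h⁻¹) * u = (u⁻¹ * (h * u⁻¹ * h⁻¹))⁻¹ := by group
          _ = (u * (h * u * h⁻¹))⁻¹ := by rw [huu]
          _ = (h ^ l * u * (h ^ l)⁻¹)⁻¹ := by rw [e1]
          _ = h ^ l * u⁻¹ * (h ^ l)⁻¹ := by group
          _ = _ := by rw [huu]
      obtain ⟨x, h1, h2, h3, h4⟩ := exists_x_self (p := 2) (F := F) r1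
        (comm_of_trinomial ((Commute.refl h).pow_right l) e1 e2) hα r3
      exact ⟨x, h1, h2, h3, fun t => cu_le_closure h u h (Subgroup.subset_closure (by simp)) (h4 t)⟩

end Cfsg.Agent.H109
end

-- part: H109/SL2b
section
/-!
# Presentations of `SL₂(F)` (helper109)

* `rel_odd`, `rel_even` : the relations `SL2Lift.Rel` from few relations.
* `sl2_odd` : three generators, eight relators.
* `sl2_even` : three generators, five relators.
-/

set_option autoImplicit false
set_option linter.unusedSectionVars false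

universe v

namespace Cfsg.Agent.H109

open Polynomial Cfsg.Agent.Lib
open Matrix (SpecialLinearGroup ProjectiveSpecialLinearGroup)

section lists

variable {p : ℕ} [Fact p.Prime] {F : Type*} [Field F] [Finite F] [Algebra (ZMod p) F]

theorem exists_list {α : F} (hα : Algebra.adjoin (ZMod p) {α} = ⊤) (t : F) : ∃ l : List ℤ, ev α l = t := by
  have hs : Function.Surjective (aeval α : (ZMod p)[X] →ₐ[ZMod p] F) := by
    rw [← AlgHom.range_eq_top, ← Algebra.adjoin_singleton_eq_range_aeval, hα]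
  obtain ⟨P, hP⟩ := hs t
  exact ⟨lst P, by rw [ev_lst, hP]⟩

end lists

section torus

variable {F : Type*} [Field F] [Fintype F] {G : Type*} [Group G]

/-- the torus homomorphism -/
theorem exists_torus {ζ : Fˣ} (hζ : ∀ y, y ∈ Subgroup.zpowers ζ) {h : G} (hq : h ^ (Fintype.card F - 1) = 1) :
    ∃ Hm : Fˣ →* G, Hm ζ = h := by
  have hd : orderOf h ∣ orderOf ζ := by
    rw [order_gen hζ]
    exact orderOf_dvd_of_pow_eq_one hq
  exact ⟨monoidHomOfForallMemZpowers hζ hd, monoidHomOfForallMemZpowers_apply_gen hζ hd⟩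

theorem torus_conj {ζ : Fˣ} (hζ : ∀ y, y ∈ Subgroup.zpowers ζ) {Hm : Fˣ →* G} {x : F → G} {χ : Fˣ →* Fˣ}
    (hc : ∀ t, Hm ζ * x t * (Hm ζ)⁻¹ = x ((χ ζ : F) * t)) (a : Fˣ) (t : F) :
    Hm a * x t * (Hm a)⁻¹ = x ((χ a : F) * t) := by
  obtain ⟨i, rfl⟩ := hζ a
  have hinv : ∀ t, (Hm ζ)⁻¹ * x t * Hm ζ = x (((χ ζ)⁻¹ : Fˣ) * t) := by
    intro t
    have := hc (((χ ζ)⁻¹ : Fˣ) * t)
    rw [← mul_assoc, Units.mul_inv, one_mul] at this
    rw [← this]
    group
  simp only [map_zpow]
  induction i generalizing t with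
  | zero => simp
  | succ n ih =>
    have e : (Hm ζ) ^ ((n : ℤ) + 1) * x t * ((Hm ζ) ^ ((n : ℤ) + 1))⁻¹ =
        (Hm ζ) ^ (n : ℤ) * (Hm ζ * x t * (Hm ζ)⁻¹) * ((Hm ζ) ^ (n : ℤ))⁻¹ := by
      rw [zpow_add_one]; group
    rw [e, hc, ih, zpow_add_one, Units.val_mul, mul_assoc]
  | pred n ih =>
    have e : (Hm ζ) ^ (-(n : ℤ) - 1) * x t * ((Hm ζ) ^ (-(n : ℤ) - 1))⁻¹ =
        (Hm ζ) ^ (-(n : ℤ)) * ((Hm ζ)⁻¹ * x t * (Hm ζ)) * ((Hm ζ) ^ (-(n : ℤ)))⁻¹ := by
      rw [zpow_sub_one]; group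
    rw [e, hinv, ih, zpow_sub_one, Units.val_mul, mul_assoc]

theorem torus_inv {ζ : Fˣ} (hζ : ∀ y, y ∈ Subgroup.zpowers ζ) {Hm : Fˣ →* G} {w : G}
    (hw : w * Hm ζ * w⁻¹ = (Hm ζ)⁻¹) (a : Fˣ) : w * Hm a * w⁻¹ = (Hm a)⁻¹ := by
  obtain ⟨i, rfl⟩ := hζ a
  simp only [map_zpow]
  rw [← conj_zpow, hw, inv_zpow]

theorem neg_one_pow {ζ : Fˣ} (hζ : ∀ y, y ∈ Subgroup.zpowers ζ) (h2 : (2 : F) ≠ 0) :
    ζ ^ ((Fintype.card F - 1) / 2) = -1 ∧ 2 * ((Fintype.card F - 1) / 2) = Fintype.card F - 1 := by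
  have hodd : Fintype.card F % 2 = 1 := by
    apply FiniteField.odd_card_of_char_ne_two
    intro h
    apply h2
    have := CharP.cast_eq_zero F (ringChar F)
    rw [h] at this
    exact_mod_cast this
  have h3 : 2 * ((Fintype.card F - 1) / 2) = Fintype.card F - 1 := by omega
  refine ⟨?_, h3⟩
  have ho := order_gen hζ
  have hc1 : 1 < Fintype.card F := Fintype.one_lt_card
  have h4 : ζ ^ ((Fintype.card F - 1) / 2) * ζ ^ ((Fintype.card F - 1) / 2) = 1 := by
    rw [← pow_add, ← two_mul, h3, ← ho]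
    exact pow_orderOf_eq_one ζ
  have hne : ζ ^ ((Fintype.card F - 1) / 2) ≠ 1 := by
    intro h
    have := orderOf_dvd_of_pow_eq_one h
    rw [ho] at this
    have := Nat.le_of_dvd (by omega) this
    omega
  have h5 : ((ζ ^ ((Fintype.card F - 1) / 2) : Fˣ) : F) * ((ζ ^ ((Fintype.card F - 1) / 2) : Fˣ) : F) = 1 := by
    rw [← Units.val_mul, h4, Units.val_one]
  rcases mul_self_eq_one_iff.1 h5 with h | h
  · exact absurd (Units.ext h) hne
  · exact Units.ext h

/-- squares and nonsquares of units -/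
theorem unit_cases {ζ : Fˣ} (hζ : ∀ y, y ∈ Subgroup.zpowers ζ) (t : Fˣ) :
    ∃ a : Fˣ, t = a ^ 2 * 1 ∨ t = a ^ 2 * ζ := by
  obtain ⟨i, rfl⟩ := hζ t
  obtain ⟨m, rfl | rfl⟩ : ∃ m, i = 2 * m ∨ i = 2 * m + 1 := ⟨i / 2, by omega⟩
  · refine ⟨ζ ^ m, Or.inl ?_⟩
    change ζ ^ (2 * m) = _
    rw [mul_one, ← zpow_natCast, ← zpow_mul, mul_comm]
    norm_num
  · refine ⟨ζ ^ m, Or.inr ?_⟩
    change ζ ^ (2 * m + 1) = _
    rw [← zpow_natCast, ← zpow_mul, zpow_add_one, mul_comm 2 m]
    norm_num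

end torus

section rel

variable {F : Type*} [Field F] [Fintype F] {G : Type*} [Group G]

/-- The relations in odd characteristic. -/
theorem rel_odd {ζ : Fˣ} (hζ : ∀ y, y ∈ Subgroup.zpowers ζ) (h2 : (2 : F) ≠ 0) {x : F → G} {h w : G}
    (hx : ∀ s t, x (s + t) = x s * x t) (hh : ∀ t, h * x t * h⁻¹ = x ((ζ : F) ^ 2 * t))
    (whw : w * h * w⁻¹ = h⁻¹) (ww : w * w = h ^ ((Fintype.card F - 1) / 2)) (h3 : (x 1 * w) ^ 3 = 1)
    (hz : w * x (ζ : F) * w = x (-((ζ⁻¹ : Fˣ) : F)) * h⁻¹ * w ^ 3 * x (-((ζ⁻¹ : Fˣ) : F))) :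
    ∃ Hm : Fˣ →* G, Hm ζ = h ∧ SL2Lift.Rel x (ext1 Hm) w := by
  obtain ⟨hm1, hq2⟩ := neg_one_pow hζ h2
  have hq : h ^ (Fintype.card F - 1) = 1 := by
    have e1 : w * (w * w) * w⁻¹ = w * w := by group
    rw [ww, ← conj_pow, whw, inv_pow] at e1
    rw [← hq2, two_mul, pow_add]
    nth_rewrite 1 [← e1]
    exact inv_mul_cancel _
  obtain ⟨Hm, hHm⟩ := exists_torus hζ hq
  refine ⟨Hm, hHm, rel_of Hm hx ?_ ?_ ?_ ?_⟩
  · intro a t
    have := torus_conj hζ (Hm := Hm) (x := x) (χ := powMonoidHom 2) (by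
      intro t; rw [hHm, hh]; simp) a t
    simpa using this
  · exact torus_inv hζ (by rw [hHm]; exact whw)
  · rw [ww, ← hm1, map_pow, hHm]
  · have hHm1 : Hm (-1) = w * w := by rw [ww, ← hm1, map_pow, hHm]
    intro t
    obtain ⟨a, ht | ht⟩ := unit_cases hζ t
    · refine ⟨a, 1, ht, ?_⟩
      rw [inv_one, Units.val_one, hHm1, x_neg hx]
      have hw4 : w * w * (w * w) = 1 := by rw [ww, ← pow_add, ← two_mul, hq2, hq]
      have e : (x 1 * w) ^ 3 = x 1 * (w * x 1 * w) * x 1 * w := by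
        simp only [pow_succ, pow_zero, one_mul, mul_assoc]
      rw [e] at h3
      have e2 : w * x 1 * w = (x 1)⁻¹ * w⁻¹ * (x 1)⁻¹ := by
        calc w * x 1 * w = (x 1)⁻¹ * (x 1 * (w * x 1 * w) * x 1 * w) * w⁻¹ * (x 1)⁻¹ := by group
          _ = _ := by rw [h3]; group
      have e3 : w⁻¹ = w * w * w := by
        rw [inv_eq_iff_mul_eq_one]
        rw [← hw4]; group
      rw [e2, e3]
      simp only [mul_assoc]
    · refine ⟨a, ζ, ht, ?_⟩
      have e : Hm (-ζ⁻¹) = h⁻¹ * (w * w) := by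
        have : (-ζ⁻¹ : Fˣ) = ζ⁻¹ * (-1) := by simp
        rw [this, map_mul, map_inv, hHm, hHm1]
      rw [hz, e]
      simp only [pow_succ, pow_zero, one_mul, mul_assoc]

/-- The relations in characteristic two. -/
theorem rel_even {ζ : Fˣ} (hζ : ∀ y, y ∈ Subgroup.zpowers ζ) (h2 : (2 : F) = 0) {x : F → G} {h w : G}
    (hx : ∀ s t, x (s + t) = x s * x t) (hh : ∀ t, h * x t * h⁻¹ = x ((ζ : F) ^ 2 * t))
    (ww : w * w = (x 1 * w) ^ 3)
    (hj : w * h ^ (Fintype.card F / 2 - 1) * w⁻¹ = h ^ (Fintype.card F / 2)) :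
    ∃ Hm : Fˣ →* G, Hm ζ = h ∧ SL2Lift.Rel x (ext1 Hm) w := by
  obtain ⟨hev, hhalf⟩ := sq_pow_half hζ h2
  have hc1 : 1 < Fintype.card F := Fintype.one_lt_card
  have ho := order_gen hζ
  set q := Fintype.card F with hqd
  obtain ⟨r, hr⟩ := hev
  have hr2 : q / 2 = r := by omega
  rw [hr2] at hj hhalf
  set u := x 1 with hu
  have huu : u * u = 1 := by
    rw [hu, ← hx, one_add_one_eq_two, h2, x_zero hx]
  have hui : u⁻¹ = u := inv_eq_of_mul_eq_one_left huu
  -- `w² = 1`
  have hcw : Commute (w * w) (u * w) := by rw [ww]; exact (Commute.refl _).pow_left 3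
  have hcw2 : Commute (w * w) w := (Commute.refl w).mul_left (Commute.refl w)
  have hcu : Commute (w * w) u := by
    have := hcw.mul_right hcw2.inv_right
    rwa [mul_inv_cancel_right] at this
  have e0 : (u * w) ^ 3 = u * w * u * w * u * w := by
    simp only [pow_succ, pow_zero, one_mul, mul_assoc]
  have e1 : u * (w * u * w⁻¹) * u = w⁻¹ := by
    have h3 : u * w * u * w * u = w := by
      have : u * w * u * w * u * w = w * w := by rw [← e0, ← ww]
      exact mul_right_cancel this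
    calc u * (w * u * w⁻¹) * u = u * w * u * w * (w * w)⁻¹ * u := by group
      _ = u * w * u * w * (u * (w * w)⁻¹) := by rw [mul_assoc, hcu.inv_left.eq]
      _ = (u * w * u * w * u) * (w * w)⁻¹ := by group
      _ = w⁻¹ := by rw [h3]; group
  have hw1 : w * w = 1 := by
    have e2 : w = u * (w * u * w⁻¹) * u := by
      calc w = (w⁻¹)⁻¹ := by group
        _ = (u * (w * u * w⁻¹) * u)⁻¹ := by rw [e1]
        _ = u⁻¹ * (w * u⁻¹ * w⁻¹) * u⁻¹ := by group
        _ = _ := by rw [hui]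
    rw [e1] at e2
    nth_rewrite 1 [e2]
    exact inv_mul_cancel w
  have hwi : w⁻¹ = w := inv_eq_of_mul_eq_one_left hw1
  -- the order of `h`
  have hγq : ((ζ : F) ^ 2) ^ (q - 1) = 1 := by
    have h1 : ζ ^ (q - 1) = 1 := by rw [← ho]; exact pow_orderOf_eq_one ζ
    have := congrArg Units.val h1
    rw [Units.val_pow_eq_pow_val, Units.val_one] at this
    rw [← pow_mul, mul_comm, pow_mul, this, one_pow]
  have hyx : ∀ (k : ℕ) t, Commute (h ^ ((q - 1) * k)) (x t) := by
    intro k t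
    have h1 := x_conj_pow hh ((q - 1) * k) t
    rw [pow_mul ((ζ : F) ^ 2), hγq, one_pow, one_mul] at h1
    exact mul_inv_eq_iff_eq_mul.1 h1
  have hy1 : w * h ^ ((q - 1) * (r - 1)) * w⁻¹ = h ^ ((q - 1) * r) := by
    rw [mul_comm, pow_mul, ← conj_pow, hj, ← pow_mul, mul_comm]
  have hyw : Commute (h ^ ((q - 1) * r)) w := by
    have hyu : Commute (h ^ ((q - 1) * r)) u := hyx r 1
    have hyv : Commute (h ^ ((q - 1) * r)) (w * u * w⁻¹) := by
      have := (hyx (r - 1) 1).map (MulAut.conj w).toMonoidHom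
      simp only [MulEquiv.toMonoidHom_eq_coe, MonoidHom.coe_coe, MulAut.conj_apply] at this
      rwa [hy1] at this
    have := (hyu.mul_right hyv).mul_right hyu
    rw [e1] at this
    exact Commute.inv_right_iff.1 this
  have hy : h ^ (q - 1) = 1 := by
    have h1 : h ^ ((q - 1) * (r - 1)) = h ^ ((q - 1) * r) := by
      have h3 : w⁻¹ * h ^ ((q - 1) * r) * w = h ^ ((q - 1) * r) := by
        rw [mul_assoc, hyw.eq]; group
      rw [← h3, ← hy1]
      group
    have h3 : (q - 1) * r = (q - 1) * (r - 1) + (q - 1) := by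
      obtain ⟨s, rfl⟩ : ∃ s, r = s + 1 := ⟨r - 1, by omega⟩
      rw [Nat.add_sub_cancel]; ring
    rw [h3, pow_add] at h1
    exact (mul_eq_left.1 h1.symm)
  have hwh : w * h * w⁻¹ = h⁻¹ := by
    have e3 : (h ^ r)⁻¹ = h ^ (r - 1) := by
      rw [inv_eq_iff_mul_eq_one, ← pow_add]
      have : r + (r - 1) = q - 1 := by omega
      rw [this, hy]
    have e4 : h = (h ^ r) ^ 2 := by
      rw [← pow_mul]
      have : r * 2 = (q - 1) + 1 := by omega
      rw [this, pow_succ, hy, one_mul]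
    have e5 : w * h ^ r * w⁻¹ = (h ^ r)⁻¹ := by
      have h1 : h ^ r = (h ^ (r - 1))⁻¹ := by rw [← e3, inv_inv]
      calc w * h ^ r * w⁻¹ = w * (h ^ (r - 1))⁻¹ * w⁻¹ := by rw [← h1]
        _ = (w * h ^ (r - 1) * w⁻¹)⁻¹ := by group
        _ = _ := by rw [hj]
    calc w * h * w⁻¹ = w * (h ^ r) ^ 2 * w⁻¹ := by rw [← e4]
      _ = (w * h ^ r * w⁻¹) ^ 2 := by rw [conj_pow]
      _ = ((h ^ r) ^ 2)⁻¹ := by rw [e5, inv_pow]
      _ = _ := by rw [← e4]
  obtain ⟨Hm, hHm⟩ := exists_torus hζ hy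
  have hneg : (-1 : Fˣ) = 1 := Units.ext (by
    rw [Units.val_neg, Units.val_one]
    have : (1 : F) + 1 = 0 := by rw [one_add_one_eq_two]; exact h2
    exact (eq_neg_of_add_eq_zero_left this).symm)
  refine ⟨Hm, hHm, rel_of Hm hx ?_ ?_ ?_ ?_⟩
  · intro a t
    have := torus_conj hζ (Hm := Hm) (x := x) (χ := powMonoidHom 2) (by
      intro t; rw [hHm, hh]; simp) a t
    simpa using this
  · exact torus_inv hζ (by rw [hHm]; exact hwh)
  · rw [hw1, hneg, map_one]
  · intro t
    obtain ⟨i, hi⟩ := hζ t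
    refine ⟨(ζ ^ r) ^ i, 1, ?_, ?_⟩
    · rw [mul_one, ← hi]
      change ζ ^ i = _
      have : ((ζ ^ r) ^ i) ^ 2 = ((ζ ^ 2) ^ r) ^ i := by
        rw [← zpow_natCast, ← zpow_mul, ← pow_mul, mul_comm 2 r, pow_mul, mul_comm i, zpow_mul]
        norm_num
      rw [this, hhalf]
    · have e3 : u * w * u * w * u * w = 1 := by rw [← e0, ← ww, hw1]
      rw [inv_one, Units.val_one, x_neg hx, hneg, map_one, mul_one, ← hu]
      calc w * u * w = u⁻¹ * (u * w * u * w * u * w) * w⁻¹ * u⁻¹ := by group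
        _ = u⁻¹ * w * u⁻¹ := by rw [e3, hwi]; group

end rel

section pres

variable {F : Type v} [Field F] [Fintype F]

theorem sl2_gen {ζ : Fˣ} (hζ : ∀ y, y ∈ Subgroup.zpowers ζ) :
    Subgroup.closure (Set.range ![(SL2Lift.X (1 : F)), dH F ζ, SL2Lift.W]) = ⊤ := by
  obtain ⟨p, hch⟩ := CharP.exists F
  have hpp : p.Prime := (CharP.char_is_prime_or_zero F p).resolve_right (CharP.char_ne_zero_of_finite F p)
  have : Fact p.Prime := ⟨hpp⟩
  let _ : Algebra (ZMod p) F := ZMod.algebra F p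
  set K := Subgroup.closure (Set.range ![(SL2Lift.X (1 : F)), dH F ζ, SL2Lift.W]) with hK
  have k0 : SL2Lift.X (1 : F) ∈ K := Subgroup.subset_closure ⟨0, rfl⟩
  have k1 : dH F ζ ∈ K := Subgroup.subset_closure ⟨1, rfl⟩
  have k2 : (SL2Lift.W : SpecialLinearGroup (Fin 2) F) ∈ K := Subgroup.subset_closure ⟨2, rfl⟩
  have hpw : ∀ l : List ℤ, pw (dH F ζ) (SL2Lift.X (1 : F)) l ∈ K := by
    intro l
    induction l with
    | nil => exact one_mem _
    | cons a l ih => exact mul_mem (zpow_mem k0 a) (mul_mem (mul_mem k1 ih) (inv_mem k1))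
  have hconj : ∀ t, dH F ζ * SL2Lift.X t * (dH F ζ)⁻¹ = SL2Lift.X ((ζ : F) ^ 2 * t) := by
    intro t
    have := relSL.conj (ζ : F) t ζ.ne_zero
    rw [ext1_unit] at this
    rw [this]; group
  have hX : ∀ t, SL2Lift.X t ∈ K := by
    intro t
    obtain ⟨l, hl⟩ := exists_list (adjoin_sq_eq_top (p := p) hζ) t
    have := hpw l
    rwa [pw_root relSL.add hconj, hl, mul_one] at this
  have hH : ∀ a : Fˣ, dH F a ∈ K := by
    intro a
    obtain ⟨i, rfl⟩ := hζ a
    simp only [map_zpow]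
    exact zpow_mem k1 i
  have hH' : ∀ (a : F) (ha : a ≠ 0), SL2Lift.H a ha ∈ K := fun a ha => hH (Units.mk0 a ha)
  rw [eq_top_iff]
  intro g _
  by_cases hc : g.1 1 0 = 0
  · obtain ⟨ha, e⟩ := SL2Lift.eq_of_zero g hc
    rw [e]
    exact mul_mem (hX _) (hH' _ _)
  · rw [SL2Lift.eq_of_ne_zero g hc]
    exact mul_mem (mul_mem (mul_mem (hX _) (hH' _ _)) k2) (hX _)

theorem dH_conj (ζ : Fˣ) (t : F) : dH F ζ * SL2Lift.X t * (dH F ζ)⁻¹ = SL2Lift.X ((ζ : F) ^ 2 * t) := by
  have := relSL.conj (ζ : F) t ζ.ne_zero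
  rw [ext1_unit] at this
  rw [this]; group

theorem lift_lift {k m : ℕ} {G : Type*} [Group G] (a : Fin k → G) (b : Fin m → FreeGroup (Fin k))
    (r : FreeGroup (Fin m)) : FreeGroup.lift a (FreeGroup.lift b r) = FreeGroup.lift (fun i => FreeGroup.lift a (b i)) r := by
  have : (FreeGroup.lift a).comp (FreeGroup.lift b) = FreeGroup.lift (fun i => FreeGroup.lift a (b i)) := by
    ext i
    simp
  exact DFunLike.congr_fun this r

/-- **`SL₂(F)`, `F` of odd order, has a presentation with three generators and eight relators.** -/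
theorem sl2_odd (h2 : (2 : F) ≠ 0) : H111.HasPres (SpecialLinearGroup (Fin 2) F) 3 8 := by
  obtain ⟨ζ, hζ⟩ := IsCyclic.exists_generator (α := Fˣ)
  obtain ⟨p, hch⟩ := CharP.exists F
  have hpp : p.Prime := (CharP.char_is_prime_or_zero F p).resolve_right (CharP.char_ne_zero_of_finite F p)
  have : Fact p.Prime := ⟨hpp⟩
  let _ : Algebra (ZMod p) F := ZMod.algebra F p
  obtain ⟨hm1, hq2⟩ := neg_one_pow hζ h2
  obtain ⟨RU, hlen, hR1, hR2⟩ := uRel_odd hζ h2
  obtain ⟨l1, hl1⟩ := exists_list (adjoin_sq_eq_top (p := p) hζ) (ζ : F)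
  obtain ⟨l2, hl2⟩ := exists_list (adjoin_sq_eq_top (p := p) hζ) (-((ζ⁻¹ : Fˣ) : F))
  let U : FreeGroup (Fin 3) := FreeGroup.of 0
  let Hh : FreeGroup (Fin 3) := FreeGroup.of 1
  let W : FreeGroup (Fin 3) := FreeGroup.of 2
  let R : List (FreeGroup (Fin 3)) := RU.map (FreeGroup.lift ![U, Hh]) ++
    [W * Hh * W⁻¹ * Hh, W * W * (Hh ^ ((Fintype.card F - 1) / 2))⁻¹, (U * W) ^ 3,
      W * pw Hh U l1 * W * (pw Hh U l2 * Hh⁻¹ * W ^ 3 * pw Hh U l2)⁻¹]
  have hlenR : R.length ≤ 8 := by
    simp only [R, List.length_append, List.length_map, List.length_cons, List.length_nil]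
    omega
  refine H111.HasPres.mono (of_hom ![(SL2Lift.X (1 : F)), dH F ζ, SL2Lift.W] (sl2_gen hζ) R ?_ ?_) hlenR
  · intro r hr
    have hrel := relSL (F := F)
    have hww : (SL2Lift.W : SpecialLinearGroup (Fin 2) F) * SL2Lift.W = dH F (-1) := by
      rw [hrel.ww, ext1_of_ne _ (neg_ne_zero.2 one_ne_zero)]
      congr 1
      exact Units.ext (by simp)
    rcases List.mem_append.1 hr with hr | hr
    · obtain ⟨r', hr', rfl⟩ := List.mem_map.1 hr
      rw [lift_lift]
      have := hR1 _ SL2Lift.X (dH F ζ) hrel.add (dH_conj ζ) r' hr'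
      rw [← this]
      congr 2
      ext i
      fin_cases i <;> simp [U, Hh]
    · simp only [List.mem_cons, List.not_mem_nil, or_false] at hr
      rcases hr with rfl | rfl | rfl | rfl
      · simp only [map_mul, map_inv, FreeGroup.lift_apply_of, Hh, W, Matrix.cons_val_one, Matrix.cons_val]
        have := hrel.wh (ζ : F) ζ.ne_zero
        rw [ext1_unit, ← Units.val_inv_eq_inv_val, ext1_unit, map_inv] at this
        rw [this]
        group
      · simp only [map_mul, map_inv, map_pow, FreeGroup.lift_apply_of, Hh, W, Matrix.cons_val_one, Matrix.cons_val]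
        rw [hww, ← map_pow, hm1, mul_inv_cancel]
      · simp only [map_mul, map_pow, FreeGroup.lift_apply_of, U, W, Matrix.cons_val_zero, Matrix.cons_val]
        have h1 := hrel.wx 1 one_ne_zero
        have h3 : (-(1 : F)⁻¹) = ((-1 : Fˣ) : F) := by simp
        rw [h3, ext1_unit, ← hww] at h1
        have h4 : SL2Lift.X ((-1 : Fˣ) : F) = (SL2Lift.X (1 : F))⁻¹ := by
          rw [Units.val_neg, Units.val_one, x_neg hrel.add]
        rw [h4] at h1
        have h5 : (SL2Lift.W : SpecialLinearGroup (Fin 2) F) * SL2Lift.W * (SL2Lift.W * SL2Lift.W) = 1 := by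
          rw [hww, ← map_mul]
          simp
        calc (SL2Lift.X (1 : F) * SL2Lift.W) ^ 3 = SL2Lift.X 1 * (SL2Lift.W * SL2Lift.X 1 * SL2Lift.W) *
              SL2Lift.X 1 * SL2Lift.W := by simp only [pow_succ, pow_zero, one_mul, mul_assoc]
          _ = SL2Lift.W * SL2Lift.W * (SL2Lift.W * SL2Lift.W) := by rw [h1]; group
          _ = 1 := h5
      · simp only [map_mul, map_inv, map_pow, lift_pw, FreeGroup.lift_apply_of, Hh, W, U, Matrix.cons_val_zero,
          Matrix.cons_val_one, Matrix.cons_val]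
        rw [pw_root hrel.add (dH_conj ζ), pw_root hrel.add (dH_conj ζ), hl1, hl2, mul_one, mul_one]
        have h1 := hrel.wx (ζ : F) ζ.ne_zero
        have h3 : (-(ζ : F)⁻¹) = ((-ζ⁻¹ : Fˣ) : F) := by simp
        have h4 : dH F (-ζ⁻¹) = (dH F ζ)⁻¹ * (SL2Lift.W * SL2Lift.W) := by
          have : (-ζ⁻¹ : Fˣ) = ζ⁻¹ * (-1) := by simp
          rw [this, map_mul, map_inv, hww]
        rw [h3, ext1_unit, h4, Units.val_neg] at h1
        rw [h1, mul_inv_eq_one]
        simp only [pow_succ, pow_zero, one_mul, mul_assoc]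
  · intro J _ a hgen hr _
    set u := a 0 with hu
    set h := a 1 with hh
    set w := a 2 with hw
    have r1 := hr (W * Hh * W⁻¹ * Hh) (by simp [R])
    have r2 := hr (W * W * (Hh ^ ((Fintype.card F - 1) / 2))⁻¹) (by simp [R])
    have r3 := hr ((U * W) ^ 3) (by simp [R])
    have r4 := hr (W * pw Hh U l1 * W * (pw Hh U l2 * Hh⁻¹ * W ^ 3 * pw Hh U l2)⁻¹) (by simp [R])
    simp only [map_mul, map_inv, map_pow, lift_pw, FreeGroup.lift_apply_of, Hh, W, U, ← hu, ← hh, ← hw]
      at r1 r2 r3 r4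
    have whw : w * h * w⁻¹ = h⁻¹ := eq_inv_of_mul_eq_one_left r1
    have ww : w * w = h ^ ((Fintype.card F - 1) / 2) := mul_inv_eq_one.1 r2
    have hq : h ^ (Fintype.card F - 1) = 1 := by
      have e1 : w * (w * w) * w⁻¹ = w * w := by group
      rw [ww, ← conj_pow, whw, inv_pow] at e1
      rw [← hq2, two_mul, pow_add]
      nth_rewrite 1 [← e1]
      exact inv_mul_cancel _
    obtain ⟨x, hx, hx1, hxc, -⟩ := hR2 J u h hq (by
      intro r hr'
      have := hr (FreeGroup.lift ![U, Hh] r) (by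
        simp only [R, List.mem_append, List.mem_map]
        exact Or.inl ⟨r, hr', rfl⟩)
      rw [lift_lift] at this
      rw [← this]
      congr 2
      ext i
      fin_cases i <;> simp [U, Hh, hu, hh])
    rw [← hx1, pw_root hx hxc, pw_root hx hxc, hl1, hl2, mul_one, mul_one] at r4
    rw [← hx1] at r3
    obtain ⟨Hm, hHm, hrel⟩ := rel_odd hζ h2 hx hxc whw ww r3 (mul_inv_eq_one.1 r4)
    refine ⟨SL2Lift.hom hrel, ?_⟩
    intro i
    fin_cases i
    · exact (SL2Lift.hom_X hrel 1).trans hx1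
    · change SL2Lift.hom hrel (SL2Lift.H (ζ : F) ζ.ne_zero) = _
      rw [SL2Lift.hom_H, ext1_unit]
      exact hHm
    · exact SL2Lift.hom_W hrel

/-- **`SL₂(F)`, `F` of even order, has a presentation with three generators and five relators.** -/
theorem sl2_even (h2 : (2 : F) = 0) : H111.HasPres (SpecialLinearGroup (Fin 2) F) 3 5 := by
  obtain ⟨ζ, hζ⟩ := IsCyclic.exists_generator (α := Fˣ)
  obtain ⟨hev, hhalf⟩ := sq_pow_half hζ h2
  have hc1 : 1 < Fintype.card F := Fintype.one_lt_card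
  obtain ⟨RU, hlen, hR1, hR2⟩ := uRelS_two hζ h2
  let U : FreeGroup (Fin 3) := FreeGroup.of 0
  let Hh : FreeGroup (Fin 3) := FreeGroup.of 1
  let W : FreeGroup (Fin 3) := FreeGroup.of 2
  let R : List (FreeGroup (Fin 3)) := RU.map (FreeGroup.lift ![U, Hh]) ++
    [W * W * ((U * W) ^ 3)⁻¹, W * Hh ^ (Fintype.card F / 2 - 1) * W⁻¹ * (Hh ^ (Fintype.card F / 2))⁻¹]
  have hlenR : R.length ≤ 5 := by
    simp only [R, List.length_append, List.length_map, List.length_cons, List.length_nil]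
    omega
  refine H111.HasPres.mono (of_hom ![(SL2Lift.X (1 : F)), dH F ζ, SL2Lift.W] (sl2_gen hζ) R ?_ ?_) hlenR
  · intro r hr
    have hrel := relSL (F := F)
    have hneg : (-1 : Fˣ) = 1 := Units.ext (by
      rw [Units.val_neg, Units.val_one]
      have : (1 : F) + 1 = 0 := by rw [one_add_one_eq_two]; exact h2
      exact (eq_neg_of_add_eq_zero_left this).symm)
    have hww : (SL2Lift.W : SpecialLinearGroup (Fin 2) F) * SL2Lift.W = 1 := by
      rw [hrel.ww, ext1_of_ne _ (neg_ne_zero.2 one_ne_zero)]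
      have : Units.mk0 (-1 : F) (neg_ne_zero.2 one_ne_zero) = 1 := by
        rw [← hneg]; exact Units.ext (by simp)
      rw [this, map_one]
    rcases List.mem_append.1 hr with hr | hr
    · obtain ⟨r', hr', rfl⟩ := List.mem_map.1 hr
      rw [lift_lift]
      have := hR1 _ SL2Lift.X (dH F ζ) hrel.add (dH_conj ζ) r' hr'
      rw [← this]
      congr 2
      ext i
      fin_cases i <;> simp [U, Hh]
    · simp only [List.mem_cons, List.not_mem_nil, or_false] at hr
      rcases hr with rfl | rfl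
      · simp only [map_mul, map_inv, map_pow, FreeGroup.lift_apply_of, U, W, Matrix.cons_val_zero, Matrix.cons_val]
        have h1 := hrel.wx 1 one_ne_zero
        have h3 : (-(1 : F)⁻¹) = ((-1 : Fˣ) : F) := by simp
        rw [h3, ext1_unit, hneg, map_one, Units.val_one, mul_one] at h1
        have h4 : SL2Lift.X (1 : F) * SL2Lift.X 1 = 1 := by
          rw [← hrel.add, one_add_one_eq_two, h2, x_zero hrel.add]
        rw [hww, one_mul, inv_eq_one]
        calc (SL2Lift.X (1 : F) * SL2Lift.W) ^ 3 = SL2Lift.X 1 * (SL2Lift.W * SL2Lift.X 1 * SL2Lift.W) *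
              SL2Lift.X 1 * SL2Lift.W := by simp only [pow_succ, pow_zero, one_mul, mul_assoc]
          _ = (SL2Lift.X (1 : F) * SL2Lift.X 1) * SL2Lift.W * (SL2Lift.X (1 : F) * SL2Lift.X 1) * SL2Lift.W := by
              rw [h1]; simp only [mul_assoc]
          _ = 1 := by rw [h4, one_mul, mul_one, hww]
      · simp only [map_mul, map_inv, map_pow, FreeGroup.lift_apply_of, Hh, W, Matrix.cons_val_one, Matrix.cons_val]
        have h1 := hrel.wh (ζ : F) ζ.ne_zero
        rw [ext1_unit, ← Units.val_inv_eq_inv_val, ext1_unit, map_inv] at h1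
        have h3 : SL2Lift.W * dH F ζ * (SL2Lift.W)⁻¹ = (dH F ζ)⁻¹ := by rw [h1]; group
        rw [← conj_pow, h3, ← map_inv, ← map_pow, ← map_pow, ← map_inv, ← map_mul]
        have h4 : ζ⁻¹ ^ (Fintype.card F / 2 - 1) * (ζ ^ (Fintype.card F / 2))⁻¹ = 1 := by
          rw [inv_pow, ← mul_inv, inv_eq_one, ← pow_add]
          obtain ⟨r, hr⟩ := hev
          have : Fintype.card F / 2 - 1 + Fintype.card F / 2 = orderOf ζ := by
            rw [order_gen hζ]; omega
          rw [this, pow_orderOf_eq_one]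
        rw [h4, map_one]
  · intro J _ a hgen hr _
    set u := a 0 with hu
    set h := a 1 with hh
    set w := a 2 with hw
    have r1 := hr (W * W * ((U * W) ^ 3)⁻¹) (by simp [R])
    have r2 := hr (W * Hh ^ (Fintype.card F / 2 - 1) * W⁻¹ * (Hh ^ (Fintype.card F / 2))⁻¹) (by simp [R])
    simp only [map_mul, map_inv, map_pow, FreeGroup.lift_apply_of, Hh, W, U, ← hu, ← hh, ← hw] at r1 r2
    obtain ⟨x, hx, hx1, hxc, -⟩ := hR2 J u h (by
      intro r hr'
      have := hr (FreeGroup.lift ![U, Hh] r) (by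
        simp only [R, List.mem_append, List.mem_map]
        exact Or.inl ⟨r, hr', rfl⟩)
      rw [lift_lift] at this
      rw [← this]
      congr 2
      ext i
      fin_cases i <;> simp [U, Hh, hu, hh])
    rw [← hx1] at r1
    obtain ⟨Hm, hHm, hrel⟩ := rel_even hζ h2 hx hxc (mul_inv_eq_one.1 r1) (mul_inv_eq_one.1 r2)
    refine ⟨SL2Lift.hom hrel, ?_⟩
    intro i
    fin_cases i
    · exact (SL2Lift.hom_X hrel 1).trans hx1
    · change SL2Lift.hom hrel (SL2Lift.H (ζ : F) ζ.ne_zero) = _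
      rw [SL2Lift.hom_H, ext1_unit]
      exact hHm
    · exact SL2Lift.hom_W hrel

end pres

end Cfsg.Agent.H109
end
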