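import Mathlib
import Cfsg.Agent.H109.SL2b
import Cfsg.Agent.CTFrame.Hom
set_option linter.all false

-- part: H109/Triple
section
/-!
# Steinberg commutator relations from few of them (helper109)

`triple` : three additive families `A, B, C` with `⁅A r, B s⁆ = C (r s)` whenever `s / r` lies in a set of
representatives times cubes.
-/

set_option autoImplicit false

namespace Cfsg.Agent.H109

open scoped commutatorElement

section act

variable {F : Type*} [Field F] {J : Type*} [Group J]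

/-- `d` acts on the family `z` through multiplication by `k` -/
def Act (d : J) (z : F → J) (k : F) : Prop := ∀ t, d * z t * d⁻¹ = z (k * t)

theorem Act.mul {d d' : J} {z : F → J} {k k' : F} (h : Act d z k) (h' : Act d' z k') : Act (d * d') z (k * k') := by
  intro t
  have : d * d' * z t * (d * d')⁻¹ = d * (d' * z t * d'⁻¹) * d⁻¹ := by group
  rw [this, h', h, mul_assoc]

theorem Act.inv {d : J} {z : F → J} {k : F} (hk : k ≠ 0) (h : Act d z k) : Act d⁻¹ z k⁻¹ := by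
  intro t
  have := h (k⁻¹ * t)
  rw [mul_inv_cancel_left₀ hk] at this
  rw [← this]
  group

theorem Act.conj {d : J} {z : F → J} {k : F} (h : Act d z k) (e : J) :
    Act (e * d * e⁻¹) (fun t => e * z t * e⁻¹) k := by
  intro t
  have : e * d * e⁻¹ * (e * z t * e⁻¹) * (e * d * e⁻¹)⁻¹ = e * (d * z t * d⁻¹) * e⁻¹ := by group
  rw [this, h]

theorem Act.congr {d d' : J} {z z' : F → J} {k k' : F} (h : Act d z k) (hd : d = d') (hz : ∀ t, z t = z' t)
    (hk : k = k') : Act d' z' k' := by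
  subst hd hk
  intro t
  rw [← hz, ← hz, h]

end act

section triple

variable {F : Type*} [Field F] {J : Type*} [Group J]

theorem fam_zero {z : F → J} (hz : ∀ s t, z (s + t) = z s * z t) : z 0 = 1 := by
  have := hz 0 0
  rw [add_zero] at this
  exact (mul_eq_left.1 this.symm)

theorem fam_neg {z : F → J} (hz : ∀ s t, z (s + t) = z s * z t) (s : F) : z (-s) = (z s)⁻¹ := by
  rw [eq_inv_iff_mul_eq_one, ← hz, neg_add_cancel, fam_zero hz]

theorem comm_mul_right (a b b' : J) : ⁅a, b * b'⁆ = ⁅a, b⁆ * (b * ⁅a, b'⁆ * b⁻¹) := by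
  simp only [commutatorElement_def]; group

theorem comm_mul_left (a a' b : J) : ⁅a * a', b⁆ = (a * ⁅a', b⁆ * a⁻¹) * ⁅a, b⁆ := by
  simp only [commutatorElement_def]; group

/-- The commutator relations of three root groups. -/
theorem triple {A B C : F → J} (hA : ∀ s t, A (s + t) = A s * A t) (hB : ∀ s t, B (s + t) = B s * B t)
    (hC : ∀ s t, C (s + t) = C s * C t) (S : Set Fˣ)
    (span1 : ∀ M : AddSubgroup F, (∀ k : Fˣ, ∀ s ∈ S, (k : F) ^ 3 * (s : F) ∈ M) → ∀ t, t ∈ M)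
    (span2 : ∀ M : AddSubgroup F, (∀ k : Fˣ, ∀ s ∈ S, (k : F) ^ 3 * ((s⁻¹ : Fˣ) : F) ∈ M) → ∀ t, t ∈ M)
    (hP : ∀ r k : Fˣ, ∀ s ∈ S, ⁅A (r : F), B ((r : F) * (k : F) ^ 3 * (s : F))⁆ =
      C ((r : F) * ((r : F) * (k : F) ^ 3 * (s : F)))) :
    (∀ r s, ⁅A r, B s⁆ = C (r * s)) ∧ (∀ s c, Commute (B s) (C c)) ∧ (∀ r c, Commute (A r) (C c)) := by
  have hCn := fam_neg hC
  have hBn := fam_neg hB
  have h1 : ∀ r k : Fˣ, ∀ s ∈ S, Commute (B ((r : F) * (k : F) ^ 3 * (s : F)))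
      (C ((r : F) * ((r : F) * (k : F) ^ 3 * (s : F)))) := by
    intro r k s hs
    have e1 := hP r k s hs
    have e2 := hP r (-k) s hs
    have e3 : (r : F) * ((-k : Fˣ) : F) ^ 3 * (s : F) = -((r : F) * (k : F) ^ 3 * (s : F)) := by
      rw [Units.val_neg]; ring
    rw [e3, mul_neg] at e2
    generalize (r : F) * (k : F) ^ 3 * (s : F) = σ at *
    have e4 := comm_mul_right (A (r : F)) (B σ) (B (-σ))
    rw [← hB, add_neg_cancel, fam_zero hB, commutatorElement_one_right, e1, e2, hCn, ] at e4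
    have e5 : B σ * (C ((r : F) * σ))⁻¹ * (B σ)⁻¹ = (C ((r : F) * σ))⁻¹ := (eq_inv_of_mul_eq_one_right e4.symm)
    have e6 : Commute (B σ) (C ((r : F) * σ))⁻¹ := mul_inv_eq_iff_eq_mul.1 e5
    exact Commute.inv_right_iff.1 e6
  have h2 : ∀ (σ : Fˣ) (c : F), Commute (B (σ : F)) (C c) := by
    intro σ
    let M : AddSubgroup F :=
      { carrier := {c | Commute (B (σ : F)) (C ((σ : F) ^ 2 * c))}
        add_mem' := by
          intro a b ha hb
          simp only [Set.mem_ofPred_eq] at *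
          rw [mul_add, hC]
          exact ha.mul_right hb
        zero_mem' := by
          simp only [Set.mem_ofPred_eq, mul_zero, fam_zero hC]
          exact Commute.one_right _
        neg_mem' := by
          intro a ha
          simp only [Set.mem_ofPred_eq] at *
          rw [mul_neg, hCn]
          exact ha.inv_right }
    have hM : ∀ t, t ∈ M := by
      apply span2
      intro k s hs
      change Commute (B (σ : F)) (C ((σ : F) ^ 2 * _))
      have := h1 (σ * k ^ 3 * s⁻¹) k⁻¹ s hs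
      have e1 : (((σ * k ^ 3 * s⁻¹ : Fˣ) : F) * ((k⁻¹ : Fˣ) : F) ^ 3 * (s : F)) = (σ : F) := by
        push_cast
        field_simp
      rw [e1] at this
      have e2 : ((σ * k ^ 3 * s⁻¹ : Fˣ) : F) * (σ : F) = (σ : F) ^ 2 * ((k : F) ^ 3 * ((s⁻¹ : Fˣ) : F)) := by
        push_cast
        ring
      rwa [e2] at this
    intro c
    have h3 : Commute (B (σ : F)) (C ((σ : F) ^ 2 * _)) := hM (((σ : F) ^ 2)⁻¹ * c)
    rwa [mul_inv_cancel_left₀ (pow_ne_zero 2 σ.ne_zero)] at h3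
  have h3 : ∀ (s c : F), Commute (B s) (C c) := by
    intro s c
    by_cases hs : s = 0
    · rw [hs, fam_zero hB]; exact Commute.one_left _
    · exact h2 (Units.mk0 s hs) c
  have h4 : ∀ (r : Fˣ) (s : F), ⁅A (r : F), B s⁆ = C ((r : F) * s) := by
    intro r
    let M : AddSubgroup F :=
      { carrier := {s | ⁅A (r : F), B ((r : F) * s)⁆ = C ((r : F) * ((r : F) * s))}
        add_mem' := by
          intro a b ha hb
          simp only [Set.mem_ofPred_eq] at *
          rw [mul_add, mul_add, hB, hC, comm_mul_right, ha, hb, (h3 _ _).eq]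
          group
        zero_mem' := by
          simp only [Set.mem_ofPred_eq, mul_zero, fam_zero hC, fam_zero hB, commutatorElement_one_right]
        neg_mem' := by
          intro a ha
          simp only [Set.mem_ofPred_eq] at *
          rw [mul_neg, mul_neg, hBn, hCn]
          have e4 := comm_mul_right (A (r : F)) (B ((r : F) * a)) (B ((r : F) * a))⁻¹
          rw [mul_inv_cancel, commutatorElement_one_right, ha] at e4
          have e5 := eq_inv_of_mul_eq_one_right e4.symm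
          have e6 : ⁅A (r : F), (B ((r : F) * a))⁻¹⁆ = (B ((r : F) * a))⁻¹ *
              (B ((r : F) * a) * ⁅A (r : F), (B ((r : F) * a))⁻¹⁆ * (B ((r : F) * a))⁻¹) * B ((r : F) * a) := by
            group
          rw [e6, e5, mul_assoc, ((h3 ((r : F) * a) ((r : F) * ((r : F) * a))).symm.inv_left).eq]
          group }
    have hM : ∀ t, t ∈ M := by
      apply span1
      intro k s hs
      change ⁅A (r : F), B ((r : F) * _)⁆ = C ((r : F) * ((r : F) * _))
      have := hP r k s hs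
      rwa [mul_assoc (r : F)] at this
    intro s
    have h5 : ⁅A (r : F), B ((r : F) * _)⁆ = C ((r : F) * ((r : F) * _)) := hM (((r : F))⁻¹ * s)
    rwa [mul_inv_cancel_left₀ r.ne_zero] at h5
  have h5 : ∀ r s, ⁅A r, B s⁆ = C (r * s) := by
    intro r s
    by_cases hr : r = 0
    · rw [hr, fam_zero hA, zero_mul, fam_zero hC, commutatorElement_one_left]
    · exact h4 (Units.mk0 r hr) s
  refine ⟨h5, h3, ?_⟩
  intro r c
  -- use `c = 1 * c`
  have e1 := h5 (r + 1) c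
  rw [hA, comm_mul_left, h5, h5, add_mul, one_mul, add_comm, hC] at e1
  have e2 : A r * C c * (A r)⁻¹ = C c := mul_right_cancel e1
  exact mul_inv_eq_iff_eq_mul.1 e2

end triple

end Cfsg.Agent.H109
end

-- part: H109/Cubes
section
/-!
# Cubes span a finite field additively, except for four elements (helper109)
-/

set_option autoImplicit false

namespace Cfsg.Agent.H109

variable {F : Type*} [Field F] [Fintype F]

/-- the cube of a generator of the units generates the field, except for four elements -/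
theorem adjoin_cube_eq_top {p : ℕ} [Fact p.Prime] [Algebra (ZMod p) F] {ζ : Fˣ}
    (hζ : ∀ y, y ∈ Subgroup.zpowers ζ) (h4 : Fintype.card F ≠ 4) :
    Algebra.adjoin (ZMod p) {(ζ : F) ^ 3} = ⊤ := by
  by_contra hne
  obtain ⟨k, h1, h2, h3⟩ := exists_pow_of_adjoin_ne_top hne
  have ho : orderOf ζ = Fintype.card F - 1 := order_gen hζ
  have h5 : ζ ^ (3 * (p ^ k - 1)) = 1 := by
    apply Units.ext
    push_cast
    have h5 : (ζ : F) ^ (3 * (p ^ k - 1)) * (ζ : F) ^ 3 = (ζ : F) ^ 3 := by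
      rw [← pow_add]
      rw [← pow_mul] at h3
      have : 3 * (p ^ k - 1) + 3 = 3 * p ^ k := by omega
      rw [this]
      exact h3
    exact mul_right_cancel₀ (pow_ne_zero 3 ζ.ne_zero) (h5.trans (one_mul _).symm)
  have h6 := orderOf_dvd_of_pow_eq_one h5
  rw [ho] at h6
  have h7 := Nat.le_of_dvd (by omega) h6
  generalize p ^ k = r at *
  obtain ⟨s, rfl⟩ : ∃ s, r = s + 2 := ⟨r - 2, by omega⟩
  have h8 : (s + 2) ^ 2 = s ^ 2 + 4 * s + 4 := by ring
  have hs : s = 0 := by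
    rcases Nat.eq_zero_or_pos s with h | h
    · exact h
    · have : 1 ≤ s ^ 2 := Nat.one_le_pow _ _ h
      omega
  subst hs
  norm_num at h2 h7
  omega

theorem cube_span (h4 : Fintype.card F ≠ 4) (M : AddSubgroup F) (h : ∀ k : Fˣ, (k : F) ^ 3 ∈ M) (t : F) : t ∈ M := by
  obtain ⟨ζ, hζ⟩ := IsCyclic.exists_generator (α := Fˣ)
  obtain ⟨p, hch⟩ := CharP.exists F
  have hpp : p.Prime := (CharP.char_is_prime_or_zero F p).resolve_right (CharP.char_ne_zero_of_finite F p)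
  have : Fact p.Prime := ⟨hpp⟩
  let _ : Algebra (ZMod p) F := ZMod.algebra F p
  obtain ⟨l, rfl⟩ := exists_list (adjoin_cube_eq_top (p := p) hζ h4) t
  have key : ∀ (l : List ℤ) (i : ℕ), ((ζ : F) ^ i) ^ 3 * ev ((ζ : F) ^ 3) l ∈ M := by
    intro l
    induction l with
    | nil => intro i; simp [zero_mem]
    | cons a l ih =>
      intro i
      rw [ev_cons, mul_add]
      refine add_mem ?_ ?_
      · have h1 : ((ζ : F) ^ i) ^ 3 * (a : F) = a • (((ζ ^ i : Fˣ) : F) ^ 3) := by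
          rw [zsmul_eq_mul, Units.val_pow_eq_pow_val, mul_comm]
        rw [h1]
        exact zsmul_mem (h _) a
      · have h1 := ih (i + 1)
        have h2 : ((ζ : F) ^ i) ^ 3 * ((ζ : F) ^ 3 * ev ((ζ : F) ^ 3) l) =
            ((ζ : F) ^ (i + 1)) ^ 3 * ev ((ζ : F) ^ 3) l := by ring
        rwa [h2]
  have := key l 0
  simpa using this

theorem four_span (h4 : Fintype.card F = 4) {η : Fˣ} (hη : η ≠ 1) (M : AddSubgroup F) (h1 : (1 : F) ∈ M)
    (h2 : (η : F) ∈ M) (t : F) : t ∈ M := by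
  classical
  have hcard : Fintype.card Fˣ = 3 := by rw [Fintype.card_units, h4]
  have ho : orderOf η = 3 := by
    have hd : orderOf η ∣ 3 := by rw [← hcard]; exact orderOf_dvd_card
    rcases (Nat.dvd_prime Nat.prime_three).1 hd with h | h
    · exact absurd (orderOf_eq_one_iff.1 h) hη
    · exact h
  have hz : ∀ y, y ∈ Subgroup.zpowers η := by
    have : Nat.card (Subgroup.zpowers η) = Nat.card Fˣ := by
      rw [Nat.card_zpowers, ho, Nat.card_eq_fintype_card, hcard]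
    have htop := Subgroup.eq_top_of_card_eq _ this
    intro y
    rw [htop]; trivial
  have e3 : η ^ 3 = 1 := by rw [← ho]; exact pow_orderOf_eq_one η
  have e3' : (η : F) ^ 3 = 1 := by
    have := congrArg Units.val e3
    simpa using this
  have hne : (η : F) - 1 ≠ 0 := by
    intro h
    exact hη (Units.ext (sub_eq_zero.1 h))
  have e4 : (η : F) ^ 2 = -(η : F) - 1 := by
    have : ((η : F) - 1) * ((η : F) ^ 2 + η + 1) = 0 := by linear_combination e3'
    have h5 := (mul_eq_zero.1 this).resolve_left hne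
    linear_combination h5
  have h3 : (η : F) ^ 2 ∈ M := by
    rw [e4]; exact sub_mem (neg_mem h2) h1
  by_cases ht : t = 0
  · rw [ht]; exact zero_mem _
  · obtain ⟨i, hi⟩ := (mem_powers_iff_mem_zpowers).2 (hz (Units.mk0 t ht))
    have hi' : t = (η : F) ^ i := by
      have := congrArg Units.val hi
      simpa using this.symm
    have h6 : (η : F) ^ i = (η : F) ^ (i % 3) := by
      conv_lhs => rw [← Nat.div_add_mod i 3, pow_add, pow_mul, e3', one_pow, one_mul]
    have h7 : i % 3 < 3 := Nat.mod_lt _ (by norm_num)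
    rw [hi', h6]
    interval_cases (i % 3)
    · simpa using h1
    · simpa using h2
    · exact h3

end Cfsg.Agent.H109
end

-- part: H109/SL3a
section
/-!
# The Steinberg relations of type `A₂` from few relations (helper109)
-/

set_option autoImplicit false
set_option linter.unusedSectionVars false

namespace Cfsg.Agent.H109

open scoped commutatorElement
open Cfsg.Agent.Lib Cfsg.Agent.AGraded
open Matrix (SpecialLinearGroup)

section weyl

variable {F : Type*} [Field F] {J : Type*} [Group J] {x : F → J} {Hm : Fˣ →* J} {w : J}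

theorem rel_act (r : SL2Lift.Rel x (ext1 Hm) w) (a : Fˣ) : Act (Hm a) x ((a : F) ^ 2) := by
  intro t
  have := r.conj (a : F) t a.ne_zero
  rw [ext1_unit] at this
  rw [this]; group

theorem rel_wh (r : SL2Lift.Rel x (ext1 Hm) w) (a : Fˣ) : w * Hm a * w⁻¹ = (Hm a)⁻¹ := by
  have := r.wh (a : F) a.ne_zero
  rw [ext1_unit, ← Units.val_inv_eq_inv_val, ext1_unit, map_inv] at this
  rw [this]; group

theorem rel_ww (r : SL2Lift.Rel x (ext1 Hm) w) : w * w = Hm (-1) := by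
  have := r.ww
  rw [this]
  have e : (-1 : F) = ((-1 : Fˣ) : F) := by simp
  rw [e, ext1_unit]

theorem rel_wx (r : SL2Lift.Rel x (ext1 Hm) w) (t : Fˣ) :
    w * x (t : F) * w = x (-((t⁻¹ : Fˣ) : F)) * Hm (-t⁻¹) * w * x (-((t⁻¹ : Fˣ) : F)) := by
  have := r.wx (t : F) t.ne_zero
  have e : (-(t : F)⁻¹) = ((-t⁻¹ : Fˣ) : F) := by simp
  rw [e, ext1_unit] at this
  rw [this]
  simp

/-- the opposite root group -/
def yy (x : F → J) (w : J) (t : F) : J := w * x (-t) * w⁻¹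

theorem yy_add (r : SL2Lift.Rel x (ext1 Hm) w) (s t : F) : yy x w (s + t) = yy x w s * yy x w t := by
  unfold yy
  rw [neg_add, r.add]
  group

theorem w_x (t : F) : w * x t * w⁻¹ = yy x w (-t) := by
  unfold yy
  rw [neg_neg]

theorem w_yy (r : SL2Lift.Rel x (ext1 Hm) w) (t : F) : w * yy x w t * w⁻¹ = x (-t) := by
  unfold yy
  have h1 := rel_act r (-1) (-t)
  rw [← rel_ww r] at h1
  have e : w * (w * x (-t) * w⁻¹) * w⁻¹ = (w * w) * x (-t) * (w * w)⁻¹ := by group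
  rw [e, h1]
  simp

theorem Act.yy {d : J} {k : F} (h : Act (w⁻¹ * d * w) x k) : Act d (yy x w) k := by
  intro t
  unfold H109.yy
  have e : d * (w * x (-t) * w⁻¹) * d⁻¹ = w * ((w⁻¹ * d * w) * x (-t) * (w⁻¹ * d * w)⁻¹) * w⁻¹ := by group
  rw [e, h (-t)]
  congr 3
  ring

/-- the Weyl element `w(u) = h(u) w` -/
theorem weyl_eq (r : SL2Lift.Rel x (ext1 Hm) w) (u : Fˣ) :
    x (u : F) * yy x w (-((u⁻¹ : Fˣ) : F)) * x (u : F) = Hm u * w := by
  have h1 := rel_wx r u⁻¹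
  rw [inv_inv] at h1
  unfold yy
  rw [neg_neg]
  have hn := x_neg r.add (u : F)
  have h2 : x (u : F) * (w * x ((u⁻¹ : Fˣ) : F) * w⁻¹) * x (u : F) =
      x (u : F) * (w * x ((u⁻¹ : Fˣ) : F) * w) * ((w * w)⁻¹ * x (u : F)) := by group
  rw [h2, h1, hn]
  have h3 : (w * w)⁻¹ * x (u : F) = x (u : F) * (w * w)⁻¹ := by
    have h4 := rel_act r (-1) (u : F)
    rw [← rel_ww r] at h4
    have h5 : w * w * x (u : F) * (w * w)⁻¹ = x (u : F) := by
      rw [h4]; congr 1; push_cast; ring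
    have h6 : Commute (w * w) (x (u : F)) := mul_inv_eq_iff_eq_mul.1 h5
    exact h6.inv_left.eq
  rw [h3]
  have h7 : x (u : F) * ((x (u : F))⁻¹ * Hm (-u) * w * (x (u : F))⁻¹) * (x (u : F) * (w * w)⁻¹) =
      Hm (-u) * (w * w)⁻¹ * w := by group
  rw [h7]
  congr 1
  rw [rel_ww r, ← map_inv, ← map_mul]
  congr 1
  simp

end weyl

section three

variable {F : Type*} [Field F] {J : Type*} [Group J] {x : F → J} {Hm : Fˣ →* J} {w c : J}

/-- the relations between `SL₂` and the element `c` of order three -/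
structure D3 (x : F → J) (Hm : Fˣ →* J) (w c : J) : Prop where
  rel : SL2Lift.Rel x (ext1 Hm) w
  c3 : c * c * c = 1
  wc : (w * c⁻¹) * (w * c⁻¹) = 1
  wg : ∀ a, w * (c * Hm a * c⁻¹) * w⁻¹ = Hm a * (c * Hm a * c⁻¹)
  hg : ∀ a b, Commute (Hm a) (c * Hm b * c⁻¹)
  act : ∀ a : Fˣ, Act (c * Hm a * c⁻¹) x ((a⁻¹ : Fˣ) : F)
  R : (w * c⁻¹) * (c⁻¹ * x 1 * c) * (w * c⁻¹)⁻¹ = c⁻¹ * yy x w 1 * c

variable (h : D3 x Hm w c)

include h

namespace D3

theorem sinv : (w * c⁻¹)⁻¹ = w * c⁻¹ := inv_eq_of_mul_eq_one_left h.wc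

theorem cinv : c⁻¹ = c * c := inv_eq_of_mul_eq_one_left h.c3

theorem cinv2 : c⁻¹ * c⁻¹ = c := by
  rw [← mul_inv_rev, ← h.cinv, inv_inv]

theorem sD1 (a : Fˣ) : (w * c⁻¹) * (c * Hm a * c⁻¹) * (w * c⁻¹)⁻¹ = (Hm a)⁻¹ := by
  rw [← rel_wh h.rel a]; group

theorem flip {a b : J} (hab : (w * c⁻¹) * a * (w * c⁻¹)⁻¹ = b) : (w * c⁻¹) * b * (w * c⁻¹)⁻¹ = a := by
  rw [← hab]
  have := h.wc
  calc w * c⁻¹ * (w * c⁻¹ * a * (w * c⁻¹)⁻¹) * (w * c⁻¹)⁻¹ =
      ((w * c⁻¹) * (w * c⁻¹)) * a * ((w * c⁻¹) * (w * c⁻¹))⁻¹ := by group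
    _ = a := by rw [this]; group

theorem sD0 (a : Fˣ) : (w * c⁻¹) * (Hm a) * (w * c⁻¹)⁻¹ = (c * Hm a * c⁻¹)⁻¹ := by
  have h1 : (w * c⁻¹) * (c * Hm a * c⁻¹)⁻¹ * (w * c⁻¹)⁻¹ = Hm a := by
    rw [← inv_inj, ← h.sD1 a]; group
  exact h.flip h1

theorem D2eq (a : Fˣ) : c⁻¹ * Hm a * c = (Hm a * (c * Hm a * c⁻¹))⁻¹ := by
  have h1 : (w * c⁻¹) * (c⁻¹ * Hm a * c) * (w * c⁻¹)⁻¹ = Hm a * (c * Hm a * c⁻¹) := by
    rw [← h.wg a]
    have : c⁻¹ * Hm a * c = c * (c * Hm a * c⁻¹) * c⁻¹ := by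
      calc c⁻¹ * Hm a * c = (c * c) * Hm a * (c * c)⁻¹ := by rw [← h.cinv, inv_inv]
        _ = _ := by group
    rw [this]; group
  have h2 := h.flip h1
  rw [← h2]
  calc (w * c⁻¹) * (Hm a * (c * Hm a * c⁻¹)) * (w * c⁻¹)⁻¹ =
      ((w * c⁻¹) * Hm a * (w * c⁻¹)⁻¹) * ((w * c⁻¹) * (c * Hm a * c⁻¹) * (w * c⁻¹)⁻¹) := by group
    _ = _ := by rw [h.sD0, h.sD1]; group

theorem wD1 (a : Fˣ) : w⁻¹ * (c * Hm a * c⁻¹) * w = Hm a * (c * Hm a * c⁻¹) := by
  have h1 : w * (Hm a * (c * Hm a * c⁻¹)) * w⁻¹ = c * Hm a * c⁻¹ := by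
    calc w * (Hm a * (c * Hm a * c⁻¹)) * w⁻¹ = (w * Hm a * w⁻¹) * (w * (c * Hm a * c⁻¹) * w⁻¹) := by group
      _ = _ := by rw [rel_wh h.rel, h.wg]; group
  conv_lhs => rw [← h1]
  group

theorem wD0 (a : Fˣ) : w⁻¹ * Hm a * w = (Hm a)⁻¹ := by
  have h1 : w * (Hm a)⁻¹ * w⁻¹ = Hm a := by
    calc w * (Hm a)⁻¹ * w⁻¹ = (w * Hm a * w⁻¹)⁻¹ := by group
      _ = Hm a := by rw [rel_wh h.rel a, inv_inv]
  conv_lhs => rw [← h1]
  group

theorem a0x (a : Fˣ) : Act (Hm a) x ((a : F) ^ 2) := rel_act h.rel a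

theorem a1x (a : Fˣ) : Act (c * Hm a * c⁻¹) x ((a : F)⁻¹) :=
  (h.act a).congr rfl (fun _ => rfl) (by simp)

theorem a2x (a : Fˣ) : Act (c⁻¹ * Hm a * c) x ((a : F)⁻¹) := by
  have h1 := ((h.a0x a).mul (h.a1x a)).inv (by simp)
  refine h1.congr (h.D2eq a).symm (fun _ => rfl) ?_
  have := a.ne_zero
  field_simp

theorem a0y (a : Fˣ) : Act (Hm a) (yy x w) (((a : F) ^ 2)⁻¹) := by
  apply Act.yy
  rw [h.wD0]
  exact (h.a0x a).inv (by simp)

theorem a1y (a : Fˣ) : Act (c * Hm a * c⁻¹) (yy x w) (a : F) := by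
  apply Act.yy
  rw [h.wD1]
  refine ((h.a0x a).mul (h.a1x a)).congr rfl (fun _ => rfl) ?_
  have := a.ne_zero
  field_simp

theorem a2y (a : Fˣ) : Act (c⁻¹ * Hm a * c) (yy x w) (a : F) := by
  have h1 := ((h.a0y a).mul (h.a1y a)).inv (by simp)
  refine h1.congr (h.D2eq a).symm (fun _ => rfl) ?_
  have := a.ne_zero
  field_simp

/-- torus actions on `x₂₃` -/
theorem a0x23 (a : Fˣ) : Act (Hm a) (fun t => c * x t * c⁻¹) ((a : F)⁻¹) := by
  refine ((h.a2x a).conj c).congr ?_ (fun _ => rfl) rfl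
  group

theorem a1x23 (a : Fˣ) : Act (c * Hm a * c⁻¹) (fun t => c * x t * c⁻¹) ((a : F) ^ 2) :=
  (h.a0x a).conj c

theorem a0x13 (a : Fˣ) : Act (Hm a) (fun t => c⁻¹ * yy x w t * c) (a : F) := by
  refine ((h.a1y a).conj c⁻¹).congr ?_ (fun t => ?_) rfl
  · group
  · rw [inv_inv]

theorem a1x13 (a : Fˣ) : Act (c * Hm a * c⁻¹) (fun t => c⁻¹ * yy x w t * c) (a : F) := by
  refine ((h.a2y a).conj c⁻¹).congr ?_ (fun t => ?_) rfl
  · calc c⁻¹ * (c⁻¹ * Hm a * c) * c⁻¹⁻¹ = (c⁻¹ * c⁻¹) * Hm a * (c⁻¹ * c⁻¹)⁻¹ := by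
          simp only [mul_assoc, mul_inv_rev, inv_inv]
      _ = _ := by rw [h.cinv2]
  · rw [inv_inv]

theorem a0x31 (a : Fˣ) : Act (Hm a) (fun t => c⁻¹ * x t * c) ((a : F)⁻¹) := by
  refine ((h.a1x a).conj c⁻¹).congr ?_ (fun t => ?_) rfl
  · group
  · rw [inv_inv]

/-- the action of `s = w c⁻¹` -/
theorem s12 (t : F) : (w * c⁻¹) * (c * x t * c⁻¹) * (w * c⁻¹)⁻¹ = yy x w (-t) := by
  rw [← w_x]; group

theorem s21 (t : F) : (w * c⁻¹) * (c * yy x w t * c⁻¹) * (w * c⁻¹)⁻¹ = x (-t) := by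
  rw [← w_yy h.rel]; group

theorem s10 (t : F) : (w * c⁻¹) * yy x w t * (w * c⁻¹)⁻¹ = c * x (-t) * c⁻¹ := by
  have := h.s12 (-t)
  rw [neg_neg] at this
  exact h.flip this

theorem s01 (t : F) : (w * c⁻¹) * x t * (w * c⁻¹)⁻¹ = c * yy x w (-t) * c⁻¹ := by
  have := h.s21 (-t)
  rw [neg_neg] at this
  exact h.flip this

theorem s20 (t : F) : (w * c⁻¹) * (c⁻¹ * x t * c) * (w * c⁻¹)⁻¹ = c⁻¹ * yy x w t * c := by
  by_cases ht : t = 0
  · subst ht
    have h1 : x 0 = 1 := x_zero h.rel.add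
    have h2 : yy x w 0 = 1 := by unfold yy; rw [neg_zero, h1]; group
    rw [h1, h2]; group
  · set a : Fˣ := (Units.mk0 t ht)⁻¹ with ha
    have ha' : (a : F)⁻¹ = t := by rw [ha]; simp
    have h1 : Hm a * (c⁻¹ * x 1 * c) * (Hm a)⁻¹ = c⁻¹ * x t * c := by
      have := h.a0x31 a 1
      rw [ha', mul_one] at this
      exact this
    have h2 : (c * Hm a * c⁻¹)⁻¹ * (c⁻¹ * yy x w 1 * c) * (c * Hm a * c⁻¹)⁻¹⁻¹ = c⁻¹ * yy x w t * c := by
      have := ((h.a1x13 a).inv a.ne_zero) 1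
      rw [ha', mul_one] at this
      exact this
    rw [← h1, ← h2, ← h.sD0, ← h.R]
    group

theorem s02 (t : F) : (w * c⁻¹) * (c⁻¹ * yy x w t * c) * (w * c⁻¹)⁻¹ = c⁻¹ * x t * c := h.flip (h.s20 t)

end D3

end three

end Cfsg.Agent.H109
end

-- part: H109/SL3b
section
/-!
# The homomorphism from `SL₃(F)` (helper109)
-/

set_option autoImplicit false
set_option linter.unusedSectionVars false

namespace Cfsg.Agent.H109

open scoped commutatorElement
open Cfsg.Agent.Lib Cfsg.Agent.AGraded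
open Matrix (SpecialLinearGroup)

variable {F : Type*} [Field F] {J : Type*} [Group J] {x : F → J} {Hm : Fˣ →* J} {w c : J}

/-- the root elements -/
def XX (x : F → J) (w c : J) (i j : Fin 3) (t : F) : J :=
  match i, j with
  | 0, 1 => x t
  | 1, 0 => yy x w t
  | 1, 2 => c * x t * c⁻¹
  | 2, 1 => c * yy x w t * c⁻¹
  | 2, 0 => c⁻¹ * x t * c
  | 0, 2 => c⁻¹ * yy x w t * c
  | _, _ => 1

theorem conj_br (g a b : J) : ⁅g * a * g⁻¹, g * b * g⁻¹⁆ = g * ⁅a, b⁆ * g⁻¹ := by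
  simp only [commutatorElement_def]; group

theorem conj_br' (g a b : J) : ⁅g⁻¹ * a * g, g⁻¹ * b * g⁆ = g⁻¹ * ⁅a, b⁆ * g := by
  simp only [commutatorElement_def]; group

theorem conj_comm {a b : J} (h : Commute a b) (g : J) : Commute (g * a * g⁻¹) (g * b * g⁻¹) := by
  have := h.map (MulAut.conj g).toMonoidHom
  simpa only [MulEquiv.toMonoidHom_eq_coe, MonoidHom.coe_coe, MulAut.conj_apply] using this

theorem conj_comm' {a b : J} (h : Commute a b) (g : J) : Commute (g⁻¹ * a * g) (g⁻¹ * b * g) := by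
  have := conj_comm h g⁻¹
  rwa [inv_inv] at this

section

variable (h : D3 x Hm w c) {S : Set Fˣ}
  (span1 : ∀ M : AddSubgroup F, (∀ k : Fˣ, ∀ s ∈ S, (k : F) ^ 3 * (s : F) ∈ M) → ∀ t, t ∈ M)
  (span2 : ∀ M : AddSubgroup F, (∀ k : Fˣ, ∀ s ∈ S, (k : F) ^ 3 * ((s⁻¹ : Fˣ) : F) ∈ M) → ∀ t, t ∈ M)
  (hC : ∀ s ∈ S, ⁅x 1, c * x (s : F) * c⁻¹⁆ = c⁻¹ * yy x w (s : F) * c)

include h

theorem add23 (s t : F) : c * x (s + t) * c⁻¹ = (c * x s * c⁻¹) * (c * x t * c⁻¹) := by
  rw [h.rel.add]; group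

theorem add13 (s t : F) : c⁻¹ * yy x w (s + t) * c = (c⁻¹ * yy x w s * c) * (c⁻¹ * yy x w t * c) := by
  rw [yy_add h.rel]; group

include span1 span2 hC

theorem tri : (∀ r s, ⁅x r, c * x s * c⁻¹⁆ = c⁻¹ * yy x w (r * s) * c) ∧
    (∀ s t, Commute (c * x s * c⁻¹) (c⁻¹ * yy x w t * c)) ∧
    (∀ r t, Commute (x r) (c⁻¹ * yy x w t * c)) := by
  refine triple (A := x) (B := fun t => c * x t * c⁻¹) (C := fun t => c⁻¹ * yy x w t * c) h.rel.add (add23 h)
    (add13 h) S span1 span2 ?_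
  intro r k s hs
  have e1 := hC s hs
  set a : Fˣ := r * k with ha
  set b : Fˣ := r * k ^ 2 with hb
  have d1 : Act (Hm a * (c * Hm b * c⁻¹)) x (r : F) := by
    refine ((h.a0x a).mul (h.a1x b)).congr rfl (fun _ => rfl) ?_
    rw [ha, hb]; push_cast
    have := r.ne_zero
    have := k.ne_zero
    field_simp
  have d2 : Act (Hm a * (c * Hm b * c⁻¹)) (fun t => c * x t * c⁻¹) ((r : F) * (k : F) ^ 3) := by
    refine ((h.a0x23 a).mul (h.a1x23 b)).congr rfl (fun _ => rfl) ?_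
    rw [ha, hb]; push_cast
    have := r.ne_zero
    have := k.ne_zero
    field_simp
  have d3 : Act (Hm a * (c * Hm b * c⁻¹)) (fun t => c⁻¹ * yy x w t * c) ((r : F) * ((r : F) * (k : F) ^ 3)) := by
    refine ((h.a0x13 a).mul (h.a1x13 b)).congr rfl (fun _ => rfl) ?_
    rw [ha, hb]; push_cast
    ring
  have e2 := d1 1
  have e3 := d2 (s : F)
  have e4 := d3 (s : F)
  rw [mul_one] at e2
  simp only at e3 e4
  rw [← e2, ← e3, conj_br, e1, e4]
  congr 3
  ring

theorem stein : SteinRel (XX x w c) := by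
  obtain ⟨t1, t2, t3⟩ := tri h span1 span2 hC
  have hc := h.cinv
  have hc2 := h.cinv2
  have hcc : c * c = c⁻¹ := hc.symm
  -- conjugation by `c`
  have cc1 : ∀ z : J, c * (c * z * c⁻¹) * c⁻¹ = c⁻¹ * z * c := by
    intro z
    calc c * (c * z * c⁻¹) * c⁻¹ = (c * c) * z * (c * c)⁻¹ := by group
      _ = _ := by rw [hcc, inv_inv]
  have cc2 : ∀ z : J, c * (c⁻¹ * z * c) * c⁻¹ = z := by intro z; group
  have cc3 : ∀ z : J, c⁻¹ * (c⁻¹ * z * c) * c = c * z * c⁻¹ := by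
    intro z
    calc c⁻¹ * (c⁻¹ * z * c) * c = (c⁻¹ * c⁻¹) * z * (c⁻¹ * c⁻¹)⁻¹ := by
          simp only [mul_assoc, mul_inv_rev, inv_inv]
      _ = _ := by rw [hc2]
  have cc4 : ∀ z : J, c⁻¹ * (c * z * c⁻¹) * c = z := by intro z; group
  -- (0,1,2)
  have b012 : ∀ a b, ⁅x a, c * x b * c⁻¹⁆ = c⁻¹ * yy x w (a * b) * c := t1
  have b120 : ∀ a b, ⁅c * x a * c⁻¹, c⁻¹ * x b * c⁆ = yy x w (a * b) := by
    intro a b
    rw [← cc1 (x b), conj_br, b012, cc2]
  have b201 : ∀ a b, ⁅c⁻¹ * x a * c, x b⁆ = c * yy x w (a * b) * c⁻¹ := by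
    intro a b
    rw [← cc1 (x a), ← cc2 (x b), conj_br, b120]
  -- (2,1,0)
  have b210 : ∀ a b, ⁅c * yy x w a * c⁻¹, yy x w b⁆ = c⁻¹ * x (a * b) * c := by
    intro a b
    have h1 := h.s01 (-a)
    have h2 := h.s12 (-b)
    rw [neg_neg] at h1 h2
    rw [← h1, ← h2, conj_br, b012, neg_mul_neg, h.s02]
  have b021 : ∀ a b, ⁅c⁻¹ * yy x w a * c, c * yy x w b * c⁻¹⁆ = x (a * b) := by
    intro a b
    rw [← cc1 (yy x w a), conj_br, b210, cc2]
  have b102 : ∀ a b, ⁅yy x w a, c⁻¹ * yy x w b * c⁆ = c * x (a * b) * c⁻¹ := by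
    intro a b
    rw [← cc1 (yy x w b), ← cc2 (yy x w a), conj_br, b021]
  -- columns and rows
  have col2 : ∀ a b, Commute (c * x a * c⁻¹) (c⁻¹ * yy x w b * c) := t2
  have col0 : ∀ a b, Commute (c⁻¹ * x a * c) (yy x w b) := by
    intro a b
    have := conj_comm (col2 a b) c
    rwa [cc1, cc2] at this
  have col1 : ∀ a b, Commute (x a) (c * yy x w b * c⁻¹) := by
    intro a b
    have := conj_comm (col0 a b) c
    rwa [cc2] at this
  have row0 : ∀ a b, Commute (x a) (c⁻¹ * yy x w b * c) := t3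
  have row1 : ∀ a b, Commute (c * x a * c⁻¹) (yy x w b) := by
    intro a b
    have := conj_comm (row0 a b) c
    rwa [cc2] at this
  have row2 : ∀ a b, Commute (c⁻¹ * x a * c) (c * yy x w b * c⁻¹) := by
    intro a b
    have := conj_comm (row1 a b) c
    rwa [cc1] at this
  have xc : ∀ a b, Commute (x a) (x b) := by
    intro a b
    change x a * x b = x b * x a
    rw [← h.rel.add, ← h.rel.add, add_comm]
  have yc : ∀ a b, Commute (yy x w a) (yy x w b) := by
    intro a b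
    change yy x w a * yy x w b = yy x w b * yy x w a
    rw [← yy_add h.rel, ← yy_add h.rel, add_comm]
  refine ⟨?_, ?_, ?_⟩
  · intro i j hij a b
    fin_cases i <;> fin_cases j <;> first
      | exact absurd rfl hij
      | exact h.rel.add a b
      | exact yy_add h.rel a b
      | exact add23 h a b
      | exact add13 h a b
      | (change c * yy x w (a + b) * c⁻¹ = (c * yy x w a * c⁻¹) * (c * yy x w b * c⁻¹)
         rw [yy_add h.rel]; group)
      | (change c⁻¹ * x (a + b) * c = (c⁻¹ * x a * c) * (c⁻¹ * x b * c)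
         rw [h.rel.add]; group)
  · intro i j k l hij hkl hjk hil a b
    fin_cases i <;> fin_cases j <;> first
      | exact absurd rfl hij
      | (fin_cases k <;> first
          | exact absurd rfl hjk
          | (fin_cases l <;> first
              | exact absurd rfl hkl
              | exact absurd rfl hil
              | exact (xc a b).eq
              | exact (yc a b).eq
              | exact (conj_comm (xc a b) c).eq
              | exact (conj_comm (yc a b) c).eq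
              | exact (conj_comm' (xc a b) c).eq
              | exact (conj_comm' (yc a b) c).eq
              | exact (col2 a b).eq
              | exact (col2 b a).symm.eq
              | exact (col0 a b).eq
              | exact (col0 b a).symm.eq
              | exact (col1 a b).eq
              | exact (col1 b a).symm.eq
              | exact (row0 a b).eq
              | exact (row0 b a).symm.eq
              | exact (row1 a b).eq
              | exact (row1 b a).symm.eq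
              | exact (row2 a b).eq
              | exact (row2 b a).symm.eq))
  · intro i j k hij hjk hik a b
    fin_cases i <;> fin_cases j <;> first
      | exact absurd rfl hij
      | (fin_cases k <;> first
          | exact absurd rfl hjk
          | exact absurd rfl hik
          | exact b012 a b
          | exact b120 a b
          | exact b201 a b
          | exact b210 a b
          | exact b021 a b
          | exact b102 a b)

end

end Cfsg.Agent.H109
end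

-- part: H109/SL3c
section
/-!
# The homomorphism from `SL₃(F)` and the matrices (helper109)
-/

set_option autoImplicit false
set_option linter.unusedSectionVars false

namespace Cfsg.Agent.H109

open scoped commutatorElement
open Cfsg.Agent.Lib Cfsg.Agent.AGraded
open Matrix (SpecialLinearGroup)

section hom

variable {F : Type*} [Field F] {J : Type*} [Group J] {x : F → J} {Hm : Fˣ →* J} {w c : J}

section

variable (r : SL2Lift.Rel x (ext1 Hm) w)

include r

theorem t01 (u : Fˣ) : (x (u : F) * yy x w (-(u : F)⁻¹) * x (u : F)) *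
    (x (-1) * yy x w (-(-1 : F)⁻¹) * x (-1)) = Hm u := by
  have h1 := weyl_eq r u
  have h2 := weyl_eq r (-1)
  rw [Units.val_inv_eq_inv_val] at h1 h2
  rw [Units.val_neg, Units.val_one] at h2
  rw [h1, h2]
  calc Hm u * w * (Hm (-1) * w) = Hm u * (w * Hm (-1) * w⁻¹) * (w * w) := by group
    _ = Hm u := by rw [rel_wh r, rel_ww r]; group

theorem t10 (u : Fˣ) : (yy x w (u : F) * x (-(u : F)⁻¹) * yy x w (u : F)) *
    (yy x w (-1) * x (-(-1 : F)⁻¹) * yy x w (-1)) = (Hm u)⁻¹ := by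
  have key : ∀ v : Fˣ, yy x w (v : F) * x (-(v : F)⁻¹) * yy x w (v : F) = w * Hm (-v) := by
    intro v
    have h1 := weyl_eq r (-v)
    have e1 : yy x w (v : F) = w * x ((-v : Fˣ) : F) * w⁻¹ := by
      rw [w_x]; congr 1; push_cast; ring
    have e2 : x (-(v : F)⁻¹) = w * yy x w (-(((-v)⁻¹ : Fˣ) : F)) * w⁻¹ := by
      rw [w_yy r]; congr 1; push_cast; simp [inv_neg]
    rw [e2, e1]
    calc w * x ((-v : Fˣ) : F) * w⁻¹ * (w * yy x w (-(((-v)⁻¹ : Fˣ) : F)) * w⁻¹) * (w * x ((-v : Fˣ) : F) * w⁻¹) =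
        w * (x ((-v : Fˣ) : F) * yy x w (-(((-v)⁻¹ : Fˣ) : F)) * x ((-v : Fˣ) : F)) * w⁻¹ := by group
      _ = _ := by rw [h1]; group
  have h1 := key u
  have h2 := key (-1)
  rw [Units.val_neg, Units.val_one] at h2
  rw [h1, h2, neg_neg, map_one, mul_one]
  calc w * Hm (-u) * w = (w * Hm (-u) * w⁻¹) * (w * w) := by group
    _ = (Hm u)⁻¹ := by
      rw [rel_wh r, rel_ww r, ← map_inv, ← map_inv, ← map_mul]
      congr 1
      simp

end

variable (h : D3 x Hm w c)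

include h

theorem hRel : CTFrame.Torus.HRel (XX x w c) := by
  have conj3 : ∀ g a b d e f k : J, (g * a * g⁻¹) * (g * b * g⁻¹) * (g * d * g⁻¹) * ((g * e * g⁻¹) * (g * f * g⁻¹) *
      (g * k * g⁻¹)) = g * ((a * b * d) * (e * f * k)) * g⁻¹ := by
    intros; group
  have conj3' : ∀ g a b d e f k : J, (g⁻¹ * a * g) * (g⁻¹ * b * g) * (g⁻¹ * d * g) * ((g⁻¹ * e * g) * (g⁻¹ * f * g) *
      (g⁻¹ * k * g)) = g⁻¹ * ((a * b * d) * (e * f * k)) * g := by
    intros; group
  have r := h.rel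
  intro i j hij a b ha hb
  obtain ⟨u, rfl⟩ : ∃ u : Fˣ, a = (u : F) := ⟨Units.mk0 a ha, rfl⟩
  obtain ⟨v, rfl⟩ : ∃ u : Fˣ, b = (u : F) := ⟨Units.mk0 b hb, rfl⟩
  have m01 := t01 r
  have m10 := t10 r
  rw [← Units.val_mul]
  fin_cases i <;> fin_cases j <;> first
    | exact absurd rfl hij
    | (change (x (u : F) * yy x w (-(u : F)⁻¹) * x (u : F)) * (x (-1) * yy x w (-(-1 : F)⁻¹) * x (-1)) *
          ((x (v : F) * yy x w (-(v : F)⁻¹) * x (v : F)) * (x (-1) * yy x w (-(-1 : F)⁻¹) * x (-1))) =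
          (x ((u * v : Fˣ) : F) * yy x w (-((u * v : Fˣ) : F)⁻¹) * x ((u * v : Fˣ) : F)) *
          (x (-1) * yy x w (-(-1 : F)⁻¹) * x (-1))
       rw [m01, m01, m01, map_mul])
    | (change (yy x w (u : F) * x (-(u : F)⁻¹) * yy x w (u : F)) *
          (yy x w (-1) * x (-(-1 : F)⁻¹) * yy x w (-1)) *
          ((yy x w (v : F) * x (-(v : F)⁻¹) * yy x w (v : F)) *
          (yy x w (-1) * x (-(-1 : F)⁻¹) * yy x w (-1))) =
          (yy x w ((u * v : Fˣ) : F) * x (-((u * v : Fˣ) : F)⁻¹) * yy x w ((u * v : Fˣ) : F)) *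
          (yy x w (-1) * x (-(-1 : F)⁻¹) * yy x w (-1))
       rw [m10, m10, m10, mul_comm u v, map_mul, mul_inv_rev])
    | (change (c * x (u : F) * c⁻¹) * (c * yy x w (-(u : F)⁻¹) * c⁻¹) * (c * x (u : F) * c⁻¹) *
          ((c * x (-1) * c⁻¹) * (c * yy x w (-(-1 : F)⁻¹) * c⁻¹) * (c * x (-1) * c⁻¹)) *
          ((c * x (v : F) * c⁻¹) * (c * yy x w (-(v : F)⁻¹) * c⁻¹) * (c * x (v : F) * c⁻¹) *
          ((c * x (-1) * c⁻¹) * (c * yy x w (-(-1 : F)⁻¹) * c⁻¹) * (c * x (-1) * c⁻¹))) =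
          (c * x ((u * v : Fˣ) : F) * c⁻¹) * (c * yy x w (-((u * v : Fˣ) : F)⁻¹) * c⁻¹) *
          (c * x ((u * v : Fˣ) : F) * c⁻¹) *
          ((c * x (-1) * c⁻¹) * (c * yy x w (-(-1 : F)⁻¹) * c⁻¹) * (c * x (-1) * c⁻¹))
       rw [conj3, conj3, conj3, m01, m01, m01, map_mul]; group)
    | (change (c * yy x w (u : F) * c⁻¹) * (c * x (-(u : F)⁻¹) * c⁻¹) * (c * yy x w (u : F) * c⁻¹) *
          ((c * yy x w (-1) * c⁻¹) * (c * x (-(-1 : F)⁻¹) * c⁻¹) * (c * yy x w (-1) * c⁻¹)) *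
          ((c * yy x w (v : F) * c⁻¹) * (c * x (-(v : F)⁻¹) * c⁻¹) * (c * yy x w (v : F) * c⁻¹) *
          ((c * yy x w (-1) * c⁻¹) * (c * x (-(-1 : F)⁻¹) * c⁻¹) * (c * yy x w (-1) * c⁻¹))) =
          (c * yy x w ((u * v : Fˣ) : F) * c⁻¹) * (c * x (-((u * v : Fˣ) : F)⁻¹) * c⁻¹) *
          (c * yy x w ((u * v : Fˣ) : F) * c⁻¹) *
          ((c * yy x w (-1) * c⁻¹) * (c * x (-(-1 : F)⁻¹) * c⁻¹) * (c * yy x w (-1) * c⁻¹))
       rw [conj3, conj3, conj3, m10, m10, m10, mul_comm u v, map_mul]; group)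
    | (change (c⁻¹ * x (u : F) * c) * (c⁻¹ * yy x w (-(u : F)⁻¹) * c) * (c⁻¹ * x (u : F) * c) *
          ((c⁻¹ * x (-1) * c) * (c⁻¹ * yy x w (-(-1 : F)⁻¹) * c) * (c⁻¹ * x (-1) * c)) *
          ((c⁻¹ * x (v : F) * c) * (c⁻¹ * yy x w (-(v : F)⁻¹) * c) * (c⁻¹ * x (v : F) * c) *
          ((c⁻¹ * x (-1) * c) * (c⁻¹ * yy x w (-(-1 : F)⁻¹) * c) * (c⁻¹ * x (-1) * c))) =
          (c⁻¹ * x ((u * v : Fˣ) : F) * c) * (c⁻¹ * yy x w (-((u * v : Fˣ) : F)⁻¹) * c) *
          (c⁻¹ * x ((u * v : Fˣ) : F) * c) *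
          ((c⁻¹ * x (-1) * c) * (c⁻¹ * yy x w (-(-1 : F)⁻¹) * c) * (c⁻¹ * x (-1) * c))
       rw [conj3', conj3', conj3', m01, m01, m01, map_mul]; group)
    | (change (c⁻¹ * yy x w (u : F) * c) * (c⁻¹ * x (-(u : F)⁻¹) * c) * (c⁻¹ * yy x w (u : F) * c) *
          ((c⁻¹ * yy x w (-1) * c) * (c⁻¹ * x (-(-1 : F)⁻¹) * c) * (c⁻¹ * yy x w (-1) * c)) *
          ((c⁻¹ * yy x w (v : F) * c) * (c⁻¹ * x (-(v : F)⁻¹) * c) * (c⁻¹ * yy x w (v : F) * c) *
          ((c⁻¹ * yy x w (-1) * c) * (c⁻¹ * x (-(-1 : F)⁻¹) * c) * (c⁻¹ * yy x w (-1) * c))) =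
          (c⁻¹ * yy x w ((u * v : Fˣ) : F) * c) * (c⁻¹ * x (-((u * v : Fˣ) : F)⁻¹) * c) *
          (c⁻¹ * yy x w ((u * v : Fˣ) : F) * c) *
          ((c⁻¹ * yy x w (-1) * c) * (c⁻¹ * x (-(-1 : F)⁻¹) * c) * (c⁻¹ * yy x w (-1) * c))
       rw [conj3', conj3', conj3', m10, m10, m10, mul_comm u v, map_mul]; group)

variable {S : Set Fˣ}
  (span1 : ∀ M : AddSubgroup F, (∀ k : Fˣ, ∀ s ∈ S, (k : F) ^ 3 * (s : F) ∈ M) → ∀ t, t ∈ M)
  (span2 : ∀ M : AddSubgroup F, (∀ k : Fˣ, ∀ s ∈ S, (k : F) ^ 3 * ((s⁻¹ : Fˣ) : F) ∈ M) → ∀ t, t ∈ M)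
  (hC : ∀ s ∈ S, ⁅x 1, c * x (s : F) * c⁻¹⁆ = c⁻¹ * yy x w (s : F) * c)

include span1 span2 hC

theorem exists_hom3 : ∃ π : SpecialLinearGroup (Fin 3) F →* J,
    ∀ i j (hij : i ≠ j) a, π (SpecialLinearGroup.transvection hij a) = XX x w c i j a := by
  obtain ⟨π, h1, -, -⟩ := CTFrame.Hom.exists_hom (stein h span1 span2 hC) (hRel h) (by simp)
  exact ⟨π, h1⟩

end hom

end Cfsg.Agent.H109
end

-- part: H109/SL3d
section
/-!
# `SL₃(F)`: matrices (helper109)
-/

set_option autoImplicit false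
set_option linter.unusedSectionVars false

namespace Cfsg.Agent.H109

open scoped commutatorElement
open Cfsg.Agent.Lib Cfsg.Agent.AGraded
open Matrix (SpecialLinearGroup)

section gen

variable {F : Type*} [Field F] {J : Type*} [Group J] {x : F → J} {Hm : Fˣ →* J} {w c : J}

theorem rel_map {G : Type*} [Group G] {h : F → J} (r : SL2Lift.Rel x h w) (φ : J →* G) :
    SL2Lift.Rel (fun t => φ (x t)) (fun t => φ (h t)) (φ w) where
  add s t := by rw [r.add, map_mul]
  mul a b ha hb := by rw [r.mul a b ha hb, map_mul]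
  conj a t ha := by rw [← map_mul, r.conj a t ha, map_mul]
  wh a ha := by rw [← map_mul, r.wh a ha, map_mul]
  ww := by rw [← map_mul, r.ww]
  wx t ht := by rw [← map_mul, ← map_mul, r.wx t ht, map_mul, map_mul, map_mul]

theorem act_pw {g h : J} {γ k : F} {x : F → J} (hx : ∀ s t, x (s + t) = x s * x t)
    (hh : ∀ t, h * x t * h⁻¹ = x (γ * t)) (hgh : Commute g h) (hg : g * x 1 * g⁻¹ = x k)
    (hgen : ∀ t, ∃ l, ev γ l = t) : Act g x k := by
  have key : ∀ l : List ℤ, g * pw h (x 1) l * g⁻¹ = pw h (x k) l := by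
    intro l
    induction l with
    | nil => simp
    | cons a l ih =>
      rw [pw_cons, pw_cons, ← ih, ← hg]
      have e1 : g * h = h * g := hgh.eq
      calc g * (x 1 ^ a * (h * pw h (x 1) l * h⁻¹)) * g⁻¹ =
          (g * x 1 ^ a * g⁻¹) * ((g * h) * pw h (x 1) l * (g * h)⁻¹) := by group
        _ = (g * x 1 * g⁻¹) ^ a * (h * (g * pw h (x 1) l * g⁻¹) * h⁻¹) := by
          rw [conj_zpow, e1]; group
  intro t
  obtain ⟨l, hl⟩ := hgen t
  have := key l
  rw [pw_root hx hh, pw_root hx hh, hl, mul_one, mul_comm] at this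
  exact this

theorem d3_of_gen [Fintype F] {ζ : Fˣ} (hζ : ∀ y, y ∈ Subgroup.zpowers ζ) (rel : SL2Lift.Rel x (ext1 Hm) w)
    (c3 : c * c * c = 1) (wc : (w * c⁻¹) * (w * c⁻¹) = 1)
    (wg : w * (c * Hm ζ * c⁻¹) * w⁻¹ = Hm ζ * (c * Hm ζ * c⁻¹))
    (hg : Commute (Hm ζ) (c * Hm ζ * c⁻¹))
    (act : Act (c * Hm ζ * c⁻¹) x ((ζ⁻¹ : Fˣ) : F))
    (R : (w * c⁻¹) * (c⁻¹ * x 1 * c) * (w * c⁻¹)⁻¹ = c⁻¹ * yy x w 1 * c) : D3 x Hm w c where
  rel := rel
  c3 := c3
  wc := wc
  wg := by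
    intro a
    obtain ⟨i, rfl⟩ := hζ a
    simp only [map_zpow]
    rw [← conj_zpow, ← conj_zpow, wg, hg.mul_zpow]
  hg := by
    intro a b
    obtain ⟨i, rfl⟩ := hζ a
    obtain ⟨j, rfl⟩ := hζ b
    simp only [map_zpow]
    rw [← conj_zpow]
    exact hg.zpow_zpow i j
  act := by
    intro a t
    let Hg : Fˣ →* J := (MulAut.conj c).toMonoidHom.comp Hm
    have := torus_conj hζ (Hm := Hg) (x := x) (χ := (MulEquiv.inv Fˣ).toMonoidHom) (by
      intro t
      exact act t) a t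
    exact this
  R := R

end gen

section mat

variable {F : Type*} [Field F]

/-- the embedding of `SL₂` in the upper left corner, as a function -/
def embF (A : SpecialLinearGroup (Fin 2) F) : SpecialLinearGroup (Fin 3) F :=
  ⟨!![A.1 0 0, A.1 0 1, 0; A.1 1 0, A.1 1 1, 0; 0, 0, 1], by
    have := SL2Lift.det_eq A
    rw [Matrix.det_fin_three]
    simp
    linear_combination this⟩

theorem embF_coe (A : SpecialLinearGroup (Fin 2) F) :
    (embF A).1 = !![A.1 0 0, A.1 0 1, 0; A.1 1 0, A.1 1 1, 0; 0, 0, 1] := rfl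

/-- the embedding of `SL₂` in the upper left corner -/
def emb : SpecialLinearGroup (Fin 2) F →* SpecialLinearGroup (Fin 3) F where
  toFun A := embF A
  map_one' := by
    apply Subtype.ext
    rw [embF_coe]
    ext i j
    fin_cases i <;> fin_cases j <;> simp
  map_mul' A B := by
    apply Subtype.ext
    rw [Matrix.SpecialLinearGroup.coe_mul, embF_coe, embF_coe, embF_coe, Matrix.SpecialLinearGroup.coe_mul]
    ext i j
    fin_cases i <;> fin_cases j <;> simp [Matrix.mul_apply, Fin.sum_univ_three, Fin.sum_univ_two]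

theorem emb_coe (A : SpecialLinearGroup (Fin 2) F) :
    (emb A).1 = !![A.1 0 0, A.1 0 1, 0; A.1 1 0, A.1 1 1, 0; 0, 0, 1] := rfl

/-- the permutation matrix `e₁ → e₂ → e₃ → e₁` -/
def c3m : SpecialLinearGroup (Fin 3) F := ⟨!![0, 0, 1; 1, 0, 0; 0, 1, 0], by
  rw [Matrix.det_fin_three]; simp⟩

/-- its inverse -/
def c3i : SpecialLinearGroup (Fin 3) F := ⟨!![0, 1, 0; 0, 0, 1; 1, 0, 0], by
  rw [Matrix.det_fin_three]; simp⟩

theorem c3_mul : (c3m : SpecialLinearGroup (Fin 3) F) * c3i = 1 := by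
  apply Subtype.ext
  rw [Matrix.SpecialLinearGroup.coe_mul]
  ext i j
  fin_cases i <;> fin_cases j <;> simp [c3m, c3i, Matrix.mul_apply, Fin.sum_univ_three]

theorem c3_inv : (c3m : SpecialLinearGroup (Fin 3) F)⁻¹ = c3i := inv_eq_of_mul_eq_one_right c3_mul

theorem c3_cube : (c3m : SpecialLinearGroup (Fin 3) F) * c3m * c3m = 1 := by
  apply Subtype.ext
  rw [Matrix.SpecialLinearGroup.coe_mul, Matrix.SpecialLinearGroup.coe_mul]
  ext i j
  fin_cases i <;> fin_cases j <;> simp [c3m, Matrix.mul_apply, Fin.sum_univ_three]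

/-- root elements of `SL₃` -/
def x3 (t : F) : SpecialLinearGroup (Fin 3) F := emb (SL2Lift.X t)

/-- torus of `SL₃` -/
noncomputable def H3 : Fˣ →* SpecialLinearGroup (Fin 3) F := emb.comp (dH F)

/-- Weyl element of `SL₃` -/
def w3 : SpecialLinearGroup (Fin 3) F := emb SL2Lift.W

theorem rel3 : SL2Lift.Rel (x3 : F → _) (ext1 H3) w3 := by
  have := rel_map (relSL (F := F)) emb
  have e : (fun t : F => emb (ext1 (dH F) t)) = ext1 H3 := by
    funext t
    unfold ext1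
    split_ifs <;> simp [H3]
  rw [e] at this
  exact this

theorem H3_coe (a : Fˣ) : (H3 a : SpecialLinearGroup (Fin 3) F).1 = !![(a : F), 0, 0; 0, (a : F)⁻¹, 0; 0, 0, 1] := by
  change (emb (SL2Lift.H (a : F) a.ne_zero)).1 = _
  rw [emb_coe]
  simp [SL2Lift.H]

theorem w3_coe : (w3 : SpecialLinearGroup (Fin 3) F).1 = !![0, 1, 0; -1, 0, 0; 0, 0, 1] := by
  rw [w3, emb_coe]
  simp [SL2Lift.W]

theorem x3_coe (t : F) : (x3 t : SpecialLinearGroup (Fin 3) F).1 = !![1, t, 0; 0, 1, 0; 0, 0, 1] := by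
  rw [x3, emb_coe]
  simp [SL2Lift.X]

/-- the inverse of `w3` -/
def w3i : SpecialLinearGroup (Fin 3) F := ⟨!![0, -1, 0; 1, 0, 0; 0, 0, 1], by
  rw [Matrix.det_fin_three]; simp⟩

theorem w3i_coe : (w3i : SpecialLinearGroup (Fin 3) F).1 = !![0, -1, 0; 1, 0, 0; 0, 0, 1] := rfl

theorem w3_inv : (w3 : SpecialLinearGroup (Fin 3) F)⁻¹ = w3i := by
  apply inv_eq_of_mul_eq_one_right
  apply Subtype.ext
  rw [Matrix.SpecialLinearGroup.coe_mul, w3_coe, w3i_coe]
  ext i j
  fin_cases i <;> fin_cases j <;> simp [Matrix.mul_apply, Fin.sum_univ_three]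

theorem w3_inv_coe : ((w3 : SpecialLinearGroup (Fin 3) F)⁻¹).1 = !![0, -1, 0; 1, 0, 0; 0, 0, 1] := by
  rw [w3_inv, w3i_coe]

theorem yy3_coe (t : F) : (yy (x3 : F → _) w3 t : SpecialLinearGroup (Fin 3) F).1 = !![1, 0, 0; t, 1, 0; 0, 0, 1] := by
  unfold yy
  rw [Matrix.SpecialLinearGroup.coe_mul, Matrix.SpecialLinearGroup.coe_mul, w3_coe, x3_coe, w3_inv_coe]
  ext i j
  fin_cases i <;> fin_cases j <;> simp [Matrix.mul_apply, Fin.sum_univ_three]

theorem H23_coe (a : Fˣ) : (c3m * H3 a * c3m⁻¹ : SpecialLinearGroup (Fin 3) F).1 =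
    !![1, 0, 0; 0, (a : F), 0; 0, 0, (a : F)⁻¹] := by
  rw [c3_inv, Matrix.SpecialLinearGroup.coe_mul, Matrix.SpecialLinearGroup.coe_mul, H3_coe]
  ext i j
  fin_cases i <;> fin_cases j <;> simp [c3m, c3i, Matrix.mul_apply, Fin.sum_univ_three]

theorem d3_mat : D3 (x3 : F → _) H3 w3 c3m where
  rel := rel3
  c3 := c3_cube
  wc := by
    rw [c3_inv]
    apply Subtype.ext
    simp only [Matrix.SpecialLinearGroup.coe_mul]
    rw [w3_coe]
    ext i j
    fin_cases i <;> fin_cases j <;> simp [c3i, Matrix.mul_apply, Fin.sum_univ_three]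
  wg := by
    intro a
    rw [mul_inv_eq_iff_eq_mul]
    apply Subtype.ext
    rw [Matrix.SpecialLinearGroup.coe_mul w3 (c3m * H3 a * c3m⁻¹), Matrix.SpecialLinearGroup.coe_mul _ w3,
      Matrix.SpecialLinearGroup.coe_mul (H3 a) (c3m * H3 a * c3m⁻¹), H23_coe, w3_coe, H3_coe]
    ext i j
    fin_cases i <;> fin_cases j <;> simp [Matrix.mul_apply, Fin.sum_univ_three]
  hg := by
    intro a b
    apply Subtype.ext
    rw [Matrix.SpecialLinearGroup.coe_mul (H3 a) (c3m * H3 b * c3m⁻¹),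
      Matrix.SpecialLinearGroup.coe_mul (c3m * H3 b * c3m⁻¹) (H3 a), H23_coe, H3_coe]
    ext i j
    fin_cases i <;> fin_cases j <;> simp [Matrix.mul_apply, Fin.sum_univ_three, mul_comm]
  act := by
    intro a t
    rw [mul_inv_eq_iff_eq_mul]
    apply Subtype.ext
    rw [Matrix.SpecialLinearGroup.coe_mul (c3m * H3 a * c3m⁻¹) (x3 t),
      Matrix.SpecialLinearGroup.coe_mul (x3 _) (c3m * H3 a * c3m⁻¹), H23_coe, x3_coe, x3_coe]
    ext i j
    fin_cases i <;> fin_cases j <;> simp [Matrix.mul_apply, Fin.sum_univ_three, mul_comm]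
  R := by
    rw [mul_inv_eq_iff_eq_mul, c3_inv]
    apply Subtype.ext
    simp only [Matrix.SpecialLinearGroup.coe_mul]
    rw [w3_coe, x3_coe, yy3_coe]
    ext i j
    fin_cases i <;> fin_cases j <;> simp [c3m, c3i, Matrix.mul_apply, Fin.sum_univ_three]

theorem C_mat (s : F) : ⁅(x3 1 : SpecialLinearGroup (Fin 3) F), c3m * x3 s * c3m⁻¹⁆ = c3m⁻¹ * yy x3 w3 s * c3m := by
  rw [commutatorElement_def, mul_inv_eq_iff_eq_mul, mul_inv_eq_iff_eq_mul, c3_inv]
  apply Subtype.ext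
  simp only [Matrix.SpecialLinearGroup.coe_mul]
  rw [x3_coe, x3_coe, yy3_coe]
  ext i j
  fin_cases i <;> fin_cases j <;> simp [c3m, c3i, Matrix.mul_apply, Fin.sum_univ_three]

/-- the root elements are the elementary transvections -/
theorem XX_mat {i j : Fin 3} (hij : i ≠ j) (t : F) : XX (x3 : F → _) w3 c3m i j t =
    SpecialLinearGroup.transvection hij t := by
  apply Subtype.ext
  fin_cases i <;> fin_cases j <;> first
    | exact absurd rfl hij
    | (change (x3 t : SpecialLinearGroup (Fin 3) F).1 = _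
       rw [x3_coe]
       ext i j
       fin_cases i <;> fin_cases j <;> simp [Matrix.SpecialLinearGroup.transvection_coe])
    | (change (yy x3 w3 t : SpecialLinearGroup (Fin 3) F).1 = _
       rw [yy3_coe]
       ext i j
       fin_cases i <;> fin_cases j <;> simp [Matrix.SpecialLinearGroup.transvection_coe])
    | (change (c3m * x3 t * c3m⁻¹ : SpecialLinearGroup (Fin 3) F).1 = _
       rw [c3_inv, Matrix.SpecialLinearGroup.coe_mul, Matrix.SpecialLinearGroup.coe_mul, x3_coe]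
       ext i j
       fin_cases i <;> fin_cases j <;> simp [Matrix.SpecialLinearGroup.transvection_coe,
        c3m, c3i, Matrix.mul_apply, Fin.sum_univ_three])
    | (change (c3m * yy x3 w3 t * c3m⁻¹ : SpecialLinearGroup (Fin 3) F).1 = _
       rw [c3_inv, Matrix.SpecialLinearGroup.coe_mul, Matrix.SpecialLinearGroup.coe_mul, yy3_coe]
       ext i j
       fin_cases i <;> fin_cases j <;> simp [Matrix.SpecialLinearGroup.transvection_coe,
        c3m, c3i, Matrix.mul_apply, Fin.sum_univ_three])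
    | (change (c3m⁻¹ * x3 t * c3m : SpecialLinearGroup (Fin 3) F).1 = _
       rw [c3_inv, Matrix.SpecialLinearGroup.coe_mul, Matrix.SpecialLinearGroup.coe_mul, x3_coe]
       ext i j
       fin_cases i <;> fin_cases j <;> simp [Matrix.SpecialLinearGroup.transvection_coe,
        c3m, c3i, Matrix.mul_apply, Fin.sum_univ_three])
    | (change (c3m⁻¹ * yy x3 w3 t * c3m : SpecialLinearGroup (Fin 3) F).1 = _
       rw [c3_inv, Matrix.SpecialLinearGroup.coe_mul, Matrix.SpecialLinearGroup.coe_mul, yy3_coe]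
       ext i j
       fin_cases i <;> fin_cases j <;> simp [Matrix.SpecialLinearGroup.transvection_coe,
        c3m, c3i, Matrix.mul_apply, Fin.sum_univ_three])

end mat

end Cfsg.Agent.H109
end
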