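import Mathlib
import Cfsg.Agent.H109.SL3d
import Cfsg.Agent.H109.SL2b
import Cfsg.Agent.H110.AltPres
set_option linter.all false

-- part: H109/SLnA
section
/-!
# Even permutations with prescribed values (helper109)
-/

set_option autoImplicit false
set_option linter.unusedSectionVars false

namespace Cfsg.Agent.H109.SLn

open Equiv Equiv.Perm

variable {ι : Type*} [Fintype ι] [DecidableEq ι]

theorem exists_perm {k : ℕ} (f g : Fin k → ι) (hf : Function.Injective f) (hg : Function.Injective g) :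
    ∃ σ : Perm ι, ∀ i, σ (f i) = g i := by
  have : MulAction.IsMultiplyPretransitive (Perm ι) ι k := Equiv.Perm.isMultiplyPretransitive ι k
  obtain ⟨σ, hσ⟩ := MulAction.exists_smul_eq (Perm ι) (⟨f, hf⟩ : Fin k ↪ ι) ⟨g, hg⟩
  refine ⟨σ, fun i => ?_⟩
  have := DFunLike.congr_fun hσ i
  exact this

theorem inj2 {i j : ι} (hij : i ≠ j) : Function.Injective ![i, j] := by
  intro a b h
  fin_cases a <;> fin_cases b <;> simp_all

theorem inj3 {i j k : ι} (hij : i ≠ j) (hik : i ≠ k) (hjk : j ≠ k) : Function.Injective ![i, j, k] := by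
  intro a b h
  fin_cases a <;> fin_cases b <;> simp_all

theorem inj4 {i j k l : ι} (hij : i ≠ j) (hik : i ≠ k) (hjk : j ≠ k) (hil : i ≠ l) (hjl : j ≠ l) (hkl : k ≠ l) :
    Function.Injective ![i, j, k, l] := by
  intro a b h
  fin_cases a <;> fin_cases b <;> simp_all

/-- make a permutation even -/
theorem mk_even (σ : Perm ι) {a b : ι} (hab : a ≠ b) :
    ∃ γ : alternatingGroup ι, (γ : Perm ι) = σ ∨ (γ : Perm ι) = σ * swap a b := by
  rcases Int.units_eq_one_or (sign σ) with h | h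
  · exact ⟨⟨σ, h⟩, Or.inl rfl⟩
  · exact ⟨⟨σ * swap a b, mem_alternatingGroup.2 (by rw [Perm.sign_mul, h, sign_swap hab]; rfl)⟩, Or.inr rfl⟩

variable {p : Fin 4 → ι} (hp : Function.Injective p)

include hp

theorem p01 : p 0 ≠ p 1 := hp.ne (by decide)
theorem p02 : p 0 ≠ p 2 := hp.ne (by decide)
theorem p03 : p 0 ≠ p 3 := hp.ne (by decide)
theorem p12 : p 1 ≠ p 2 := hp.ne (by decide)
theorem p13 : p 1 ≠ p 3 := hp.ne (by decide)
theorem p23 : p 2 ≠ p 3 := hp.ne (by decide)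

theorem even_pair {i j : ι} (hij : i ≠ j) :
    ∃ γ : alternatingGroup ι, (γ : Perm ι) (p 0) = i ∧ (γ : Perm ι) (p 1) = j := by
  obtain ⟨σ, hσ⟩ := exists_perm ![p 0, p 1] ![i, j] (inj2 (p01 hp)) (inj2 hij)
  have h0 : σ (p 0) = i := hσ 0
  have h1 : σ (p 1) = j := hσ 1
  obtain ⟨γ, h | h⟩ := mk_even σ (p23 hp)
  · exact ⟨γ, by rw [h, h0], by rw [h, h1]⟩
  · refine ⟨γ, ?_, ?_⟩
    · rw [h, Perm.mul_apply, swap_apply_of_ne_of_ne (p02 hp) (p03 hp), h0]
    · rw [h, Perm.mul_apply, swap_apply_of_ne_of_ne (p12 hp) (p13 hp), h1]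

theorem even_triple {i j k : ι} (hij : i ≠ j) (hik : i ≠ k) (hjk : j ≠ k) :
    ∃ γ : alternatingGroup ι, (γ : Perm ι) (p 2) = k ∧
      (((γ : Perm ι) (p 0) = i ∧ (γ : Perm ι) (p 1) = j) ∨ ((γ : Perm ι) (p 0) = j ∧ (γ : Perm ι) (p 1) = i)) := by
  obtain ⟨σ, hσ⟩ := exists_perm ![p 0, p 1, p 2] ![i, j, k] (inj3 (p01 hp) (p02 hp) (p12 hp)) (inj3 hij hik hjk)
  have h0 : σ (p 0) = i := hσ 0
  have h1 : σ (p 1) = j := hσ 1
  have h2 : σ (p 2) = k := hσ 2
  obtain ⟨γ, h | h⟩ := mk_even σ (p01 hp)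
  · exact ⟨γ, by rw [h, h2], Or.inl ⟨by rw [h, h0], by rw [h, h1]⟩⟩
  · refine ⟨γ, ?_, Or.inr ⟨?_, ?_⟩⟩
    · rw [h, Perm.mul_apply, swap_apply_of_ne_of_ne (p02 hp).symm (p12 hp).symm, h2]
    · rw [h, Perm.mul_apply, swap_apply_left, h1]
    · rw [h, Perm.mul_apply, swap_apply_right, h0]

theorem stab_quad {k l : ι} (hk0 : k ≠ p 0) (hk1 : k ≠ p 1) (hl0 : l ≠ p 0) (hl1 : l ≠ p 1) (hkl : k ≠ l) :
    ∃ γ : alternatingGroup ι, (γ : Perm ι) (p 0) = p 0 ∧ (γ : Perm ι) (p 1) = p 1 ∧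
      (((γ : Perm ι) (p 2) = k ∧ (γ : Perm ι) (p 3) = l) ∨ ((γ : Perm ι) (p 2) = l ∧ (γ : Perm ι) (p 3) = k)) := by
  obtain ⟨σ, hσ⟩ := exists_perm p ![p 0, p 1, k, l] hp
    (inj4 (p01 hp) hk0.symm hk1.symm hl0.symm hl1.symm hkl)
  have h0 : σ (p 0) = p 0 := hσ 0
  have h1 : σ (p 1) = p 1 := hσ 1
  have h2 : σ (p 2) = k := hσ 2
  have h3 : σ (p 3) = l := hσ 3
  obtain ⟨γ, h | h⟩ := mk_even σ (p23 hp)
  · exact ⟨γ, by rw [h, h0], by rw [h, h1], Or.inl ⟨by rw [h, h2], by rw [h, h3]⟩⟩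
  · refine ⟨γ, ?_, ?_, Or.inr ⟨?_, ?_⟩⟩
    · rw [h, Perm.mul_apply, swap_apply_of_ne_of_ne (p02 hp) (p03 hp), h0]
    · rw [h, Perm.mul_apply, swap_apply_of_ne_of_ne (p12 hp) (p13 hp), h1]
    · rw [h, Perm.mul_apply, swap_apply_left, h3]
    · rw [h, Perm.mul_apply, swap_apply_right, h2]

omit hp in
theorem exists_not_mem (s : Finset ι) (h : s.card < Fintype.card ι) : ∃ a, a ∉ s := by
  by_contra hc
  push Not at hc
  have : s = Finset.univ := Finset.eq_univ_iff_forall.2 hc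
  rw [this, Finset.card_univ] at h
  omega

theorem stab_one (h5 : 5 ≤ Fintype.card ι) {k : ι} (hk0 : k ≠ p 0) (hk1 : k ≠ p 1) :
    ∃ γ : alternatingGroup ι, (γ : Perm ι) (p 0) = p 0 ∧ (γ : Perm ι) (p 1) = p 1 ∧ (γ : Perm ι) (p 2) = k := by
  obtain ⟨σ, hσ⟩ := exists_perm ![p 0, p 1, p 2] ![p 0, p 1, k] (inj3 (p01 hp) (p02 hp) (p12 hp))
    (inj3 (p01 hp) hk0.symm hk1.symm)
  have h0 : σ (p 0) = p 0 := hσ 0
  have h1 : σ (p 1) = p 1 := hσ 1
  have h2 : σ (p 2) = k := hσ 2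
  obtain ⟨a, ha⟩ := exists_not_mem {p 0, p 1, p 2, p 3} (lt_of_le_of_lt Finset.card_le_four h5)
  simp only [Finset.mem_insert, Finset.mem_singleton, not_or] at ha
  obtain ⟨γ, h | h⟩ := mk_even σ (a := p 3) (b := a) (Ne.symm ha.2.2.2)
  · exact ⟨γ, by rw [h, h0], by rw [h, h1], by rw [h, h2]⟩
  · refine ⟨γ, ?_, ?_, ?_⟩
    · rw [h, Perm.mul_apply, swap_apply_of_ne_of_ne (p03 hp) (Ne.symm ha.1), h0]
    · rw [h, Perm.mul_apply, swap_apply_of_ne_of_ne (p13 hp) (Ne.symm ha.2.1), h1]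
    · rw [h, Perm.mul_apply, swap_apply_of_ne_of_ne (p23 hp) (Ne.symm ha.2.2.1), h2]

theorem stab_two (h6 : 6 ≤ Fintype.card ι) {k l : ι} (hk0 : k ≠ p 0) (hk1 : k ≠ p 1) (hl0 : l ≠ p 0)
    (hl1 : l ≠ p 1) (hkl : k ≠ l) :
    ∃ γ : alternatingGroup ι, (γ : Perm ι) (p 0) = p 0 ∧ (γ : Perm ι) (p 1) = p 1 ∧
      (γ : Perm ι) (p 2) = k ∧ (γ : Perm ι) (p 3) = l := by
  obtain ⟨σ, hσ⟩ := exists_perm p ![p 0, p 1, k, l] hp
    (inj4 (p01 hp) hk0.symm hk1.symm hl0.symm hl1.symm hkl)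
  have h0 : σ (p 0) = p 0 := hσ 0
  have h1 : σ (p 1) = p 1 := hσ 1
  have h2 : σ (p 2) = k := hσ 2
  have h3 : σ (p 3) = l := hσ 3
  obtain ⟨a, ha⟩ := exists_not_mem {p 0, p 1, p 2, p 3} (lt_of_le_of_lt Finset.card_le_four (by omega))
  obtain ⟨b, hb⟩ := exists_not_mem {p 0, p 1, p 2, p 3, a} (lt_of_le_of_lt Finset.card_le_five h6)
  simp only [Finset.mem_insert, Finset.mem_singleton, not_or] at ha hb
  obtain ⟨γ, h | h⟩ := mk_even σ (a := a) (b := b) (Ne.symm hb.2.2.2.2)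
  · exact ⟨γ, by rw [h, h0], by rw [h, h1], by rw [h, h2], by rw [h, h3]⟩
  · refine ⟨γ, ?_, ?_, ?_, ?_⟩
    · rw [h, Perm.mul_apply, swap_apply_of_ne_of_ne (Ne.symm ha.1) (Ne.symm hb.1), h0]
    · rw [h, Perm.mul_apply, swap_apply_of_ne_of_ne (Ne.symm ha.2.1) (Ne.symm hb.2.1), h1]
    · rw [h, Perm.mul_apply, swap_apply_of_ne_of_ne (Ne.symm ha.2.2.1) (Ne.symm hb.2.2.1), h2]
    · rw [h, Perm.mul_apply, swap_apply_of_ne_of_ne (Ne.symm ha.2.2.2) (Ne.symm hb.2.2.2.1), h3]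

omit hp in
/-- a subgroup of the alternating group stable under conjugation of the three-cycle `c` by the alternating group is
everything -/
theorem top_of_three (hp : Function.Injective p) (c : alternatingGroup ι)
    (hc : (c : Perm ι) = swap (p 0) (p 1) * swap (p 1) (p 2)) (T : Subgroup (alternatingGroup ι))
    (hT : ∀ γ : alternatingGroup ι, γ * c * γ⁻¹ ∈ T) : T = ⊤ := by
  have h3 : IsThreeCycle (c : Perm ι) := by
    rw [hc, swap_comm (p 0) (p 1)]
    exact isThreeCycle_swap_mul_swap_same (p01 hp).symm (p12 hp) (p02 hp)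
  have hrev : swap (p 0) (p 2) * (c : Perm ι) * (swap (p 0) (p 2))⁻¹ = (c : Perm ι)⁻¹ := by
    have e1 : swap (p 0) (p 2) * (swap (p 0) (p 1) * swap (p 1) (p 2)) * (swap (p 0) (p 2))⁻¹ =
        (swap (p 0) (p 2) * swap (p 0) (p 1) * (swap (p 0) (p 2))⁻¹) *
        (swap (p 0) (p 2) * swap (p 1) (p 2) * (swap (p 0) (p 2))⁻¹) := by group
    have e2 : ∀ a b : ι, swap (p 0) (p 2) * swap a b * (swap (p 0) (p 2))⁻¹ =
        swap (swap (p 0) (p 2) a) (swap (p 0) (p 2) b) := fun a b => by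
      rw [swap_apply_apply]
    rw [hc, e1, e2, e2, swap_apply_left, swap_apply_right, swap_apply_of_ne_of_ne (p01 hp).symm (p12 hp),
      mul_inv_rev, swap_inv, swap_inv, swap_comm (p 2) (p 1), swap_comm (p 1) (p 0)]
  have key : (alternatingGroup ι) ≤ T.map (alternatingGroup ι).subtype := by
    refine (le_of_eq closure_three_cycles_eq_alternating.symm).trans ?_
    rw [Subgroup.closure_le]
    intro σ hσ
    have hσ' : IsThreeCycle σ := hσ
    obtain ⟨τ, hτ⟩ := isConj_iff.1 ((isConj_iff_cycleType_eq).2 (h3.trans hσ'.symm))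
    rcases Int.units_eq_one_or (sign τ) with h | h
    · refine ⟨_, hT ⟨τ, h⟩, ?_⟩
      exact hτ
    · have he : sign (τ * swap (p 0) (p 2)) = 1 := by rw [Perm.sign_mul, h, sign_swap (p02 hp)]; rfl
      refine ⟨_, inv_mem (hT ⟨τ * swap (p 0) (p 2), he⟩), ?_⟩
      change ((τ * swap (p 0) (p 2)) * (c : Perm ι) * (τ * swap (p 0) (p 2))⁻¹)⁻¹ = σ
      rw [← hτ]
      calc ((τ * swap (p 0) (p 2)) * (c : Perm ι) * (τ * swap (p 0) (p 2))⁻¹)⁻¹ =
          (τ * (swap (p 0) (p 2) * (c : Perm ι) * (swap (p 0) (p 2))⁻¹) * τ⁻¹)⁻¹ := by group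
        _ = _ := by rw [hrev]; group
  rw [eq_top_iff]
  intro γ _
  obtain ⟨γ', h1, h2⟩ := key γ.2
  have : γ' = γ := Subtype.ext h2
  rw [← this]
  exact h1

end Cfsg.Agent.H109.SLn
end

-- part: H109/SLnB
section
/-!
# `SLₙ(F)`: the abstract data and the homomorphism (helper109)
-/

set_option autoImplicit false
set_option linter.unusedSectionVars false

namespace Cfsg.Agent.H109

section act

variable {F : Type*} [Field F] {J : Type*} [Group J]

theorem Act.one (z : F → J) : Act (1 : J) z 1 := by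
  intro t; simp

theorem Act.pow {d : J} {z : F → J} {k : F} (h : Act d z k) (n : ℕ) : Act (d ^ n) z (k ^ n) := by
  induction n with
  | zero => simpa using Act.one z
  | succ n ih => rw [pow_succ, pow_succ]; exact ih.mul h

theorem sq_span [Fintype F] {ζ : Fˣ} (hζ : ∀ y, y ∈ Subgroup.zpowers ζ) (M : AddSubgroup F)
    (h : ∀ k : ℕ, ((ζ : F) ^ 2) ^ k ∈ M) (t : F) : t ∈ M := by
  obtain ⟨p, hch⟩ := CharP.exists F
  have hpp : p.Prime := (CharP.char_is_prime_or_zero F p).resolve_right (CharP.char_ne_zero_of_finite F p)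
  have : Fact p.Prime := ⟨hpp⟩
  let _ : Algebra (ZMod p) F := ZMod.algebra F p
  obtain ⟨l, rfl⟩ := exists_list (adjoin_sq_eq_top (p := p) hζ) t
  have key : ∀ (l : List ℤ) (i : ℕ), ((ζ : F) ^ 2) ^ i * ev ((ζ : F) ^ 2) l ∈ M := by
    intro l
    induction l with
    | nil => intro i; simp [zero_mem]
    | cons a l ih =>
      intro i
      rw [ev_cons, mul_add]
      refine add_mem ?_ ?_
      · have h1 : ((ζ : F) ^ 2) ^ i * (a : F) = a • (((ζ : F) ^ 2) ^ i) := by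
          rw [zsmul_eq_mul, mul_comm]
        rw [h1]
        exact zsmul_mem (h _) a
      · have h1 := ih (i + 1)
        have h2 : ((ζ : F) ^ 2) ^ i * ((ζ : F) ^ 2 * ev ((ζ : F) ^ 2) l) =
            ((ζ : F) ^ 2) ^ (i + 1) * ev ((ζ : F) ^ 2) l := by ring
        rwa [h2]
  have := key l 0
  simpa using this

end act

end Cfsg.Agent.H109

namespace Cfsg.Agent.H109.SLn

open scoped commutatorElement
open Cfsg.Agent.Lib Cfsg.Agent.AGraded Cfsg.Agent.CTFrame.Weyl Cfsg.Agent.CTFrame.Torus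
open Matrix (SpecialLinearGroup)
open Equiv Equiv.Perm

variable {ι : Type*} [Fintype ι] [DecidableEq ι] {p : Fin 4 → ι} (hp : Function.Injective p)

/-- an even permutation with `p 0 ↦ i`, `p 1 ↦ j` -/
noncomputable def sg (i j : ι) : alternatingGroup ι := if h : i ≠ j then (even_pair hp h).choose else 1

theorem sg_zero {i j : ι} (hij : i ≠ j) : (sg hp i j : Perm ι) (p 0) = i := by
  rw [sg, dif_pos hij]
  exact (even_pair hp hij).choose_spec.1

theorem sg_one {i j : ι} (hij : i ≠ j) : (sg hp i j : Perm ι) (p 1) = j := by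
  rw [sg, dif_pos hij]
  exact (even_pair hp hij).choose_spec.2

/-- the three-cycle -/
def cyc : alternatingGroup ι := ⟨swap (p 0) (p 1) * swap (p 1) (p 2), mem_alternatingGroup.2 (by
  rw [Perm.sign_mul, sign_swap (p01 hp), sign_swap (p12 hp)]; rfl)⟩

variable {F : Type*} [Field F] {J : Type*} [Group J]

/-- conjugates indexed by pairs -/
noncomputable def cj (ρ : alternatingGroup ι →* J) (y : J) (i j : ι) : J :=
  ρ (sg hp i j) * y * (ρ (sg hp i j))⁻¹

/-- root elements -/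
noncomputable def XX (ρ : alternatingGroup ι →* J) (x : F → J) (i j : ι) (t : F) : J := cj hp ρ (x t) i j

/-- the data -/
structure Dat (ρ : alternatingGroup ι →* J) (x : F → J) (h : J) (ζ : Fˣ) : Prop where
  add : ∀ s t, x (s + t) = x s * x t
  stx : ∀ γ : alternatingGroup ι, (γ : Perm ι) (p 0) = p 0 → (γ : Perm ι) (p 1) = p 1 →
    ∀ t, Commute (ρ γ) (x t)
  sth : ∀ γ : alternatingGroup ι, (γ : Perm ι) (p 0) = p 0 → (γ : Perm ι) (p 1) = p 1 → Commute (ρ γ) h
  act : Act h x ((ζ : F) ^ 2)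
  B : ∀ k, k ≠ p 0 → k ≠ p 1 → Act (cj hp ρ h (p 1) k) x (ζ : F)⁻¹
  T1 : cj hp ρ h (p 1) (p 0) = h⁻¹
  T2 : h * cj hp ρ h (p 1) (p 2) * cj hp ρ h (p 2) (p 0) = 1
  hg : Commute h (cj hp ρ h (p 1) (p 2))
  C : ∀ k, k ≠ p 0 → k ≠ p 1 → ⁅x 1, XX hp ρ x (p 1) k 1⁆ = XX hp ρ x (p 0) k 1
  D : ∀ k l, k ≠ p 0 → k ≠ p 1 → l ≠ p 0 → l ≠ p 1 → k ≠ l → Commute (x 1) (XX hp ρ x k l 1)
  H : h = t (XX hp ρ x) (p 0) (p 1) (ζ : F)
  Id : ρ (cyc hp) = (w (XX hp ρ x) (p 0) (p 1) 1)⁻¹ * (w (XX hp ρ x) (p 1) (p 2) 1)⁻¹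

/-- conjugation of `cj` -/
theorem conj_cj {ρ : alternatingGroup ι →* J} {y : J}
    (hy : ∀ γ : alternatingGroup ι, (γ : Perm ι) (p 0) = p 0 → (γ : Perm ι) (p 1) = p 1 → Commute (ρ γ) y)
    (γ : alternatingGroup ι) {i j : ι} (hij : i ≠ j) :
    ρ γ * cj hp ρ y i j * (ρ γ)⁻¹ = cj hp ρ y ((γ : Perm ι) i) ((γ : Perm ι) j) := by
  have hij' : (γ : Perm ι) i ≠ (γ : Perm ι) j := fun e => hij ((γ : Perm ι).injective e)
  set s := sg hp i j with hs
  set s' := sg hp ((γ : Perm ι) i) ((γ : Perm ι) j) with hs'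
  have h1 := hy (s'⁻¹ * γ * s) (by
    change (s' : Perm ι)⁻¹ ((γ : Perm ι) ((s : Perm ι) (p 0))) = p 0
    rw [hs, sg_zero hp hij, Perm.inv_eq_iff_eq, hs', sg_zero hp hij']) (by
    change (s' : Perm ι)⁻¹ ((γ : Perm ι) ((s : Perm ι) (p 1))) = p 1
    rw [hs, sg_one hp hij, Perm.inv_eq_iff_eq, hs', sg_one hp hij'])
  have h2 : ρ (s'⁻¹ * γ * s) * y * (ρ (s'⁻¹ * γ * s))⁻¹ = y := by
    rw [h1.eq, mul_inv_cancel_right]
  rw [map_mul, map_mul, map_inv] at h2
  rw [cj, cj, ← hs, ← hs']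
  calc ρ γ * (ρ s * y * (ρ s)⁻¹) * (ρ γ)⁻¹ =
      ρ s' * ((ρ s')⁻¹ * ρ γ * ρ s * y * ((ρ s')⁻¹ * ρ γ * ρ s)⁻¹) * (ρ s')⁻¹ := by group
    _ = _ := by rw [h2]

theorem cj_base {ρ : alternatingGroup ι →* J} {y : J}
    (hy : ∀ γ : alternatingGroup ι, (γ : Perm ι) (p 0) = p 0 → (γ : Perm ι) (p 1) = p 1 → Commute (ρ γ) y) :
    cj hp ρ y (p 0) (p 1) = y := by
  rw [cj, (hy (sg hp (p 0) (p 1)) (sg_zero hp (p01 hp)) (sg_one hp (p01 hp))).eq, mul_inv_cancel_right]

namespace Dat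

variable {hp} {ρ : alternatingGroup ι →* J} {x : F → J} {h : J} {ζ : Fˣ} (d : Dat hp ρ x h ζ)

include d

theorem conj_X (γ : alternatingGroup ι) {i j : ι} (hij : i ≠ j) (t : F) :
    ρ γ * XX hp ρ x i j t * (ρ γ)⁻¹ = XX hp ρ x ((γ : Perm ι) i) ((γ : Perm ι) j) t :=
  conj_cj hp (fun γ h0 h1 => d.stx γ h0 h1 t) γ hij

theorem conj_h (γ : alternatingGroup ι) {i j : ι} (hij : i ≠ j) :
    ρ γ * cj hp ρ h i j * (ρ γ)⁻¹ = cj hp ρ h ((γ : Perm ι) i) ((γ : Perm ι) j) :=
  conj_cj hp d.sth γ hij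

theorem X01 (t : F) : XX hp ρ x (p 0) (p 1) t = x t := cj_base hp (fun γ h0 h1 => d.stx γ h0 h1 t)

theorem h01 : cj hp ρ h (p 0) (p 1) = h := cj_base hp d.sth

theorem T1' {i j : ι} (hij : i ≠ j) : cj hp ρ h j i = (cj hp ρ h i j)⁻¹ := by
  have h1 := d.conj_h (sg hp i j) (p01 hp).symm
  rw [sg_zero hp hij, sg_one hp hij, d.T1] at h1
  rw [← h1]
  unfold cj
  group

theorem T2' {i j k : ι} (hij : i ≠ j) (hik : i ≠ k) (hjk : j ≠ k) :
    cj hp ρ h i j * cj hp ρ h j k * cj hp ρ h k i = 1 := by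
  have key : ∀ γ : alternatingGroup ι, cj hp ρ h ((γ : Perm ι) (p 0)) ((γ : Perm ι) (p 1)) *
      cj hp ρ h ((γ : Perm ι) (p 1)) ((γ : Perm ι) (p 2)) *
      cj hp ρ h ((γ : Perm ι) (p 2)) ((γ : Perm ι) (p 0)) = 1 := by
    intro γ
    rw [← d.conj_h γ (p01 hp), ← d.conj_h γ (p12 hp), ← d.conj_h γ (p02 hp).symm, d.h01]
    calc ρ γ * h * (ρ γ)⁻¹ * (ρ γ * cj hp ρ h (p 1) (p 2) * (ρ γ)⁻¹) *
        (ρ γ * cj hp ρ h (p 2) (p 0) * (ρ γ)⁻¹) =
        ρ γ * (h * cj hp ρ h (p 1) (p 2) * cj hp ρ h (p 2) (p 0)) * (ρ γ)⁻¹ := by group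
      _ = 1 := by rw [d.T2]; group
  obtain ⟨γ, h2, ⟨h0, h1⟩ | ⟨h0, h1⟩⟩ := even_triple hp hij hik hjk
  · have := key γ
    rwa [h0, h1, h2] at this
  · have := key γ
    rw [h0, h1, h2, d.T1' hij, d.T1' hik.symm, d.T1' hjk, mul_assoc, inv_mul_eq_one] at this
    rw [this]
    group

theorem W01 {k l : ι} (hkl : k ≠ l) :
    Act (cj hp ρ h k l) x (df k l (ζ : F) (p 0) * (df k l (ζ : F) (p 1))⁻¹) := by
  have hz := ζ.ne_zero
  have h01 := p01 hp
  have hact : Act (cj hp ρ h (p 0) (p 1)) x ((ζ : F) ^ 2) := by rw [d.h01]; exact d.act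
  -- weights of `h_{k,0}` and `h_{0,k}`
  have hk0 : ∀ k, k ≠ p 0 → k ≠ p 1 → Act (cj hp ρ h k (p 0)) x (ζ : F)⁻¹ := by
    intro k h0 h1
    have h2 := d.T2' h01 h0.symm h1.symm
    have h3 := ((hact.mul (d.B k h0 h1)).inv (mul_ne_zero (pow_ne_zero 2 hz) (inv_ne_zero hz)))
    refine h3.congr (eq_comm.1 (eq_inv_of_mul_eq_one_right h2)) (fun _ => rfl) ?_
    field_simp
  have h0k : ∀ k, k ≠ p 0 → k ≠ p 1 → Act (cj hp ρ h (p 0) k) x (ζ : F) := by
    intro k h0 h1
    rw [d.T1' h0]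
    have := (hk0 k h0 h1).inv (inv_ne_zero hz)
    rwa [inv_inv] at this
  have hk1 : ∀ k, k ≠ p 0 → k ≠ p 1 → Act (cj hp ρ h k (p 1)) x (ζ : F) := by
    intro k h0 h1
    rw [d.T1' h1.symm]
    have := (d.B k h0 h1).inv (inv_ne_zero hz)
    rwa [inv_inv] at this
  by_cases e0 : k = p 0
  · subst e0
    by_cases e1 : l = p 1
    · subst e1
      refine hact.congr rfl (fun _ => rfl) ?_
      simp [df, h01.symm]; ring
    · refine (h0k l hkl.symm e1).congr rfl (fun _ => rfl) ?_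
      simp [df, h01.symm, Ne.symm e1]
  by_cases e1 : k = p 1
  · subst e1
    by_cases e2 : l = p 0
    · subst e2
      rw [d.T1' h01, d.h01]
      refine (d.act.inv (pow_ne_zero 2 hz)).congr rfl (fun _ => rfl) ?_
      simp [df, h01]; ring
    · refine (d.B l e2 hkl.symm).congr rfl (fun _ => rfl) ?_
      simp [df, h01, Ne.symm e2]
  by_cases e2 : l = p 0
  · subst e2
    refine (hk0 k e0 e1).congr rfl (fun _ => rfl) ?_
    simp [df, h01.symm, Ne.symm e0, Ne.symm e1]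
  by_cases e3 : l = p 1
  · subst e3
    refine (hk1 k e0 e1).congr rfl (fun _ => rfl) ?_
    simp [df, h01, Ne.symm e0, Ne.symm e1]
  · have h2 := d.T2' (i := p 0) (j := l) (k := k) (Ne.symm e2) (Ne.symm e0) hkl.symm
    -- h_{0l} h_{lk} h_{k0} = 1
    have h3 : cj hp ρ h k l = cj hp ρ h k (p 0) * cj hp ρ h (p 0) l := by
      rw [d.T1' (Ne.symm hkl)]
      have h4 : cj hp ρ h l k = (cj hp ρ h (p 0) l)⁻¹ * (cj hp ρ h k (p 0))⁻¹ := by
        rw [mul_assoc] at h2
        have h5 := eq_inv_of_mul_eq_one_right h2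
        rw [← h5]; group
      rw [h4]; group
    rw [h3]
    refine ((hk0 k e0 e1).mul (h0k l e2 e3)).congr rfl (fun _ => rfl) ?_
    simp [df, Ne.symm e0, Ne.symm e1, Ne.symm e2, Ne.symm e3]

/-- the weights -/
theorem W {k l : ι} (hkl : k ≠ l) {i j : ι} (hij : i ≠ j) :
    Act (cj hp ρ h k l) (XX hp ρ x i j) (df k l (ζ : F) i * (df k l (ζ : F) j)⁻¹) := by
  set γ := sg hp i j with hγ
  have g0 : (γ : Perm ι) (p 0) = i := sg_zero hp hij
  have g1 : (γ : Perm ι) (p 1) = j := sg_one hp hij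
  set k' := (γ : Perm ι)⁻¹ k with hk'
  set l' := (γ : Perm ι)⁻¹ l with hl'
  have ek : (γ : Perm ι) k' = k := by rw [hk']; simp
  have el : (γ : Perm ι) l' = l := by rw [hl']; simp
  have hkl' : k' ≠ l' := fun e => hkl (by rw [← ek, ← el, e])
  have h1 := (d.W01 hkl').conj (ρ γ)
  refine h1.congr ?_ (fun t => rfl) ?_
  · rw [d.conj_h γ hkl', ek, el]
  · have e : ∀ q, df k' l' (ζ : F) q = df k l (ζ : F) ((γ : Perm ι) q) := by
      intro q
      unfold df
      have a1 : q = k' ↔ (γ : Perm ι) q = k := by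
        rw [← ek]; exact (γ : Perm ι).injective.eq_iff.symm
      have a2 : q = l' ↔ (γ : Perm ι) q = l := by
        rw [← el]; exact (γ : Perm ι).injective.eq_iff.symm
      simp only [a1, a2]
    rw [e, e, g0, g1]

theorem addX {i j : ι} (hij : i ≠ j) (a b : F) :
    XX hp ρ x i j (a + b) = XX hp ρ x i j a * XX hp ρ x i j b := by
  unfold XX cj
  rw [d.add]
  group

theorem C' {i j k : ι} (hij : i ≠ j) (hik : i ≠ k) (hjk : j ≠ k) :
    ⁅XX hp ρ x i j 1, XX hp ρ x j k 1⁆ = XX hp ρ x i k (1 : F) := by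
  set γ := sg hp i j with hγ
  have g0 : (γ : Perm ι) (p 0) = i := sg_zero hp hij
  have g1 : (γ : Perm ι) (p 1) = j := sg_one hp hij
  set k' := (γ : Perm ι)⁻¹ k with hk'
  have ek : (γ : Perm ι) k' = k := by rw [hk']; simp
  have h0 : k' ≠ p 0 := fun e => hik (by rw [← ek, e, g0])
  have h1 : k' ≠ p 1 := fun e => hjk (by rw [← ek, e, g1])
  have h2 := d.C k' h0 h1
  have h3 := d.conj_X γ (p01 hp) 1
  have h4 := d.conj_X γ h1.symm 1
  have h5 := d.conj_X γ h0.symm 1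
  rw [g0, g1] at h3
  rw [g1, ek] at h4
  rw [g0, ek] at h5
  rw [← h3, ← h4, ← h5, conj_br, d.X01, h2]

theorem D' {i j k l : ι} (hij : i ≠ j) (hik : i ≠ k) (hil : i ≠ l) (hjk : j ≠ k) (hjl : j ≠ l) (hkl : k ≠ l) :
    Commute (XX hp ρ x i j (1 : F)) (XX hp ρ x k l 1) := by
  set γ := sg hp i j with hγ
  have g0 : (γ : Perm ι) (p 0) = i := sg_zero hp hij
  have g1 : (γ : Perm ι) (p 1) = j := sg_one hp hij
  set k' := (γ : Perm ι)⁻¹ k with hk'
  have ek : (γ : Perm ι) k' = k := by rw [hk']; simp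
  set l' := (γ : Perm ι)⁻¹ l with hl'
  have el : (γ : Perm ι) l' = l := by rw [hl']; simp
  have h0 : k' ≠ p 0 := fun e => hik (by rw [← ek, e, g0])
  have h1 : k' ≠ p 1 := fun e => hjk (by rw [← ek, e, g1])
  have h2 : l' ≠ p 0 := fun e => hil (by rw [← el, e, g0])
  have h3 : l' ≠ p 1 := fun e => hjl (by rw [← el, e, g1])
  have h4 : k' ≠ l' := fun e => hkl (by rw [← ek, ← el, e])
  have h5 := conj_comm (d.D k' l' h0 h1 h2 h3 h4) (ρ γ)
  have h6 := d.conj_X γ (p01 hp) 1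
  have h7 := d.conj_X γ h4 1
  rw [g0, g1, d.X01] at h6
  rw [ek, el] at h7
  rwa [h6, h7] at h5

section gen

variable (hι : 4 ≤ Fintype.card ι) (hζ : ∀ y, y ∈ Subgroup.zpowers ζ)

omit d in
theorem exists_pow [Finite F] (hζ : ∀ y, y ∈ Subgroup.zpowers ζ) (r : Fˣ) : ∃ n : ℕ, (ζ : F) ^ n = r := by
  obtain ⟨n, hn⟩ := (mem_powers_iff_mem_zpowers).2 (hζ r)
  refine ⟨n, ?_⟩
  rw [← hn]
  simp

include hι hζ

variable [Fintype F]

theorem trip {i j k : ι} (hij : i ≠ j) (hik : i ≠ k) (hjk : j ≠ k) :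
    (∀ r s, ⁅XX hp ρ x i j r, XX hp ρ x j k s⁆ = XX hp ρ x i k (r * s)) ∧
    (∀ s c, Commute (XX hp ρ x j k s) (XX hp ρ x i k c)) ∧
    (∀ r c, Commute (XX hp ρ x i j r) (XX hp ρ x i k c)) := by
  obtain ⟨l, hl⟩ := exists_not_mem {i, j, k} (lt_of_le_of_lt Finset.card_le_three hι)
  simp only [Finset.mem_insert, Finset.mem_singleton, not_or] at hl
  obtain ⟨hli, hlj, hlk⟩ := hl
  have hu : ∀ (M : AddSubgroup F), (∀ r : Fˣ, (r : F) ∈ M) → ∀ t, t ∈ M := by
    intro M hM t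
    by_cases ht : t = 0
    · rw [ht]; exact zero_mem M
    · exact hM (Units.mk0 t ht)
  refine triple (d.addX hij) (d.addX hjk) (d.addX hik) (Set.univ : Set Fˣ) ?_ ?_ ?_
  · intro M hM
    refine hu M fun r => ?_
    have := hM 1 r (Set.mem_univ _)
    simpa using this
  · intro M hM
    refine hu M fun r => ?_
    have := hM 1 r⁻¹ (Set.mem_univ _)
    simpa using this
  · intro r k' s _
    obtain ⟨a, ha⟩ := exists_pow hζ r
    obtain ⟨b, hb⟩ := exists_pow hζ (r * k' ^ 3 * s)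
    have e : (r : F) * (k' : F) ^ 3 * (s : F) = (ζ : F) ^ b := by rw [hb]; simp
    rw [e, ← ha]
    have a1 := (((d.W (Ne.symm hli) hij).pow a).mul ((d.W hlk hij).pow b)) 1
    have a2 := (((d.W (Ne.symm hli) hjk).pow a).mul ((d.W hlk hjk).pow b)) 1
    have a3 := (((d.W (Ne.symm hli) hik).pow a).mul ((d.W hlk hik).pow b)) 1
    have q1 : ((df i l (ζ : F) i * (df i l (ζ : F) j)⁻¹) ^ a * (df l k (ζ : F) i * (df l k (ζ : F) j)⁻¹) ^ b) * 1 =
        (ζ : F) ^ a := by
      simp [df, hij.symm, hlj, Ne.symm hlj, Ne.symm hli, hik, hjk]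
    have q2 : ((df i l (ζ : F) j * (df i l (ζ : F) k)⁻¹) ^ a * (df l k (ζ : F) j * (df l k (ζ : F) k)⁻¹) ^ b) * 1 =
        (ζ : F) ^ b := by
      simp [df, hij.symm, hlj, Ne.symm hlj, Ne.symm hli, hik.symm, hjk, Ne.symm hlk]
    have q3 : ((df i l (ζ : F) i * (df i l (ζ : F) k)⁻¹) ^ a * (df l k (ζ : F) i * (df l k (ζ : F) k)⁻¹) ^ b) * 1 =
        (ζ : F) ^ a * (ζ : F) ^ b := by
      simp [df, hij.symm, hlj, Ne.symm hlj, Ne.symm hli, hik.symm, hik, hjk, Ne.symm hlk]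
    rw [q1] at a1
    rw [q2] at a2
    rw [q3] at a3
    rw [← a1, ← a2, ← a3, conj_br, d.C' hij hik hjk]

theorem disj {i j k l : ι} (hij : i ≠ j) (hik : i ≠ k) (hil : i ≠ l) (hjk : j ≠ k) (hjl : j ≠ l) (hkl : k ≠ l)
    (a b : F) : Commute (XX hp ρ x i j a) (XX hp ρ x k l b) := by
  have h0 : ∀ i j : ι, i ≠ j → XX hp ρ x i j (0 : F) = 1 := fun i j hij => fam_zero (d.addX hij)
  by_cases ha : a = 0
  · rw [ha, h0 i j hij]; exact Commute.one_left _
  let M : AddSubgroup F :=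
    { carrier := {c | Commute (XX hp ρ x i j a) (XX hp ρ x k l (a * c))}
      add_mem' := by
        intro c c' hc hc'
        simp only [Set.mem_ofPred_eq] at *
        rw [mul_add, d.addX hkl]
        exact hc.mul_right hc'
      zero_mem' := by
        simp only [Set.mem_ofPred_eq, mul_zero, h0 k l hkl]
        exact Commute.one_right _
      neg_mem' := by
        intro c hc
        simp only [Set.mem_ofPred_eq] at *
        rw [mul_neg, fam_neg (d.addX hkl)]
        exact hc.inv_right }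
  have hM : ∀ t, t ∈ M := by
    refine sq_span hζ M fun n => ?_
    change Commute (XX hp ρ x i j a) (XX hp ρ x k l (a * _))
    obtain ⟨m, hm⟩ := exists_pow hζ (Units.mk0 a ha)
    rw [Units.val_mk0] at hm
    have a1 := (((d.W hil hij).pow m).mul ((d.W hkl hij).pow n)) 1
    have a2 := (((d.W hil hkl).pow m).mul ((d.W hkl hkl).pow n)) 1
    have q1 : ((df i l (ζ : F) i * (df i l (ζ : F) j)⁻¹) ^ m * (df k l (ζ : F) i * (df k l (ζ : F) j)⁻¹) ^ n) * 1 =
        a := by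
      rw [← hm]
      simp [df, hij.symm, hjl, hik, hil, hjk]
    have q2 : ((df i l (ζ : F) k * (df i l (ζ : F) l)⁻¹) ^ m * (df k l (ζ : F) k * (df k l (ζ : F) l)⁻¹) ^ n) * 1 =
        a * ((ζ : F) ^ 2) ^ n := by
      rw [← hm]
      simp [df, hik.symm, hil.symm, hkl, hkl.symm, sq]
    rw [q1] at a1
    rw [q2] at a2
    rw [← a1, ← a2]
    exact conj_comm (d.D' hij hik hil hjk hjl hkl) _
  have := hM (a⁻¹ * b)
  change Commute (XX hp ρ x i j a) (XX hp ρ x k l (a * _)) at this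
  rwa [mul_inv_cancel_left₀ ha] at this

theorem stein : SteinRel (XX hp ρ x) where
  add i j hij a b := d.addX hij a b
  br i j k hij hjk hik a b := (d.trip hι hζ hij hik hjk).1 a b
  comm i j k l hij hkl hjk hil a b := by
    by_cases hik : i = k
    · subst hik
      by_cases hjl : j = l
      · subst hjl
        rw [← d.addX hij, ← d.addX hij, add_comm]
      · exact ((d.trip hι hζ hij hil hjl).2.2 a b).eq
    · by_cases hjl : j = l
      · subst hjl
        exact ((d.trip hι hζ (Ne.symm hik) hkl hij).2.1 a b).eq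
      · exact (d.disj hι hζ hij hik hil hjk hjl hkl a b).eq

omit hι hζ [Fintype F] in
theorem conj_w (γ : alternatingGroup ι) {i j : ι} (hij : i ≠ j) (u : F) :
    ρ γ * w (XX hp ρ x) i j u * (ρ γ)⁻¹ = w (XX hp ρ x) ((γ : Perm ι) i) ((γ : Perm ι) j) u := by
  unfold w
  rw [← d.conj_X γ hij, ← d.conj_X γ hij.symm]
  group

omit hι hζ [Fintype F] in
theorem conj_t (γ : alternatingGroup ι) {i j : ι} (hij : i ≠ j) (u : F) :
    ρ γ * t (XX hp ρ x) i j u * (ρ γ)⁻¹ = t (XX hp ρ x) ((γ : Perm ι) i) ((γ : Perm ι) j) u := by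
  unfold t
  rw [← d.conj_w γ hij, ← d.conj_w γ hij]
  group

theorem t_pow (n : ℕ) : t (XX hp ρ x) (p 0) (p 1) ((ζ : F) ^ n) = h ^ n := by
  have hs := d.stein hι hζ
  have hz := ζ.ne_zero
  have hι3 : 3 ≤ Fintype.card ι := by omega
  induction n with
  | zero => rw [pow_zero, pow_zero]; exact t_one hs (p01 hp)
  | succ n ih =>
    set g := (cj hp ρ h (p 1) (p 2))⁻¹ with hg
    have hw : Act g (XX hp ρ x (p 0) (p 1)) (ζ : F) := by
      have := (d.W (p12 hp) (p01 hp)).inv (mul_ne_zero (df_ne hz _) (inv_ne_zero (df_ne hz _)))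
      refine this.congr rfl (fun _ => rfl) ?_
      simp [df, p01 hp, p02 hp]
    have hw' : Act g (XX hp ρ x (p 1) (p 0)) (ζ : F)⁻¹ := by
      have := (d.W (p12 hp) (p01 hp).symm).inv (mul_ne_zero (df_ne hz _) (inv_ne_zero (df_ne hz _)))
      refine this.congr rfl (fun _ => rfl) ?_
      simp [df, p01 hp, p02 hp]
    have h1 : ∀ a, g * w (XX hp ρ x) (p 0) (p 1) a * g⁻¹ = w (XX hp ρ x) (p 0) (p 1) ((ζ : F) * a) := by
      intro a
      unfold w
      have e1 := hw a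
      have e2 := hw' (-a⁻¹)
      have e3 : -((ζ : F) * a)⁻¹ = (ζ : F)⁻¹ * -a⁻¹ := by rw [mul_inv]; ring
      rw [e3, ← e1, ← e2]
      group
    have h2 := conj_t_of hs (p01 hp) h1 ((ζ : F) ^ n)
    rw [ih, ← d.H] at h2
    have hc : Commute g h := d.hg.symm.inv_left
    have h3 : g * h ^ n * g⁻¹ = h ^ n := by rw [(hc.pow_right n).eq, mul_inv_cancel_right]
    rw [h3, eq_mul_inv_iff_mul_eq] at h2
    rw [pow_succ', pow_succ, ← h2]

theorem hrel : HRel (XX hp ρ x) := by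
  have key : ∀ a b : F, a ≠ 0 → b ≠ 0 → t (XX hp ρ x) (p 0) (p 1) a * t (XX hp ρ x) (p 0) (p 1) b =
      t (XX hp ρ x) (p 0) (p 1) (a * b) := by
    intro a b ha hb
    obtain ⟨m, hm⟩ := exists_pow hζ (Units.mk0 a ha)
    obtain ⟨n, hn⟩ := exists_pow hζ (Units.mk0 b hb)
    rw [Units.val_mk0] at hm hn
    rw [← hm, ← hn, ← pow_add, d.t_pow hι hζ, d.t_pow hι hζ, d.t_pow hι hζ, pow_add]
  intro i j hij a b ha hb
  have h1 := fun u => d.conj_t (sg hp i j) (p01 hp) u
  rw [sg_zero hp hij, sg_one hp hij] at h1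
  rw [← h1, ← h1, ← h1, ← key a b ha hb]
  group

omit hι hζ [Fintype F] in
theorem conj_cyc (γ : alternatingGroup ι) : ρ (γ * cyc hp * γ⁻¹) =
    (w (XX hp ρ x) ((γ : Perm ι) (p 0)) ((γ : Perm ι) (p 1)) 1)⁻¹ *
    (w (XX hp ρ x) ((γ : Perm ι) (p 1)) ((γ : Perm ι) (p 2)) 1)⁻¹ := by
  rw [map_mul, map_mul, map_inv, d.Id, ← d.conj_w γ (p01 hp), ← d.conj_w γ (p12 hp)]
  group

end gen

end Dat

end Cfsg.Agent.H109.SLn
end

-- part: H109/SLnC
section
/-!
# `SLₙ(F)`: the matrices and the homomorphism (helper109)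
-/

set_option autoImplicit false
set_option linter.unusedSectionVars false
set_option linter.unusedSimpArgs false

namespace Cfsg.Agent.H109.SLn

open scoped commutatorElement
open Cfsg.Agent.Lib Cfsg.Agent.AGraded Cfsg.Agent.CTFrame.Weyl Cfsg.Agent.CTFrame.Torus
open Cfsg.Agent.LieClassical.SLGen
open Matrix (SpecialLinearGroup)
open Equiv Equiv.Perm

variable {ι : Type*} [Fintype ι] [DecidableEq ι] {p : Fin 4 → ι} (hp : Function.Injective p)
variable (F : Type*) [Field F]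

/-- permutation matrices -/
def r0 : alternatingGroup ι →* SpecialLinearGroup ι F where
  toFun γ := ⟨(Matrix.permMatrixHom : Perm ι →* Matrix ι ι F) (γ : Perm ι), by
    change (((γ : Perm ι)⁻¹).permMatrix F).det = 1
    rw [Matrix.det_permutation, sign_inv, mem_alternatingGroup.1 γ.2]
    simp⟩
  map_one' := Subtype.ext (by
    change (Matrix.permMatrixHom : Perm ι →* Matrix ι ι F) (1 : Perm ι) = 1
    exact map_one _)
  map_mul' a b := Subtype.ext (by
    change (Matrix.permMatrixHom : Perm ι →* Matrix ι ι F) ((a : Perm ι) * (b : Perm ι)) = _ * _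
    exact map_mul _ _ _)

variable {F}

theorem r0_smul (γ : alternatingGroup ι) (v : ι → F) (k : ι) :
    (r0 F γ • v) k = v ((γ : Perm ι)⁻¹ k) := by
  rw [Matrix.SpecialLinearGroup.smul_def]
  change (((γ : Perm ι)⁻¹).permMatrix F).mulVec v k = _
  rw [Matrix.permMatrix_mulVec]
  rfl

theorem tv_smul {i j : ι} (hij : i ≠ j) (a : F) (v : ι → F) (k : ι) :
    (SpecialLinearGroup.transvection hij a • v) k = if k = i then v i + a * v j else v k := by
  rw [transvection_smul]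
  by_cases hk : k = i
  · subst hk
    simp
  · simp [hk]

theorem r0_conj (γ : alternatingGroup ι) {i j : ι} (hij : i ≠ j) (hij' : (γ : Perm ι) i ≠ (γ : Perm ι) j) (a : F) :
    r0 F γ * SpecialLinearGroup.transvection hij a * (r0 F γ)⁻¹ = SpecialLinearGroup.transvection hij' a := by
  rw [mul_inv_eq_iff_eq_mul]
  apply smul_ext
  intro v
  funext k
  rw [mul_smul, mul_smul, r0_smul, tv_smul, tv_smul, r0_smul, r0_smul, r0_smul]
  by_cases hk : k = (γ : Perm ι) i
  · subst hk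
    simp
  · have : (γ : Perm ι)⁻¹ k ≠ i := fun e => hk (by rw [← e]; simp)
    rw [if_neg hk, if_neg this]

/-- the root group -/
def x0 (t : F) : SpecialLinearGroup ι F := SpecialLinearGroup.transvection (p01 hp) t

theorem X0_eq {i j : ι} (hij : i ≠ j) (t : F) :
    XX hp (r0 F) (x0 hp) i j t = SpecialLinearGroup.transvection hij t := by
  unfold XX cj x0
  rw [r0_conj _ (p01 hp) (by rw [sg_zero hp hij, sg_one hp hij]; exact hij)]
  congr 1
  · exact sg_zero hp hij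
  · exact sg_one hp hij

/-- the torus element -/
noncomputable def h0 (ζ : Fˣ) : SpecialLinearGroup ι F := t (XX hp (r0 F) (x0 hp)) (p 0) (p 1) (ζ : F)

theorem phi0 : ∀ i j (hij : i ≠ j) a, MonoidHom.id (SpecialLinearGroup ι F) (XX hp (r0 F) (x0 hp) i j a) =
    SpecialLinearGroup.transvection hij a := fun _ _ hij a => X0_eq hp hij a

theorem h0_smul (ζ : Fˣ) (v : ι → F) (k : ι) : (h0 hp ζ • v) k = df (p 0) (p 1) (ζ : F) k * v k :=
  phi_t (phi0 hp) (p01 hp) ζ.ne_zero v k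

theorem w0_smul {i j : ι} (hij : i ≠ j) {u : F} (hu : u ≠ 0) (v : ι → F) (k : ι) :
    (w (XX hp (r0 F) (x0 hp)) i j u • v) k = if k = i then u * v j else if k = j then -u⁻¹ * v i else v k :=
  phi_w (phi0 hp) hij hu v k

theorem cj0_smul (ζ : Fˣ) {i j : ι} (hij : i ≠ j) (v : ι → F) (k : ι) :
    (cj hp (r0 F) (h0 hp ζ) i j • v) k = df i j (ζ : F) k * v k := by
  unfold cj
  rw [← map_inv, mul_smul, mul_smul, r0_smul, h0_smul, r0_smul]
  have e : ((sg hp i j)⁻¹ : alternatingGroup ι) = ((sg hp i j)⁻¹ : alternatingGroup ι) := rfl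
  have e1 : (((sg hp i j)⁻¹ : alternatingGroup ι) : Perm ι) = (sg hp i j : Perm ι)⁻¹ := rfl
  rw [e1, inv_inv]
  have e2 : (sg hp i j : Perm ι) ((sg hp i j : Perm ι)⁻¹ k) = k := by simp
  rw [e2]
  congr 1
  unfold df
  have a1 : (sg hp i j : Perm ι)⁻¹ k = p 0 ↔ k = i := by
    rw [Perm.inv_eq_iff_eq, sg_zero hp hij]
  have a2 : (sg hp i j : Perm ι)⁻¹ k = p 1 ↔ k = j := by
    rw [Perm.inv_eq_iff_eq, sg_one hp hij]
  simp only [a1, a2]

theorem act0 (ζ : Fˣ) {k l : ι} (hkl : k ≠ l) : Act (cj hp (r0 F) (h0 hp ζ) k l) (x0 hp)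
    (df k l (ζ : F) (p 0) * (df k l (ζ : F) (p 1))⁻¹) := by
  intro t
  rw [mul_inv_eq_iff_eq_mul]
  apply smul_ext
  intro v
  funext m
  rw [mul_smul, mul_smul, cj0_smul hp ζ hkl, x0, x0, tv_smul, tv_smul, cj0_smul hp ζ hkl, cj0_smul hp ζ hkl,
    cj0_smul hp ζ hkl]
  by_cases hm : m = p 0
  · subst hm
    simp only [if_true]
    have := df_ne (i := k) (j := l) ζ.ne_zero (p 1)
    field_simp
  · simp [hm]

theorem x0_add (s t : F) : x0 hp (s + t) = x0 hp s * x0 hp t := by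
  apply smul_ext
  intro v
  funext m
  rw [mul_smul, x0, x0, x0]
  simp only [tv_smul]
  by_cases hm : m = p 0
  · subst hm
    simp only [if_true, (p01 hp).symm, if_false]
    ring
  · simp [hm]

/-- the data of the matrices -/
theorem dat0 (ζ : Fˣ) : Dat hp (r0 F) (x0 hp) (h0 hp ζ) ζ := by
  have hx : ∀ γ : alternatingGroup ι, (γ : Perm ι) (p 0) = p 0 → (γ : Perm ι) (p 1) = p 1 →
      ∀ t : F, Commute (r0 F γ) (x0 hp t) := by
    intro γ g0 g1 t
    apply smul_ext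
    intro v
    funext m
    rw [mul_smul, mul_smul, r0_smul, x0, tv_smul, tv_smul, r0_smul, r0_smul, r0_smul]
    have a0 : (γ : Perm ι)⁻¹ (p 0) = p 0 := by rw [Perm.inv_eq_iff_eq, g0]
    have a1 : (γ : Perm ι)⁻¹ (p 1) = p 1 := by rw [Perm.inv_eq_iff_eq, g1]
    have a2 : (γ : Perm ι)⁻¹ m = p 0 ↔ m = p 0 := by rw [Perm.inv_eq_iff_eq, g0]
    rw [a0, a1]
    simp only [a2]
  have hh : ∀ γ : alternatingGroup ι, (γ : Perm ι) (p 0) = p 0 → (γ : Perm ι) (p 1) = p 1 →
      Commute (r0 F γ) (h0 hp ζ) := by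
    intro γ g0 g1
    apply smul_ext
    intro v
    funext m
    rw [mul_smul, mul_smul, r0_smul, h0_smul, h0_smul, r0_smul]
    have a1 : (γ : Perm ι)⁻¹ m = p 1 ↔ m = p 1 := by rw [Perm.inv_eq_iff_eq, g1]
    have a2 : (γ : Perm ι)⁻¹ m = p 0 ↔ m = p 0 := by rw [Perm.inv_eq_iff_eq, g0]
    unfold df
    simp only [a1, a2]
  have hb : cj hp (r0 F) (h0 hp ζ) (p 0) (p 1) = h0 hp ζ := cj_base hp hh
  have hz := ζ.ne_zero
  exact
  { add := x0_add hp
    stx := hx
    sth := hh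
    act := by
      have := act0 hp ζ (p01 hp)
      rw [hb] at this
      refine this.congr rfl (fun _ => rfl) ?_
      simp [df, (p01 hp).symm]; ring
    B := by
      intro k h0 h1
      refine (act0 hp ζ h1.symm).congr rfl (fun _ => rfl) ?_
      simp [df, p01 hp, Ne.symm h0]
    T1 := by
      rw [eq_inv_iff_mul_eq_one]
      apply smul_ext
      intro v
      funext m
      rw [mul_smul, cj0_smul hp ζ (p01 hp).symm, h0_smul, one_smul, ← mul_assoc]
      unfold df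
      by_cases h0 : m = p 0
      · subst h0; simp [p01 hp, hz]
      · by_cases h1 : m = p 1
        · subst h1; simp [h0, hz]
        · simp [h0, h1]
    T2 := by
      apply smul_ext
      intro v
      funext m
      rw [mul_smul, mul_smul, h0_smul, cj0_smul hp ζ (p12 hp), cj0_smul hp ζ (p02 hp).symm, one_smul]
      unfold df
      by_cases h0 : m = p 0
      · subst h0; simp [p01 hp, p02 hp, hz]
      · by_cases h1 : m = p 1
        · subst h1; simp [h0, hz, p12 hp]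
        · by_cases h2 : m = p 2
          · subst h2; simp [h0, h1, hz]
          · simp [h0, h1, h2]
    hg := by
      apply smul_ext
      intro v
      funext m
      rw [mul_smul, mul_smul, h0_smul, cj0_smul hp ζ (p12 hp), cj0_smul hp ζ (p12 hp), h0_smul]
      ring
    C := by
      intro k h0 h1
      have e : x0 hp (1 : F) = SpecialLinearGroup.transvection (p01 hp) 1 := rfl
      rw [X0_eq hp (Ne.symm h1), X0_eq hp (Ne.symm h0), e, commutator_transvection (Ne.symm h0) (p01 hp) (Ne.symm h1),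
        one_mul]
    D := by
      intro k l hk0 hk1 hl0 hl1 hkl
      rw [X0_eq hp hkl]
      apply smul_ext
      intro v
      funext m
      rw [mul_smul, mul_smul, x0]
      simp only [tv_smul]
      by_cases h0 : m = p 0
      · subst h0; simp [Ne.symm hk0, Ne.symm hk1]
      · by_cases h1 : m = k
        · subst h1; simp [h0, hl0]
        · simp [h0, h1]
    H := rfl
    Id := by
      rw [← mul_inv_rev, eq_inv_iff_mul_eq_one, ← mul_eq_one_comm]
      apply smul_ext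
      intro v
      funext m
      have h1F : (1 : F) ≠ 0 := one_ne_zero
      have a01 := p01 hp
      have a02 := p02 hp
      have a12 := p12 hp
      have c0 : (cyc hp : Perm ι)⁻¹ (p 0) = p 2 := by
        rw [Perm.inv_eq_iff_eq]
        change p 0 = swap (p 0) (p 1) (swap (p 1) (p 2) (p 2))
        rw [swap_apply_right, swap_apply_right]
      have c1 : (cyc hp : Perm ι)⁻¹ (p 1) = p 0 := by
        rw [Perm.inv_eq_iff_eq]
        change p 1 = swap (p 0) (p 1) (swap (p 1) (p 2) (p 0))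
        rw [swap_apply_of_ne_of_ne a01 a02, swap_apply_left]
      have c2 : (cyc hp : Perm ι)⁻¹ (p 2) = p 1 := by
        rw [Perm.inv_eq_iff_eq]
        change p 2 = swap (p 0) (p 1) (swap (p 1) (p 2) (p 1))
        rw [swap_apply_left, swap_apply_of_ne_of_ne a02.symm a12.symm]
      rw [mul_smul, mul_smul, one_smul]
      simp only [w0_smul hp (p12 hp) h1F, w0_smul hp (p01 hp) h1F, r0_smul]
      by_cases h0 : m = p 0
      · subst h0; simp [a01, a02, a12, a01.symm, c1]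
      · by_cases h1 : m = p 1
        · subst h1; simp [h0, a02.symm, a12.symm, c2]
        · by_cases h2 : m = p 2
          · subst h2; simp [h0, h1, a01.symm, c0]
          · have c3 : (cyc hp : Perm ι)⁻¹ m = m := by
              rw [Perm.inv_eq_iff_eq]
              change m = swap (p 0) (p 1) (swap (p 1) (p 2) m)
              rw [swap_apply_of_ne_of_ne h1 h2, swap_apply_of_ne_of_ne h0 h1]
            simp [h0, h1, h2, c3] }

section hom

variable {J : Type*} [Group J] {ρ : alternatingGroup ι →* J} {x : F → J} {h : J} {ζ : Fˣ}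

/-- **the homomorphism** -/
theorem Dat.exists_hom [Fintype F] {hp : Function.Injective p} (d : Dat hp ρ x h ζ) (hι : 4 ≤ Fintype.card ι)
    (hζ : ∀ y, y ∈ Subgroup.zpowers ζ) :
    ∃ π : SpecialLinearGroup ι F →* J, (∀ γ, π (r0 F γ) = ρ γ) ∧ (∀ t, π (x0 hp t) = x t) ∧ π (h0 hp ζ) = h := by
  obtain ⟨π, hπ, -, -⟩ := CTFrame.Hom.exists_hom (d.stein hι hζ) (d.hrel hι hζ) (by omega)
  have d0 := dat0 hp (F := F) ζ
  have hX : ∀ {i j : ι} (_ : i ≠ j) t, π (XX hp (r0 F) (x0 hp) i j t) = XX hp ρ x i j t := by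
    intro i j hij t
    rw [X0_eq hp hij, hπ]
  have hW : ∀ {i j : ι} (_ : i ≠ j) u, π (w (XX hp (r0 F) (x0 hp)) i j u) = w (XX hp ρ x) i j u := by
    intro i j hij u
    unfold w
    rw [map_mul, map_mul, hX hij, hX hij.symm]
  have hT : ∀ {i j : ι} (_ : i ≠ j) u, π (t (XX hp (r0 F) (x0 hp)) i j u) = t (XX hp ρ x) i j u := by
    intro i j hij u
    unfold t
    rw [map_mul, hW hij, hW hij]
  refine ⟨π, ?_, ?_, ?_⟩
  · have htop := top_of_three hp (cyc hp) rfl ((π.comp (r0 F)).eqLocus ρ) (by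
      intro γ
      change π (r0 F (γ * cyc hp * γ⁻¹)) = ρ (γ * cyc hp * γ⁻¹)
      have e1 : (γ : Perm ι) (p 0) ≠ (γ : Perm ι) (p 1) := fun e => p01 hp ((γ : Perm ι).injective e)
      have e2 : (γ : Perm ι) (p 1) ≠ (γ : Perm ι) (p 2) := fun e => p12 hp ((γ : Perm ι).injective e)
      rw [d.conj_cyc, d0.conj_cyc, map_mul, map_inv, map_inv, hW e1, hW e2])
    intro γ
    have : γ ∈ (π.comp (r0 F)).eqLocus ρ := by rw [htop]; trivial
    exact this
  · intro t
    have := hX (p01 hp) t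
    rwa [d0.X01, d.X01] at this
  · rw [h0, hT (p01 hp), ← d.H]

end hom

end Cfsg.Agent.H109.SLn
end

-- part: H109/URelGen
section
/-!
# Few relations for a root group under an element acting as a generator of the units (helper109)
-/

set_option autoImplicit false

universe v

namespace Cfsg.Agent.H109

open Polynomial

variable {F : Type v} [Field F] [Fintype F]

theorem URelS.mono {γ : F} {m m' : ℕ} (h : URelS γ m) (hm : m ≤ m') : URelS γ m' := by
  obtain ⟨R, h1, h2⟩ := h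
  exact ⟨R, h1.trans hm, h2⟩

/-- a generator of the units, all finite fields: four relators -/
theorem uRelS_gen {ζ : Fˣ} (hζ : ∀ y, y ∈ Subgroup.zpowers ζ) : URelS (ζ : F) 4 := by
  classical
  obtain ⟨p, hch⟩ := CharP.exists F
  have hpp : p.Prime := (CharP.char_is_prime_or_zero F p).resolve_right (CharP.char_ne_zero_of_finite F p)
  have : Fact p.Prime := ⟨hpp⟩
  let _ : Algebra (ZMod p) F := ZMod.algebra F p
  have hcp : ((p : ℕ) : F) = 0 := CharP.cast_eq_zero F p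
  have hα := adjoin_eq_top (p := p) hζ
  by_cases h2 : (2 : F) = 0
  · -- characteristic two
    obtain ⟨-, hh⟩ := sq_pow_half hζ h2
    have hg : ∀ y, y ∈ Subgroup.zpowers (ζ ^ (Fintype.card F / 2)) := by
      intro y
      obtain ⟨i, rfl⟩ := hζ y
      refine ⟨2 * i, ?_⟩
      change (ζ ^ (Fintype.card F / 2)) ^ (2 * i) = ζ ^ i
      rw [zpow_mul]
      congr 1
      rw [← pow_mul] at hh
      rw [zpow_ofNat, ← pow_mul, mul_comm]
      exact hh
    have := uRelS_two hg h2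
    have e : (((ζ ^ (Fintype.card F / 2) : Fˣ) : F)) ^ 2 = (ζ : F) := by
      rw [← Units.val_pow_eq_pow_val, ← pow_mul, mul_comm, pow_mul, hh]
    rw [e] at this
    exact this.mono (by norm_num)
  by_cases h3 : (ζ : F) = -1
  · -- three elements
    have hp2 : p ≠ 2 := by
      rintro rfl
      exact h2 (by exact_mod_cast hcp)
    have hu : ζ ^ 2 = 1 := Units.ext (by rw [Units.val_pow_eq_pow_val, h3]; simp)
    have ho := order_gen hζ
    have hd := orderOf_dvd_of_pow_eq_one hu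
    rw [ho] at hd
    have hle := Nat.le_of_dvd (by norm_num) hd
    have hp3 : p = 3 := by
      have hcard : Fintype.card F ≤ 3 := by omega
      obtain ⟨n, hn, hc⟩ := FiniteField.card F p
      have h4 : p ^ 1 ≤ p ^ (n : ℕ) := Nat.pow_le_pow_right hpp.pos n.pos
      rw [pow_one] at h4
      have h1 := hpp.two_le
      omega
    subst hp3
    refine ⟨[FreeGroup.of 0 ^ 3, FreeGroup.of 1 * FreeGroup.of 0 * (FreeGroup.of 1)⁻¹ * FreeGroup.of 0,
      pw (FreeGroup.of 1) (FreeGroup.of 0) (lst (minpoly (ZMod 3) (ζ : F)))], by simp, ?_, ?_⟩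
    · intro G _ x h hx hh r hr
      simp only [List.mem_cons, List.not_mem_nil, or_false] at hr
      rcases hr with rfl | rfl | rfl
      · simp only [map_pow, FreeGroup.lift_apply_of, Matrix.cons_val_zero]
        rw [x_pow hx, hcp, zero_mul, x_zero hx]
      · simp only [map_mul, map_inv, FreeGroup.lift_apply_of, Matrix.cons_val_zero, Matrix.cons_val_one,
          Matrix.cons_val_fin_one]
        rw [hh, h3, ← hx]
        simp [x_zero hx]
      · simp only [lift_pw, FreeGroup.lift_apply_of, Matrix.cons_val_zero, Matrix.cons_val_one,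
          Matrix.cons_val_fin_one]
        rw [pw_root hx hh, ev_lst, minpoly.aeval, zero_mul, x_zero hx]
    · intro J _ u h hr
      have r1 := hr _ (List.mem_cons_self)
      have r2 := hr _ (List.mem_cons_of_mem _ (List.mem_cons_self))
      have r3 := hr _ (List.mem_cons_of_mem _ (List.mem_cons_of_mem _ (List.mem_cons_self)))
      simp only [map_mul, map_pow, map_inv, FreeGroup.lift_apply_of, Matrix.cons_val_zero, Matrix.cons_val_one,
          Matrix.cons_val_fin_one, lift_pw] at r1 r2 r3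
      have e1 : h * u * h⁻¹ = u⁻¹ := eq_inv_of_mul_eq_one_left r2
      have hnat : ∀ n : ℕ, h ^ n * u * (h ^ n)⁻¹ = u ∨ h ^ n * u * (h ^ n)⁻¹ = u⁻¹ := by
        intro n
        induction n with
        | zero => simp
        | succ n ih =>
          have e : h ^ (n + 1) * u * (h ^ (n + 1))⁻¹ = h * (h ^ n * u * (h ^ n)⁻¹) * h⁻¹ := by
            rw [pow_succ']; group
          rcases ih with h1 | h1
          · right; rw [e, h1, e1]
          · left; rw [e, h1]
            calc h * u⁻¹ * h⁻¹ = (h * u * h⁻¹)⁻¹ := by group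
              _ = u := by rw [e1, inv_inv]
      have hint : ∀ n : ℤ, h ^ n * u * (h ^ n)⁻¹ = u ∨ h ^ n * u * (h ^ n)⁻¹ = u⁻¹ := by
        intro n
        obtain ⟨m, rfl | rfl⟩ := n.eq_nat_or_neg
        · rw [zpow_natCast]; exact hnat m
        · rw [zpow_neg, zpow_natCast, inv_inv]
          have e : (h ^ m)⁻¹ * (h ^ m * u * (h ^ m)⁻¹) * h ^ m = u := by group
          rcases hnat m with h1 | h1
          · left; rw [h1] at e; exact e
          · right
            rw [h1] at e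
            calc (h ^ m)⁻¹ * u * h ^ m = ((h ^ m)⁻¹ * u⁻¹ * h ^ m)⁻¹ := by group
              _ = u⁻¹ := by rw [e]
      have hcc : ∀ i j : ℤ, Commute (h ^ i * u * (h ^ i)⁻¹) (h ^ j * u * (h ^ j)⁻¹) := by
        intro i j
        rcases hint i with e | e <;> rcases hint j with e' | e' <;> rw [e, e'] <;>
          first
          | exact Commute.refl _
          | exact (Commute.refl _).inv_right
          | exact (Commute.refl _).inv_left
      obtain ⟨x, h1, h2, h3, h4⟩ := exists_x_self (p := 3) (F := F) r1 hcc hα r3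
      exact ⟨x, h1, h2, h3, fun t => cu_le_closure h u h (Subgroup.subset_closure (by simp)) (h4 t)⟩
  · -- the general case
    have h1γ : 1 + (ζ : F) ≠ 0 := by
      intro h
      exact h3 (eq_neg_of_add_eq_zero_right h)
    obtain ⟨l, hl⟩ : ∃ k : ℕ, (ζ : F) ^ k = 1 + (ζ : F) := by
      obtain ⟨k, hk⟩ := (mem_powers_iff_mem_zpowers).2 (hζ (Units.mk0 _ h1γ))
      refine ⟨k, ?_⟩
      have := congrArg Units.val hk
      simpa using this
    refine ⟨[FreeGroup.of 0 ^ p,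
      FreeGroup.of 0 * (FreeGroup.of 1 * FreeGroup.of 0 * (FreeGroup.of 1)⁻¹) *
        (FreeGroup.of 1 ^ l * FreeGroup.of 0 * (FreeGroup.of 1 ^ l)⁻¹)⁻¹,
      (FreeGroup.of 1 * FreeGroup.of 0 * (FreeGroup.of 1)⁻¹) * FreeGroup.of 0 *
        (FreeGroup.of 1 ^ l * FreeGroup.of 0 * (FreeGroup.of 1 ^ l)⁻¹)⁻¹,
      pw (FreeGroup.of 1) (FreeGroup.of 0) (lst (minpoly (ZMod p) (ζ : F)))], by simp, ?_, ?_⟩
    · intro G _ x h hx hh r hr
      simp only [List.mem_cons, List.not_mem_nil, or_false] at hr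
      rcases hr with rfl | rfl | rfl | rfl
      · simp only [map_pow, FreeGroup.lift_apply_of, Matrix.cons_val_zero]
        rw [x_pow hx, hcp, zero_mul, x_zero hx]
      · simp only [map_mul, map_pow, map_inv, FreeGroup.lift_apply_of, Matrix.cons_val_zero, Matrix.cons_val_one,
          Matrix.cons_val_fin_one]
        rw [x_conj_pow hh, hh, ← hx, mul_inv_eq_one]
        congr 1
        rw [hl]; ring
      · simp only [map_mul, map_pow, map_inv, FreeGroup.lift_apply_of, Matrix.cons_val_zero, Matrix.cons_val_one,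
          Matrix.cons_val_fin_one]
        rw [x_conj_pow hh, hh, ← hx, mul_inv_eq_one]
        congr 1
        rw [hl]; ring
      · simp only [lift_pw, FreeGroup.lift_apply_of, Matrix.cons_val_zero, Matrix.cons_val_one,
          Matrix.cons_val_fin_one]
        rw [pw_root hx hh, ev_lst, minpoly.aeval, zero_mul, x_zero hx]
    · intro J _ u h hr
      have r1 := hr _ (List.mem_cons_self)
      have r2 := hr _ (List.mem_cons_of_mem _ (List.mem_cons_self))
      have r3 := hr _ (List.mem_cons_of_mem _ (List.mem_cons_of_mem _ (List.mem_cons_self)))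
      have r4 := hr _ (List.mem_cons_of_mem _ (List.mem_cons_of_mem _ (List.mem_cons_of_mem _ (List.mem_cons_self))))
      simp only [map_mul, map_pow, map_inv, FreeGroup.lift_apply_of, Matrix.cons_val_zero, Matrix.cons_val_one,
          Matrix.cons_val_fin_one, lift_pw] at r1 r2 r3 r4
      obtain ⟨x, h1, h2, h3, h4⟩ := exists_x_self (p := p) (F := F) r1
        (comm_of_trinomial ((Commute.refl h).pow_right l) (mul_inv_eq_one.1 r2) (mul_inv_eq_one.1 r3)) hα r4
      exact ⟨x, h1, h2, h3, fun t => cu_le_closure h u h (Subgroup.subset_closure (by simp)) (h4 t)⟩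

end Cfsg.Agent.H109
end

-- part: H109/SLnD
section
/-!
# `SLₙ(F)`: the relators (helper109)
-/

set_option autoImplicit false
set_option linter.unusedSectionVars false
set_option linter.unusedSimpArgs false

universe v

namespace Cfsg.Agent.H109.SLn

open scoped commutatorElement
open Cfsg.Agent.Lib Cfsg.Agent.AGraded Cfsg.Agent.CTFrame.Weyl Cfsg.Agent.CTFrame.Torus
open Cfsg.Agent.LieClassical.SLGen
open Matrix (SpecialLinearGroup)
open Equiv Equiv.Perm

theorem exists_lt {F : Type*} [Field F] [Fintype F] {ζ : Fˣ} (hζ : ∀ y, y ∈ Subgroup.zpowers ζ) (t : F) :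
    ∃ l : List ℤ, ev (ζ : F) l = t := by
  obtain ⟨p, hch⟩ := CharP.exists F
  have hpp : p.Prime := (CharP.char_is_prime_or_zero F p).resolve_right (CharP.char_ne_zero_of_finite F p)
  have : Fact p.Prime := ⟨hpp⟩
  let _ : Algebra (ZMod p) F := ZMod.algebra F p
  exact exists_list (adjoin_eq_top (p := p) hζ) t

theorem exists_lt_sq {F : Type*} [Field F] [Fintype F] {ζ : Fˣ} (hζ : ∀ y, y ∈ Subgroup.zpowers ζ) (t : F) :
    ∃ l : List ℤ, ev ((ζ : F) ^ 2) l = t := by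
  obtain ⟨p, hch⟩ := CharP.exists F
  have hpp : p.Prime := (CharP.char_is_prime_or_zero F p).resolve_right (CharP.char_ne_zero_of_finite F p)
  have : Fact p.Prime := ⟨hpp⟩
  let _ : Algebra (ZMod p) F := ZMod.algebra F p
  exact exists_list (adjoin_sq_eq_top (p := p) hζ) t

theorem gen_inv {G : Type*} [Group G] {ζ : G} (hζ : ∀ y, y ∈ Subgroup.zpowers ζ) :
    ∀ y, y ∈ Subgroup.zpowers ζ⁻¹ := by
  intro y
  rw [Subgroup.zpowers_inv]
  exact hζ y

variable {ι : Type} [Fintype ι] [DecidableEq ι] {p : Fin 4 → ι} (hp : Function.Injective p)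
variable {F : Type v} [Field F]

section words

variable {K : Type*} [Group K]

/-- words for the root elements -/
noncomputable def xw (lt : F → List ℤ) (ρ : alternatingGroup ι →* K) (u h : K) (t : F) : K :=
  pw (cj hp ρ h (p 1) (p 2)) u (lt t)

/-- words for the root elements -/
noncomputable def Xw (lt : F → List ℤ) (ρ : alternatingGroup ι →* K) (u h : K) : ι → ι → F → K :=
  XX hp ρ (xw hp lt ρ u h)

theorem map_cj {K' : Type*} [Group K'] (φ : K →* K') (ρ : alternatingGroup ι →* K) (y : K) (i j : ι) :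
    φ (cj hp ρ y i j) = cj hp (φ.comp ρ) (φ y) i j := by
  simp [cj]

theorem map_Xw {K' : Type*} [Group K'] (φ : K →* K') (lt : F → List ℤ) (ρ : alternatingGroup ι →* K) (u h : K)
    (i j : ι) (t : F) : φ (Xw hp lt ρ u h i j t) = Xw hp lt (φ.comp ρ) (φ u) (φ h) i j t := by
  unfold Xw XX
  rw [map_cj]
  unfold xw
  rw [map_pw, map_cj]

theorem map_w {K' : Type*} [Group K'] (φ : K →* K') (X : ι → ι → F → K) (i j : ι) (u : F) :
    φ (w X i j u) = w (fun i j t => φ (X i j t)) i j u := by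
  simp [w]

theorem map_t {K' : Type*} [Group K'] (φ : K →* K') (X : ι → ι → F → K) (i j : ι) (u : F) :
    φ (t X i j u) = t (fun i j t => φ (X i j t)) i j u := by
  simp [t, map_w]

theorem map_wXw {K' : Type*} [Group K'] (φ : K →* K') (lt : F → List ℤ) (ρ : alternatingGroup ι →* K) (u h : K)
    (i j : ι) (s : F) : φ (w (Xw hp lt ρ u h) i j s) = w (Xw hp lt (φ.comp ρ) (φ u) (φ h)) i j s := by
  rw [map_w]
  congr 1
  funext i j t
  exact map_Xw hp φ lt ρ u h i j t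

theorem map_tXw {K' : Type*} [Group K'] (φ : K →* K') (lt : F → List ℤ) (ρ : alternatingGroup ι →* K) (u h : K)
    (i j : ι) (s : F) : φ (t (Xw hp lt ρ u h) i j s) = t (Xw hp lt (φ.comp ρ) (φ u) (φ h)) i j s := by
  rw [map_t]
  congr 1
  funext i j t
  exact map_Xw hp φ lt ρ u h i j t

/-- the relators -/
noncomputable def RL (lt : F → List ℤ) (ζ : Fˣ) (R0 : List (FreeGroup (Fin 2))) (L : List (alternatingGroup ι))
    (LB LC : List ι) (LD : List (ι × ι)) (ρ : alternatingGroup ι →* K) (u h : K) : List K :=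
  R0.map (FreeGroup.lift ![u, cj hp ρ h (p 1) (p 2)]) ++
  [h * u * h⁻¹ * (xw hp lt ρ u h ((ζ : F) ^ 2))⁻¹,
    cj hp ρ h (p 1) (p 0) * h,
    h * cj hp ρ h (p 1) (p 2) * cj hp ρ h (p 2) (p 0),
    ⁅h, cj hp ρ h (p 1) (p 2)⁆,
    h * (t (Xw hp lt ρ u h) (p 0) (p 1) (ζ : F))⁻¹,
    ρ (cyc hp) * (w (Xw hp lt ρ u h) (p 1) (p 2) 1 * w (Xw hp lt ρ u h) (p 0) (p 1) 1)] ++
  L.map (fun γ => ⁅ρ γ, u⁆) ++ L.map (fun γ => ⁅ρ γ, h⁆) ++
  LB.map (fun k => cj hp ρ h (p 1) k * u * (cj hp ρ h (p 1) k)⁻¹ * (xw hp lt ρ u h (ζ : F)⁻¹)⁻¹) ++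
  LC.map (fun k => ⁅xw hp lt ρ u h 1, Xw hp lt ρ u h (p 1) k 1⁆ * (Xw hp lt ρ u h (p 0) k 1)⁻¹) ++
  LD.map (fun kl => ⁅xw hp lt ρ u h 1, Xw hp lt ρ u h kl.1 kl.2 1⁆)

theorem RL_map {K' : Type*} [Group K'] (φ : K →* K') (lt : F → List ℤ) (ζ : Fˣ) (R0 : List (FreeGroup (Fin 2)))
    (L : List (alternatingGroup ι)) (LB LC : List ι) (LD : List (ι × ι)) (ρ : alternatingGroup ι →* K) (u h : K) :
    (RL hp lt ζ R0 L LB LC LD ρ u h).map φ = RL hp lt ζ R0 L LB LC LD (φ.comp ρ) (φ u) (φ h) := by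
  have e1 : ∀ t : F, φ (xw hp lt ρ u h t) = xw hp lt (φ.comp ρ) (φ u) (φ h) t := by
    intro t
    unfold xw
    rw [map_pw, map_cj]
  have e2 : (⇑φ ∘ ⇑(FreeGroup.lift ![u, cj hp ρ h (p 1) (p 2)])) =
      ⇑(FreeGroup.lift ![φ u, cj hp (φ.comp ρ) (φ h) (p 1) (p 2)]) := by
    have : φ.comp (FreeGroup.lift ![u, cj hp ρ h (p 1) (p 2)]) =
        FreeGroup.lift ![φ u, cj hp (φ.comp ρ) (φ h) (p 1) (p 2)] := by
      ext i
      fin_cases i
      · simp
      · simp [map_cj]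
    rw [← this]
    rfl
  unfold RL
  simp only [List.map_append, List.map_map, List.map_cons, List.map_nil, map_mul, map_inv, e1, e2, map_cj,
    map_wXw, map_tXw, map_commutatorElement, Function.comp_def, map_Xw, MonoidHom.comp_apply]

theorem RL_length (lt : F → List ℤ) (ζ : Fˣ) (R0 : List (FreeGroup (Fin 2))) (L : List (alternatingGroup ι))
    (LB LC : List ι) (LD : List (ι × ι)) (ρ : alternatingGroup ι →* K) (u h : K) :
    (RL hp lt ζ R0 L LB LC LD ρ u h).length =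
      R0.length + 6 + 2 * L.length + LB.length + LC.length + LD.length := by
  unfold RL
  simp only [List.length_append, List.length_map, List.length_cons, List.length_nil]
  ring

end words

section comm

variable {J : Type*} [Group J] {ρ : alternatingGroup ι →* J} {h : J}

theorem T1_gen (sth : ∀ γ : alternatingGroup ι, (γ : Perm ι) (p 0) = p 0 → (γ : Perm ι) (p 1) = p 1 → Commute (ρ γ) h)
    (T1 : cj hp ρ h (p 1) (p 0) = h⁻¹) {i j : ι} (hij : i ≠ j) : cj hp ρ h j i = (cj hp ρ h i j)⁻¹ := by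
  have h1 := conj_cj hp sth (sg hp i j) (p01 hp).symm
  rw [sg_zero hp hij, sg_one hp hij, T1] at h1
  rw [← h1]
  unfold cj
  group

theorem comm_gen (sth : ∀ γ : alternatingGroup ι, (γ : Perm ι) (p 0) = p 0 → (γ : Perm ι) (p 1) = p 1 → Commute (ρ γ) h)
    (T1 : cj hp ρ h (p 1) (p 0) = h⁻¹) (T2 : h * cj hp ρ h (p 1) (p 2) * cj hp ρ h (p 2) (p 0) = 1)
    (hg : Commute h (cj hp ρ h (p 1) (p 2))) {k : ι} (hk0 : k ≠ p 0) (hk1 : k ≠ p 1) :
    Commute h (cj hp ρ h (p 1) k) := by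
  have hb : cj hp ρ h (p 0) (p 1) = h := cj_base hp sth
  obtain ⟨γ, h2, ⟨h0, h1⟩ | ⟨h0, h1⟩⟩ := even_triple hp (p01 hp) hk0.symm hk1.symm
  · have e1 := conj_comm hg (ρ γ)
    have e2 := conj_cj hp sth γ (p01 hp)
    rw [hb, h0, h1, hb] at e2
    rw [e2, conj_cj hp sth γ (p12 hp), h1, h2] at e1
    exact e1
  · have e1 := conj_comm hg (ρ γ)
    have e2 := conj_cj hp sth γ (p01 hp)
    rw [hb, h0, h1, T1] at e2
    have e3 := conj_cj hp sth γ (p12 hp)
    rw [h1, h2] at e3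
    rw [e2, e3] at e1
    have e4 : Commute h (cj hp ρ h (p 0) k) := by
      have := e1.inv_left
      rwa [inv_inv] at this
    have e5 := conj_cj hp sth γ (p02 hp).symm
    rw [h2, h0] at e5
    have e6 : h⁻¹ * cj hp ρ h (p 0) k * cj hp ρ h k (p 1) = 1 := by
      rw [← e2, ← e3, ← e5]
      calc ρ γ * h * (ρ γ)⁻¹ * (ρ γ * cj hp ρ h (p 1) (p 2) * (ρ γ)⁻¹) *
          (ρ γ * cj hp ρ h (p 2) (p 0) * (ρ γ)⁻¹) =
          ρ γ * (h * cj hp ρ h (p 1) (p 2) * cj hp ρ h (p 2) (p 0)) * (ρ γ)⁻¹ := by group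
        _ = 1 := by rw [T2]; group
    rw [T1_gen hp sth T1 hk1, ← eq_inv_of_mul_eq_one_left e6]
    exact (Commute.refl h).inv_right.mul_right e4

end comm

/-- the conditions on the lists -/
structure Lists (L : List (alternatingGroup ι)) (LB LC : List ι) (LD : List (ι × ι)) : Prop where
  fixL : ∀ γ ∈ L, (γ : Perm ι) (p 0) = p 0 ∧ (γ : Perm ι) (p 1) = p 1
  genL : ∀ γ : alternatingGroup ι, (γ : Perm ι) (p 0) = p 0 → (γ : Perm ι) (p 1) = p 1 →
    γ ∈ Subgroup.closure {s | s ∈ L}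
  okB : ∀ k ∈ LB, k ≠ p 0 ∧ k ≠ p 1
  okC : ∀ k ∈ LC, k ≠ p 0 ∧ k ≠ p 1
  okD : ∀ kl ∈ LD, kl.1 ≠ p 0 ∧ kl.1 ≠ p 1 ∧ kl.2 ≠ p 0 ∧ kl.2 ≠ p 1 ∧ kl.1 ≠ kl.2
  B : ∀ k, k ≠ p 0 → k ≠ p 1 → ∃ γ : alternatingGroup ι, (γ : Perm ι) (p 0) = p 0 ∧ (γ : Perm ι) (p 1) = p 1 ∧
    ∃ k' ∈ p 2 :: LB, (γ : Perm ι) k' = k
  C : ∀ k, k ≠ p 0 → k ≠ p 1 → ∃ γ : alternatingGroup ι, (γ : Perm ι) (p 0) = p 0 ∧ (γ : Perm ι) (p 1) = p 1 ∧
    ∃ k' ∈ LC, (γ : Perm ι) k' = k
  D : ∀ k l, k ≠ p 0 → k ≠ p 1 → l ≠ p 0 → l ≠ p 1 → k ≠ l → ∃ γ : alternatingGroup ι,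
    (γ : Perm ι) (p 0) = p 0 ∧ (γ : Perm ι) (p 1) = p 1 ∧ ∃ kl ∈ LD, (γ : Perm ι) kl.1 = k ∧ (γ : Perm ι) kl.2 = l

section converse

variable {J : Type} [Group J] [Fintype F] {ρ : alternatingGroup ι →* J} {u h : J} {ζ : Fˣ}

theorem dat_of (hζ : ∀ y, y ∈ Subgroup.zpowers ζ) {lt : F → List ℤ} (hlt : ∀ t, ev ((ζ⁻¹ : Fˣ) : F) (lt t) = t)
    {R0 : List (FreeGroup (Fin 2))}
    (hR0 : ∀ (J : Type) [Group J] (u h : J), (∀ r ∈ R0, FreeGroup.lift ![u, h] r = 1) →
      ∃ x : F → J, (∀ s t, x (s + t) = x s * x t) ∧ x 1 = u ∧ (∀ t, h * x t * h⁻¹ = x (((ζ⁻¹ : Fˣ) : F) * t)) ∧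
        (∀ t, x t ∈ Subgroup.closure {u, h}))
    {L : List (alternatingGroup ι)} {LB LC : List ι} {LD : List (ι × ι)} (hL : Lists (p := p) L LB LC LD)
    (hr : ∀ r ∈ RL hp lt ζ R0 L LB LC LD ρ u h, r = 1) :
    Dat hp ρ (xw hp lt ρ u h) h ζ ∧ xw hp lt ρ u h 1 = u := by
  have r0 : ∀ r ∈ R0, FreeGroup.lift ![u, cj hp ρ h (p 1) (p 2)] r = 1 := by
    intro r hr'
    apply hr
    unfold RL
    simp only [List.mem_append, List.mem_map]
    exact Or.inl (Or.inl (Or.inl (Or.inl (Or.inl (Or.inl ⟨r, hr', rfl⟩)))))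
  have r6 : ∀ r ∈ [h * u * h⁻¹ * (xw hp lt ρ u h ((ζ : F) ^ 2))⁻¹,
    cj hp ρ h (p 1) (p 0) * h,
    h * cj hp ρ h (p 1) (p 2) * cj hp ρ h (p 2) (p 0),
    ⁅h, cj hp ρ h (p 1) (p 2)⁆,
    h * (t (Xw hp lt ρ u h) (p 0) (p 1) (ζ : F))⁻¹,
    ρ (cyc hp) * (w (Xw hp lt ρ u h) (p 1) (p 2) 1 * w (Xw hp lt ρ u h) (p 0) (p 1) 1)], r = 1 := by
    intro r hr'
    apply hr
    unfold RL
    simp only [List.mem_append]
    exact Or.inl (Or.inl (Or.inl (Or.inl (Or.inl (Or.inr hr')))))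
  have rLu : ∀ γ ∈ L, Commute (ρ γ) u := by
    intro γ hγ
    rw [← commutatorElement_eq_one_iff_commute]
    apply hr
    unfold RL
    simp only [List.mem_append, List.mem_map]
    exact Or.inl (Or.inl (Or.inl (Or.inl (Or.inr ⟨γ, hγ, rfl⟩))))
  have rLh : ∀ γ ∈ L, Commute (ρ γ) h := by
    intro γ hγ
    rw [← commutatorElement_eq_one_iff_commute]
    apply hr
    unfold RL
    simp only [List.mem_append, List.mem_map]
    exact Or.inl (Or.inl (Or.inl (Or.inr ⟨γ, hγ, rfl⟩)))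
  have rB : ∀ k ∈ LB, cj hp ρ h (p 1) k * u * (cj hp ρ h (p 1) k)⁻¹ = xw hp lt ρ u h (ζ : F)⁻¹ := by
    intro k hk
    rw [← mul_inv_eq_one]
    apply hr
    unfold RL
    simp only [List.mem_append, List.mem_map]
    exact Or.inl (Or.inl (Or.inr ⟨k, hk, rfl⟩))
  have rC : ∀ k ∈ LC, ⁅xw hp lt ρ u h 1, Xw hp lt ρ u h (p 1) k 1⁆ = Xw hp lt ρ u h (p 0) k 1 := by
    intro k hk
    rw [← mul_inv_eq_one]
    apply hr
    unfold RL
    simp only [List.mem_append, List.mem_map]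
    exact Or.inl (Or.inr ⟨k, hk, rfl⟩)
  have rD : ∀ kl ∈ LD, Commute (xw hp lt ρ u h 1) (Xw hp lt ρ u h kl.1 kl.2 1) := by
    intro kl hk
    rw [← commutatorElement_eq_one_iff_commute]
    apply hr
    unfold RL
    simp only [List.mem_append, List.mem_map]
    exact Or.inr ⟨kl, hk, rfl⟩
  simp only [List.forall_mem_cons, List.not_mem_nil, IsEmpty.forall_iff, implies_true, and_true] at r6
  obtain ⟨q1, q2, q3, q4, q5, q6⟩ := r6
  rw [commutatorElement_eq_one_iff_commute] at q4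
  rw [mul_inv_eq_one] at q1 q5
  -- the root group
  obtain ⟨x, hadd, hx1, hgx, -⟩ := hR0 J u (cj hp ρ h (p 1) (p 2)) r0
  have hxw : ∀ t, xw hp lt ρ u h t = x t := by
    intro t
    unfold xw
    rw [← hx1, pw_root hadd hgx, hlt, mul_one]
  have hxe : xw hp lt ρ u h = x := funext hxw
  have hXw : Xw hp lt ρ u h = XX hp ρ x := by unfold Xw; rw [hxe]
  rw [hxe] at rB rC rD q1
  rw [hXw] at rC rD q5 q6
  rw [hxe]
  have T1 : cj hp ρ h (p 1) (p 0) = h⁻¹ := eq_inv_of_mul_eq_one_left q2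
  have act : Act h x ((ζ : F) ^ 2) := by
    refine act_pw hadd hgx q4 ?_ fun t => ⟨lt t, hlt t⟩
    rw [hx1]; exact q1
  -- the stabilizer
  have sth : ∀ γ : alternatingGroup ι, (γ : Perm ι) (p 0) = p 0 → (γ : Perm ι) (p 1) = p 1 → Commute (ρ γ) h := by
    intro γ g0 g1
    have := hL.genL γ g0 g1
    induction this using Subgroup.closure_induction with
    | mem y hy => exact rLh y hy
    | one => rw [map_one]; exact Commute.one_left h
    | mul a b ha hb iha ihb =>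
      have hfix : ∀ c ∈ Subgroup.closure {s | s ∈ L}, (c : Perm ι) (p 0) = p 0 ∧ (c : Perm ι) (p 1) = p 1 := by
        intro c hc
        induction hc using Subgroup.closure_induction with
        | mem y hy => exact hL.fixL y hy
        | one => exact ⟨rfl, rfl⟩
        | mul a b _ _ iha ihb =>
          refine ⟨?_, ?_⟩
          · change (a : Perm ι) ((b : Perm ι) (p 0)) = p 0
            rw [ihb.1, iha.1]
          · change (a : Perm ι) ((b : Perm ι) (p 1)) = p 1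
            rw [ihb.2, iha.2]
        | inv a _ iha =>
          refine ⟨?_, ?_⟩
          · change (a : Perm ι)⁻¹ (p 0) = p 0
            rw [Perm.inv_eq_iff_eq, iha.1]
          · change (a : Perm ι)⁻¹ (p 1) = p 1
            rw [Perm.inv_eq_iff_eq, iha.2]
      rw [map_mul]
      exact (iha (hfix a ha).1 (hfix a ha).2).mul_left (ihb (hfix b hb).1 (hfix b hb).2)
    | inv a ha iha =>
      have g0' : (a : Perm ι) (p 0) = p 0 := by
        have e : (a : Perm ι)⁻¹ (p 0) = p 0 := g0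
        rw [Perm.inv_eq_iff_eq] at e
        exact e.symm
      have g1' : (a : Perm ι) (p 1) = p 1 := by
        have e : (a : Perm ι)⁻¹ (p 1) = p 1 := g1
        rw [Perm.inv_eq_iff_eq] at e
        exact e.symm
      rw [map_inv]
      exact (iha g0' g1').inv_left
  have stu : ∀ γ ∈ Subgroup.closure {s | s ∈ L}, Commute (ρ γ) u := by
    intro γ hγ
    induction hγ using Subgroup.closure_induction with
    | mem y hy => exact rLu y hy
    | one => rw [map_one]; exact Commute.one_left u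
    | mul a b ha hb iha ihb => rw [map_mul]; exact iha.mul_left ihb
    | inv a ha iha => rw [map_inv]; exact iha.inv_left
  have stx : ∀ γ : alternatingGroup ι, (γ : Perm ι) (p 0) = p 0 → (γ : Perm ι) (p 1) = p 1 →
      ∀ t, Commute (ρ γ) (x t) := by
    intro γ g0 g1 t
    have h1 := sth γ g0 g1
    have h2 := stu γ (hL.genL γ g0 g1)
    obtain ⟨l, hl⟩ := exists_lt_sq hζ t
    have h3 : x t = pw h u l := by
      rw [← hx1, pw_root hadd act, hl, mul_one]
    rw [h3]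
    clear h3 hl
    induction l with
    | nil => exact Commute.one_right _
    | cons a l ih =>
      rw [pw_cons]
      exact (h2.zpow_right a).mul_right ((h1.mul_right ih).mul_right h1.inv_right)
  have hb1 : cj hp ρ h (p 0) (p 1) = h := cj_base hp sth
  have X01 : ∀ t, XX hp ρ x (p 0) (p 1) t = x t := fun t => cj_base hp (fun γ g0 g1 => stx γ g0 g1 t)
  have conjX : ∀ (γ : alternatingGroup ι) {i j : ι}, i ≠ j → ∀ t, ρ γ * XX hp ρ x i j t * (ρ γ)⁻¹ =
      XX hp ρ x ((γ : Perm ι) i) ((γ : Perm ι) j) t := fun γ i j hij t =>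
    conj_cj hp (fun γ g0 g1 => stx γ g0 g1 t) γ hij
  have hBact : ∀ k, k ≠ p 0 → k ≠ p 1 → Act (cj hp ρ h (p 1) k) x (ζ : F)⁻¹ := by
    intro k h0 h1
    obtain ⟨γ, g0, g1, k', hk', e⟩ := hL.B k h0 h1
    have hne : p 1 ≠ k' := fun e' => h1 (by rw [← e, ← e', g1])
    have h2 : Act (cj hp ρ h (p 1) k') x (ζ : F)⁻¹ := by
      rw [List.mem_cons] at hk'
      rcases hk' with rfl | hk'
      · intro t
        rw [hgx, Units.val_inv_eq_inv_val]
      · refine act_pw hadd act (comm_gen hp sth T1 q3 q4 (hL.okB k' hk').1 (hL.okB k' hk').2).symm ?_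
          fun t => exists_lt_sq hζ t
        rw [hx1]; exact rB k' hk'
    have h3 := h2.conj (ρ γ)
    refine h3.congr ?_ ?_ rfl
    · rw [conj_cj hp sth γ hne, g1, e]
    · intro t
      rw [(stx γ g0 g1 t).eq, mul_inv_cancel_right]
  refine ⟨?_, hx1⟩
  exact
  { add := hadd
    stx := stx
    sth := sth
    act := act
    B := hBact
    T1 := T1
    T2 := q3
    hg := q4
    C := by
      intro k h0 h1
      obtain ⟨γ, g0, g1, k', hk', e⟩ := hL.C k h0 h1
      have h2 := rC k' hk'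
      have n0 := (hL.okC k' hk').1
      have n1 := (hL.okC k' hk').2
      have e1 := conjX γ (Ne.symm n1) 1
      have e2 := conjX γ (Ne.symm n0) 1
      rw [g1, e] at e1
      rw [g0, e] at e2
      have e3 : ρ γ * x 1 * (ρ γ)⁻¹ = x 1 := by rw [(stx γ g0 g1 1).eq, mul_inv_cancel_right]
      rw [← e1, ← e2, ← h2]
      conv_lhs => rw [← e3]
      rw [conj_br]
    D := by
      intro k l hk0 hk1 hl0 hl1 hkl
      obtain ⟨γ, g0, g1, kl, hk', ek, el⟩ := hL.D k l hk0 hk1 hl0 hl1 hkl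
      have h2 := conj_comm (rD kl hk') (ρ γ)
      have n := (hL.okD kl hk').2.2.2.2
      have e1 := conjX γ n 1
      rw [ek, el] at e1
      have e3 : ρ γ * x 1 * (ρ γ)⁻¹ = x 1 := by rw [(stx γ g0 g1 1).eq, mul_inv_cancel_right]
      rwa [e1, e3] at h2
    H := q5
    Id := by
      rw [← mul_inv_rev, eq_inv_iff_mul_eq_one]
      exact q6 }

end converse

section direct

variable [Fintype F] {ζ : Fˣ}

/-- the relators hold in a group with the data -/
theorem rels_of {K : Type v} [Group K] {ρ : alternatingGroup ι →* K} {x : F → K} {h : K}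
    (d : Dat hp ρ x h ζ) {lt : F → List ℤ} (hlt : ∀ t, ev ((ζ⁻¹ : Fˣ) : F) (lt t) = t)
    {R0 : List (FreeGroup (Fin 2))}
    (hR0 : ∀ (G : Type v) [Group G] (x : F → G) (h : G), (∀ s t, x (s + t) = x s * x t) →
      (∀ t, h * x t * h⁻¹ = x (((ζ⁻¹ : Fˣ) : F) * t)) → ∀ r ∈ R0, FreeGroup.lift ![x 1, h] r = 1)
    {L : List (alternatingGroup ι)} {LB LC : List ι} {LD : List (ι × ι)} (hL : Lists (p := p) L LB LC LD) :
    ∀ r ∈ RL hp lt ζ R0 L LB LC LD ρ (x 1) h, r = 1 := by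
  have hg2 : Act (cj hp ρ h (p 1) (p 2)) x (ζ : F)⁻¹ := d.B (p 2) (p02 hp).symm (p12 hp).symm
  have hgx : ∀ t, cj hp ρ h (p 1) (p 2) * x t * (cj hp ρ h (p 1) (p 2))⁻¹ = x (((ζ⁻¹ : Fˣ) : F) * t) := by
    intro t
    rw [hg2 t, Units.val_inv_eq_inv_val]
  have hxw : ∀ t, xw hp lt ρ (x 1) h t = x t := by
    intro t
    unfold xw
    rw [pw_root d.add hgx, hlt, mul_one]
  have hxe : xw hp lt ρ (x 1) h = x := funext hxw
  have hXw : Xw hp lt ρ (x 1) h = XX hp ρ x := by unfold Xw; rw [hxe]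
  intro r hr
  unfold RL at hr
  rw [hXw, hxe] at hr
  simp only [List.mem_append, List.mem_map, List.mem_cons, List.not_mem_nil, or_false] at hr
  rcases hr with (((((⟨r, hr, rfl⟩ | hr) | ⟨γ, hγ, rfl⟩) | ⟨γ, hγ, rfl⟩) | ⟨k, hk, rfl⟩) | ⟨k, hk, rfl⟩) | ⟨kl, hk, rfl⟩
  · exact hR0 K x _ d.add hgx r hr
  · rcases hr with rfl | rfl | rfl | rfl | rfl | rfl
    · rw [d.act, mul_one, mul_inv_cancel]
    · rw [d.T1, inv_mul_cancel]
    · exact d.T2
    · exact commutatorElement_eq_one_iff_commute.2 d.hg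
    · rw [← d.H, mul_inv_cancel]
    · rw [d.Id, ← mul_inv_rev, inv_mul_cancel]
  · exact commutatorElement_eq_one_iff_commute.2 (d.stx γ (hL.fixL γ hγ).1 (hL.fixL γ hγ).2 1)
  · exact commutatorElement_eq_one_iff_commute.2 (d.sth γ (hL.fixL γ hγ).1 (hL.fixL γ hγ).2)
  · rw [d.B k (hL.okB k hk).1 (hL.okB k hk).2, mul_one, mul_inv_cancel]
  · rw [d.C k (hL.okC k hk).1 (hL.okC k hk).2, mul_inv_cancel]
  · obtain ⟨a, b, c, e, f⟩ := hL.okD kl hk
    exact commutatorElement_eq_one_iff_commute.2 (d.D kl.1 kl.2 a b c e f)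

end direct

include hp in
/-- **the quotient of the free product** -/
theorem quo [Fintype F] (hι : 4 ≤ Fintype.card ι) {L : List (alternatingGroup ι)} {LB LC : List ι}
    {LD : List (ι × ι)} (hL : Lists (p := p) L LB LC LD) :
    H111.Quo (Monoid.Coprod (alternatingGroup ι) (FreeGroup (Fin 2))) (SpecialLinearGroup ι F)
      (10 + 2 * L.length + LB.length + LC.length + LD.length) := by
  classical
  obtain ⟨ζ, hζ⟩ := IsCyclic.exists_generator (α := Fˣ)
  obtain ⟨R0, hlen, hR1, hR2⟩ := uRelS_gen (gen_inv hζ)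
  obtain ⟨lt, hlt⟩ : ∃ lt : F → List ℤ, ∀ t, ev ((ζ⁻¹ : Fˣ) : F) (lt t) = t :=
    ⟨fun t => (exists_lt (gen_inv hζ) t).choose, fun t => (exists_lt (gen_inv hζ) t).choose_spec⟩
  let f : Monoid.Coprod (alternatingGroup ι) (FreeGroup (Fin 2)) →* SpecialLinearGroup ι F :=
    Monoid.Coprod.lift (r0 F) (FreeGroup.lift ![x0 hp 1, h0 hp ζ])
  have d0 := dat0 hp (F := F) ζ
  have fl : f.comp Monoid.Coprod.inl = r0 F := by ext1 γ; simp [f]
  have fu : f (Monoid.Coprod.inr (FreeGroup.of 0)) = x0 hp 1 := by simp [f]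
  have fh : f (Monoid.Coprod.inr (FreeGroup.of 1)) = h0 hp ζ := by simp [f]
  have hrel0 := rels_of hp d0 hlt hR1 hL
  -- surjectivity
  have hsurj : Function.Surjective f := by
    rw [← MonoidHom.range_eq_top, eq_top_iff, ← closure_transvections, Subgroup.closure_le]
    rintro _ ⟨i, j, hij, a, rfl⟩
    have hr0 : ∀ γ, r0 F γ ∈ f.range := fun γ => ⟨Monoid.Coprod.inl γ, by simp [f]⟩
    have hu : x0 hp 1 ∈ f.range := ⟨_, fu⟩
    have hh : h0 hp ζ ∈ f.range := ⟨_, fh⟩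
    have hcj : ∀ y ∈ f.range, ∀ i j, cj hp (r0 F) y i j ∈ f.range := by
      intro y hy i j
      exact mul_mem (mul_mem (hr0 _) hy) (inv_mem (hr0 _))
    have hpw : ∀ l : List ℤ, pw (cj hp (r0 F) (h0 hp ζ) (p 1) (p 2)) (x0 hp (1 : F)) l ∈ f.range := by
      intro l
      induction l with
      | nil => exact one_mem _
      | cons a l ih =>
        exact mul_mem (zpow_mem hu a) (mul_mem (mul_mem (hcj _ hh _ _) ih) (inv_mem (hcj _ hh _ _)))
    have hx : ∀ t : F, x0 hp t ∈ f.range := by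
      intro t
      have hg2 : Act (cj hp (r0 F) (h0 hp ζ) (p 1) (p 2)) (x0 hp) (ζ : F)⁻¹ :=
        d0.B (p 2) (p02 hp).symm (p12 hp).symm
      have := hpw (lt t)
      rw [pw_root d0.add (γ := ((ζ⁻¹ : Fˣ) : F)) (fun t => by rw [hg2 t, Units.val_inv_eq_inv_val]), hlt,
        mul_one] at this
      exact this
    have := hcj _ (hx a) i j
    have e := X0_eq hp (F := F) hij a
    unfold XX at e
    rw [e] at this
    exact this
  have hq := H111.Quo.of_univ f hsurj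
    (RL hp lt ζ R0 L LB LC LD Monoid.Coprod.inl (Monoid.Coprod.inr (FreeGroup.of 0))
      (Monoid.Coprod.inr (FreeGroup.of 1))) (by
    intro r hr
    apply hrel0
    have := RL_map hp f lt ζ R0 L LB LC LD Monoid.Coprod.inl (Monoid.Coprod.inr (FreeGroup.of 0))
      (Monoid.Coprod.inr (FreeGroup.of 1))
    rw [fl, fu, fh] at this
    rw [← this]
    exact List.mem_map_of_mem hr) (by
    intro φ hφ
    have h1 : ∀ r ∈ RL hp lt ζ R0 L LB LC LD (φ.comp Monoid.Coprod.inl) (φ (Monoid.Coprod.inr (FreeGroup.of 0)))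
        (φ (Monoid.Coprod.inr (FreeGroup.of 1))), r = 1 := by
      intro r hr
      rw [← RL_map] at hr
      obtain ⟨r', hr', rfl⟩ := List.mem_map.1 hr
      exact hφ r' hr'
    obtain ⟨d, hd1⟩ := dat_of hp hζ hlt hR2 hL h1
    obtain ⟨π, hπ1, hπ2, hπ3⟩ := d.exists_hom hι hζ
    have e : π.comp f = φ := by
      apply Monoid.Coprod.hom_ext
      · ext1 γ
        simp only [MonoidHom.comp_apply, f, Monoid.Coprod.lift_apply_inl]
        exact hπ1 γ
      · ext i
        fin_cases i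
        · simp only [MonoidHom.comp_apply, f, Monoid.Coprod.lift_apply_inr, FreeGroup.lift_apply_of]
          exact (hπ2 1).trans hd1
        · simp only [MonoidHom.comp_apply, f, Monoid.Coprod.lift_apply_inr, FreeGroup.lift_apply_of]
          exact hπ3
    intro y hy
    rw [MonoidHom.mem_ker] at hy ⊢
    rw [← e, MonoidHom.comp_apply, hy, map_one])
  refine hq.mono ?_
  rw [RL_length]
  omega

end Cfsg.Agent.H109.SLn
end

-- part: H109/SLnE
section
/-!
# Presentations of `SLₙ(F)`, `n ≥ 4` (helper109)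
-/

set_option autoImplicit false
set_option linter.unusedSectionVars false
set_option linter.unusedSimpArgs false

universe v

namespace Cfsg.Agent.H109.SLn

open Equiv Equiv.Perm
open Cfsg.Agent.H111 (HasPres)

/-- generators from a presentation -/
theorem exists_gens {G : Type*} [Group G] {k m : ℕ} (h : HasPres G k m) :
    ∃ L : List G, L.length = k ∧ Subgroup.closure {s | s ∈ L} = ⊤ := by
  obtain ⟨R, -, ⟨e⟩⟩ := h
  refine ⟨(List.finRange k).map fun i => e (PresentedGroup.of i), by simp, ?_⟩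
  have h1 : {s | s ∈ (List.finRange k).map fun i => e (PresentedGroup.of i)} =
      e.toMonoidHom '' Set.range (PresentedGroup.of (rels := (↑R : Set (FreeGroup (Fin k))))) := by
    ext s
    simp
  rw [h1, ← MonoidHom.map_closure, PresentedGroup.closure_range_of, ← MonoidHom.range_eq_map,
    MonoidHom.range_eq_top]
  exact e.surjective

section stab

variable {ι : Type} [Fintype ι] [DecidableEq ι] (p : Fin 4 → ι)

/-- the complement of two points -/
abbrev Q : Type := {i : ι // i ≠ p 0 ∧ i ≠ p 1}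

/-- even permutations of the complement of two points -/
def altOf : alternatingGroup (Q p) →* alternatingGroup ι where
  toFun γ := ⟨ofSubtype (γ : Perm (Q p)), mem_alternatingGroup.2 (by
    rw [sign_ofSubtype]; exact mem_alternatingGroup.1 γ.2)⟩
  map_one' := Subtype.ext (map_one _)
  map_mul' a b := Subtype.ext (map_mul _ _ _)

theorem altOf_surj (γ : alternatingGroup ι) (h0 : (γ : Perm ι) (p 0) = p 0) (h1 : (γ : Perm ι) (p 1) = p 1) :
    ∃ γ', altOf p γ' = γ := by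
  have hq : ∀ x, (fun i => i ≠ p 0 ∧ i ≠ p 1) ((γ : Perm ι) x) ↔ (fun i => i ≠ p 0 ∧ i ≠ p 1) x := by
    intro x
    simp only
    have a0 : (γ : Perm ι) x = p 0 ↔ x = p 0 := by
      conv_lhs => rw [← h0]
      exact (γ : Perm ι).injective.eq_iff
    have a1 : (γ : Perm ι) x = p 1 ↔ x = p 1 := by
      conv_lhs => rw [← h1]
      exact (γ : Perm ι).injective.eq_iff
    rw [Ne, Ne, a0, a1]
  have hs : ofSubtype (subtypePerm (p := fun i => i ≠ p 0 ∧ i ≠ p 1) (γ : Perm ι) hq) = (γ : Perm ι) := by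
    apply ofSubtype_subtypePerm
    intro x hx
    exact ⟨fun e => hx (by rw [e, h0]), fun e => hx (by rw [e, h1])⟩
  refine ⟨⟨subtypePerm (p := fun i => i ≠ p 0 ∧ i ≠ p 1) (γ : Perm ι) hq, mem_alternatingGroup.2 ?_⟩, Subtype.ext hs⟩
  rw [← sign_ofSubtype, hs]
  exact mem_alternatingGroup.1 γ.2

theorem altOf_fix (γ : alternatingGroup (Q p)) :
    (altOf p γ : Perm ι) (p 0) = p 0 ∧ (altOf p γ : Perm ι) (p 1) = p 1 := by
  refine ⟨?_, ?_⟩
  · exact ofSubtype_apply_of_not_mem _ (by simp)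
  · exact ofSubtype_apply_of_not_mem _ (by simp)

theorem exists_L {L' : List (alternatingGroup (Q p))} (h : Subgroup.closure {s | s ∈ L'} = ⊤) :
    ∃ L : List (alternatingGroup ι), L.length = L'.length ∧
      (∀ γ ∈ L, (γ : Perm ι) (p 0) = p 0 ∧ (γ : Perm ι) (p 1) = p 1) ∧
      (∀ γ : alternatingGroup ι, (γ : Perm ι) (p 0) = p 0 → (γ : Perm ι) (p 1) = p 1 →
        γ ∈ Subgroup.closure {s | s ∈ L}) := by
  refine ⟨L'.map (altOf p), by simp, ?_, ?_⟩
  · intro γ hγ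
    obtain ⟨γ', -, rfl⟩ := List.mem_map.1 hγ
    exact altOf_fix p γ'
  · intro γ h0 h1
    obtain ⟨γ', rfl⟩ := altOf_surj p γ h0 h1
    have h2 : {s | s ∈ L'.map (altOf p)} = altOf p '' {s | s ∈ L'} := by
      ext s; simp
    rw [h2, ← MonoidHom.map_closure, h]
    exact ⟨γ', trivial, rfl⟩

theorem card_Q (hp : Function.Injective p) : Fintype.card (Q p) = Fintype.card ι - 2 := by
  have h1 : Fintype.card (Q p) = Fintype.card {i : ι // ¬ (i = p 0 ∨ i = p 1)} := by
    apply Fintype.card_congr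
    apply Equiv.subtypeEquivRight
    intro x
    rw [not_or]
  rw [h1, Fintype.card_subtype_compl]
  congr 1
  rw [Fintype.card_subtype]
  have h2 : (Finset.univ.filter fun i : ι => i = p 0 ∨ i = p 1) = {p 0, p 1} := by
    ext x; simp
  rw [h2, Finset.card_pair (p01 hp)]

end stab

section lists

variable {ι : Type} [Fintype ι] [DecidableEq ι] {p : Fin 4 → ι} (hp : Function.Injective p)

include hp

theorem lists_six (h6 : 6 ≤ Fintype.card ι) : ∃ L : List (alternatingGroup ι), L.length = 2 ∧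
    Lists (p := p) L [] [p 2] [(p 2, p 3)] := by
  have e : Fin (Fintype.card ι - 2) ≃ Q p := (Fintype.equivFinOfCardEq (card_Q p hp)).symm
  have h2 := (Cfsg.Agent.H110.AltPres.hasPres_alt_two (Fintype.card ι - 2)).of_mulEquiv e.altCongrHom
  obtain ⟨L', hl, hL'⟩ := exists_gens h2
  obtain ⟨L, hL1, hL2, hL3⟩ := exists_L p hL'
  refine ⟨L, by rw [hL1, hl], hL2, hL3, by simp, ?_, ?_, ?_, ?_, ?_⟩
  · simp [(p02 hp).symm, (p12 hp).symm]
  · simp [(p02 hp).symm, (p12 hp).symm, (p03 hp).symm, (p13 hp).symm, p23 hp]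
  · intro k h0 h1
    obtain ⟨γ, g0, g1, g2⟩ := stab_one hp (by omega) h0 h1
    exact ⟨γ, g0, g1, p 2, by simp, g2⟩
  · intro k h0 h1
    obtain ⟨γ, g0, g1, g2⟩ := stab_one hp (by omega) h0 h1
    exact ⟨γ, g0, g1, p 2, by simp, g2⟩
  · intro k l hk0 hk1 hl0 hl1 hkl
    obtain ⟨γ, g0, g1, g2, g3⟩ := stab_two hp h6 hk0 hk1 hl0 hl1 hkl
    exact ⟨γ, g0, g1, (p 2, p 3), by simp, g2, g3⟩

theorem lists_five (h5 : Fintype.card ι = 5) : ∃ L : List (alternatingGroup ι), L.length = 1 ∧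
    Lists (p := p) L [] [p 2] [(p 2, p 3), (p 3, p 2)] := by
  have hc : Nat.card (alternatingGroup (Q p)) = 3 := by
    have hn : Nontrivial (Q p) := by
      rw [← Fintype.one_lt_card_iff_nontrivial, card_Q p hp, h5]
      norm_num
    have h1 := two_mul_card_alternatingGroup (α := Q p)
    rw [Fintype.card_perm, card_Q p hp, h5] at h1
    rw [Nat.card_eq_fintype_card]
    have : Nat.factorial (5 - 2) = 6 := rfl
    omega
  have : Fact (Nat.Prime 3) := ⟨Nat.prime_three⟩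
  have hcy : IsCyclic (alternatingGroup (Q p)) := isCyclic_of_prime_card hc
  obtain ⟨g, hg⟩ := hcy.exists_generator
  have hL' : Subgroup.closure {s | s ∈ [g]} = ⊤ := by
    rw [eq_top_iff]
    intro y _
    have h1 := hg y
    rw [Subgroup.zpowers_eq_closure] at h1
    convert h1 using 2
    ext; simp
  obtain ⟨L, hL1, hL2, hL3⟩ := exists_L p hL'
  refine ⟨L, by rw [hL1]; rfl, hL2, hL3, by simp, ?_, ?_, ?_, ?_, ?_⟩
  · simp [(p02 hp).symm, (p12 hp).symm]
  · simp [(p02 hp).symm, (p12 hp).symm, (p03 hp).symm, (p13 hp).symm, p23 hp, (p23 hp).symm]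
  · intro k h0 h1
    obtain ⟨γ, g0, g1, g2⟩ := stab_one hp (by omega) h0 h1
    exact ⟨γ, g0, g1, p 2, by simp, g2⟩
  · intro k h0 h1
    obtain ⟨γ, g0, g1, g2⟩ := stab_one hp (by omega) h0 h1
    exact ⟨γ, g0, g1, p 2, by simp, g2⟩
  · intro k l hk0 hk1 hl0 hl1 hkl
    obtain ⟨γ, g0, g1, ⟨g2, g3⟩ | ⟨g2, g3⟩⟩ := stab_quad hp hk0 hk1 hl0 hl1 hkl
    · exact ⟨γ, g0, g1, (p 2, p 3), by simp, g2, g3⟩
    · exact ⟨γ, g0, g1, (p 3, p 2), by simp, g3, g2⟩

theorem lists_four (h4 : Fintype.card ι = 4) :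
    Lists (p := p) [] [p 3] [p 2, p 3] [(p 2, p 3), (p 3, p 2)] := by
  have hc : Subsingleton (alternatingGroup (Q p)) := by
    have hn : Nontrivial (Q p) := by
      rw [← Fintype.one_lt_card_iff_nontrivial, card_Q p hp, h4]
      norm_num
    have h1 := two_mul_card_alternatingGroup (α := Q p)
    rw [Fintype.card_perm, card_Q p hp, h4] at h1
    have : Nat.factorial (4 - 2) = 2 := rfl
    rw [← Fintype.card_le_one_iff_subsingleton]
    omega
  have hs : ∀ k, k ≠ p 0 → k ≠ p 1 → k = p 2 ∨ k = p 3 := by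
    intro k h0 h1
    have hb : Function.Bijective p := by
      rw [Fintype.bijective_iff_injective_and_card]
      exact ⟨hp, by rw [h4]; simp⟩
    obtain ⟨i, rfl⟩ := hb.2 k
    fin_cases i
    · exact absurd rfl h0
    · exact absurd rfl h1
    · exact Or.inl rfl
    · exact Or.inr rfl
  refine ⟨by simp, ?_, ?_, ?_, ?_, ?_, ?_, ?_⟩
  · intro γ h0 h1
    obtain ⟨γ', rfl⟩ := altOf_surj p γ h0 h1
    rw [Subsingleton.elim γ' 1, map_one]
    exact one_mem _
  · simp [(p03 hp).symm, (p13 hp).symm]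
  · simp [(p02 hp).symm, (p12 hp).symm, (p03 hp).symm, (p13 hp).symm]
  · simp [(p02 hp).symm, (p12 hp).symm, (p03 hp).symm, (p13 hp).symm, p23 hp, (p23 hp).symm]
  · intro k h0 h1
    rcases hs k h0 h1 with rfl | rfl
    · exact ⟨1, rfl, rfl, p 2, by simp, rfl⟩
    · exact ⟨1, rfl, rfl, p 3, by simp, rfl⟩
  · intro k h0 h1
    rcases hs k h0 h1 with rfl | rfl
    · exact ⟨1, rfl, rfl, p 2, by simp, rfl⟩
    · exact ⟨1, rfl, rfl, p 3, by simp, rfl⟩
  · intro k l hk0 hk1 hl0 hl1 hkl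
    obtain ⟨γ, g0, g1, ⟨g2, g3⟩ | ⟨g2, g3⟩⟩ := stab_quad hp hk0 hk1 hl0 hl1 hkl
    · exact ⟨γ, g0, g1, (p 2, p 3), by simp, g2, g3⟩
    · exact ⟨γ, g0, g1, (p 3, p 2), by simp, g3, g2⟩

end lists

section final

variable {F : Type v} [Field F] [Fintype F]

theorem hasPres_of {n k m a : ℕ} (hA : HasPres (alternatingGroup (Fin n)) k m)
    (hq : H111.Quo (Monoid.Coprod (alternatingGroup (Fin n)) (FreeGroup (Fin 2)))
      (Matrix.SpecialLinearGroup (Fin n) F) a) :
    HasPres (Matrix.SpecialLinearGroup (Fin n) F) (k + 2) (m + a) :=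
  (hA.coprod (HasPres.free 2)).quo hq

/-- `SLₙ(F)`, `n ≥ 6` : five generators, twenty-three relators -/
theorem sln_six {n : ℕ} (hn : 6 ≤ n) : HasPres (Matrix.SpecialLinearGroup (Fin n) F) 5 23 := by
  have hp : Function.Injective (Fin.castLE (show 4 ≤ n by omega)) := Fin.castLE_injective _
  obtain ⟨L, hl, hL⟩ := lists_six hp (by simpa using hn)
  have hq := quo hp (F := F) (by simpa using (show 4 ≤ n by omega)) hL
  have := hasPres_of (Cfsg.Agent.H110.AltPres.hasPres_alt n) hq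
  refine this.mono ?_
  simp [hl]

/-- `SL₅(F)` : four generators, nineteen relators -/
theorem sln_five : HasPres (Matrix.SpecialLinearGroup (Fin 5) F) 4 19 := by
  have hp : Function.Injective (Fin.castLE (show 4 ≤ 5 by omega)) := Fin.castLE_injective _
  obtain ⟨L, hl, hL⟩ := lists_five hp (by simp)
  have hq := quo hp (F := F) (by simp) hL
  have := hasPres_of (H173.Pres.presOn_a5.hasPres) hq
  refine this.mono ?_
  simp [hl]

/-- `SL₄(F)` : four generators, nineteen relators -/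
theorem sln_four : HasPres (Matrix.SpecialLinearGroup (Fin 4) F) 4 19 := by
  have hp : Function.Injective (id : Fin 4 → Fin 4) := Function.injective_id
  have hL := lists_four hp (by simp)
  have hq := quo hp (F := F) (by simp) hL
  have := hasPres_of (H173.Pres.presOn_a4.hasPres) hq
  refine this.mono ?_
  simp

end final

end Cfsg.Agent.H109.SLn
end
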